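import Cfsg.Agent.Lib.InvChar.AEight.Checks

/-!
Finite checks on the centraliser of `φ ka2` in the group of order 192.
-/

set_option autoImplicit false
set_option maxRecDepth 100000

namespace CfsgLib.InvChar.AEight

/-- The product of `kz` and `ka2`. -/
def ku : I := fin 126
/-- An involution with label five in the four-group of `ku`. -/
def kv : I := fin 85
/-- The other one. -/
def kv' : I := fin 157
/-- An involution with centraliser of order eight in that of `ka2`. -/
def kc : I := fin 60
/-- An involution of `inA` with the product with `ka2` of the same kind. -/
def kd : I := fin 1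

/-- Membership in the subgroup of index two with `kc`. -/
def inB (i : I) : Bool := Nat.testBit 0x41000082000000041000082082000041000000082000041 i.val

/-- A label of the class of `z`. -/
def zLab (i : I) : Bool := lab i == 1 || lab i == 2 || lab i == 4 || lab i == 6
/-- A label of the class of `ka2`. -/
def wLab (i : I) : Bool := lab i == 3 || lab i == 5

/-- The class of `z` in the centraliser of `ka2`. -/
def sZ (i : I) : Bool := i.val == 6 || i.val == 91 || i.val == 163
/-- The class of `ku`. -/
def sU (i : I) : Bool := i.val == 126 || i.val == 85 || i.val == 157
/-- The class of `kd`. -/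
def sD (i : I) : Bool := i.val == 1 || i.val == 121
/-- The class of the products of `kd` with that of `ku`. -/
def sE (i : I) : Bool := i.val == 7 || i.val == 127 || i.val == 84 || i.val == 90 || i.val == 156 ||
  i.val == 162
/-- The class of `kc`. -/
def sC (i : I) : Bool := i.val == 60 || i.val == 66 || i.val == 180 || i.val == 186
/-- The class of `ka2`. -/
def sW (i : I) : Bool := i.val == 120

theorem cw_rep : com kz ka2 = true ∧ com ku ka2 = true ∧ com kv ka2 = true ∧ com kv' ka2 = true ∧
    com kc ka2 = true ∧ com kd ka2 = true ∧ com ka2 ka2 = true ∧ mul kz ka2 = ku ∧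
    mul ku kv = kv' ∧ cnt (fun i => com i kc && com i ka2) = 8 ∧ cnt (fun i => com i ka2) = 32 ∧
    cnt inB = 16 := by
  decide +kernel

/-- The involutions of the centraliser fall into six sets. -/
theorem six_check : (all1 fun i => (com i ka2 && !(lab i == 0)) ==
    (sZ i || sU i || sD i || sE i || sC i || sW i)) = true ∧
    (all1 fun i => !(sZ i) || (zLab i && wLab (mul i ka2) && inA i && inB i)) = true ∧
    (all1 fun i => !(sU i) || (wLab i && zLab (mul i ka2) && inA i && inB i)) = true ∧
    (all1 fun i => !(sD i) || (wLab i && wLab (mul i ka2) && inA i && !inB i)) = true ∧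
    (all1 fun i => !(sE i) || (zLab i && zLab (mul i ka2) && inA i && !inB i)) = true ∧
    (all1 fun i => !(sC i) || (wLab i && wLab (mul i ka2) && !inA i && inB i &&
      cnt (fun k => com k i && com k ka2) == 8 &&
      all1 fun k => !(com k i && com k ka2 && zLab k) || k.val == 6)) = true := by
  decide +kernel

theorem five_times_z : (all1 fun i => !(lab i == 5) || lab (mul i kz) == 6) = true := by
  decide +kernel

theorem a_check : (all1 fun i => (!inA i || (com i ka2 && com i kd &&
    com i (fin 91) && com i (fin 163) && com i kv && com i kv' &&
    all1 fun j => !inA j || (com i j && inA (mul i j)))) &&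
    (!(com i ka2 && com i (fin 91)) || inA i) &&
    (!(com i ka2 && com i (fin 163)) || inA i)) = true := by
  decide +kernel

theorem b_check : (all1 fun i => !inB i || (com i ka2 &&
    (all1 fun j => !inB j || inB (mul i j)) &&
    (i.val == 0 || any1 fun j => inB j && inB (mul j i) && !(lab j == 0) &&
      ((mul j i).val == 0 || !(lab (mul j i) == 0))))) = true ∧ inB 0 = true := by
  decide +kernel

theorem root_check : (all1 fun i => !(com i ka2 && (mul i i).val == ka2.val) ||
    (!inA i && !inB i)) = true := by
  decide +kernel

theorem centre_check : (all1 fun i =>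
    !(com i ka2 && all1 fun j => !com j ka2 || com i j) || i.val == 0 || i.val == 6 || wLab i) = true := by
  decide +kernel

theorem orbit_check : (all1 fun i => (!sC i || any1 fun g => com g ka2 && (cj g kc).val == i.val) &&
    (!sD i || any1 fun g => com g ka2 && (cj g kd).val == i.val) &&
    (!(i.val == 163) || any1 fun g => com g ka2 && (cj g i).val == 91)) = true ∧
    (any1 fun g => com g ka2 && (cj g kv).val == 157) = true ∧
    (any1 fun g => com g ka2 && (cj g (fin 7)).val == 127) = true ∧
    (any1 fun g => com g ka2 && (cj g (fin 84)).val == 90) = true ∧
    (any1 fun g => com g ka2 && (cj g (fin 156)).val == 162) = true := by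
  decide +kernel

end CfsgLib.InvChar.AEight
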