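import Cfsg.Agent.Lib.InvChar.AEight.Setting
import Cfsg.Agent.Lib.InvChar.AEight.CentWChecks
import Cfsg.Agent.Lib.InvChar.MTwelve.Fusion

/-!
The centraliser of `φ ka2` in a group with the fusion pattern of the alternating groups of degree
eight and nine: a Sylow subgroup, and the classes of its involutions.
-/

set_option autoImplicit false
set_option linter.unusedSectionVars false
set_option linter.style.haveILetI false

open Cfsg CfsgLib.Involutions

namespace CfsgLib.InvChar.AEight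

universe u

/-- The element `φ ka2`. -/
abbrev Ctr.w {G : Type u} [Group G] {z : G} (X : Ctr z) : G := X.φ ka2

/-- Its centraliser. -/
abbrev Ctr.L {G : Type u} [Group G] {z : G} (X : Ctr z) : Subgroup G :=
  Subgroup.centralizer ({X.w} : Set G)

/-- The centraliser of `z` and `φ ka2`. -/
abbrev Ctr.T {G : Type u} [Group G] {z : G} (X : Ctr z) : Subgroup G :=
  Subgroup.centralizer ({z} : Set G) ⊓ X.L

/-- Conjugacy under the centraliser of `φ ka2`. -/
def Ctr.LConj {G : Type u} [Group G] {z : G} (X : Ctr z) (x y : G) : Prop :=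
  ∃ g ∈ X.L, g * x * g⁻¹ = y

theorem mem_cs {H : Type*} [Group H] {x y : H} :
    x ∈ Subgroup.centralizer ({y} : Set H) ↔ x * y = y * x :=
  Subgroup.mem_centralizer_singleton_iff

theorem conj_fix {H : Type*} [Group H] {x y : H} (h : x * y = y * x) : x * y * x⁻¹ = y :=
  mul_inv_eq_iff_eq_mul.2 h

theorem comm_of_conj_fix {H : Type*} [Group H] {x y : H} (h : x * y * x⁻¹ = y) : x * y = y * x :=
  mul_inv_eq_iff_eq_mul.1 h

namespace Ctr

variable {G : Type u} [Group G] [Finite G] {z : G} (X : Ctr z)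
include X

theorem mem_L {g : G} : g ∈ X.L ↔ g * X.w = X.w * g := mem_cs

theorem phi_mem_L {i : I} (h : com i ka2 = true) : X.φ i ∈ X.L := X.mem_L.2 ((X.com_iff i ka2).1 h)

theorem mem_T (i : I) : X.φ i ∈ X.T ↔ com i ka2 = true := by
  rw [Subgroup.mem_inf, mem_cs, mem_cs, X.com_iff]
  exact ⟨fun h => h.2, fun h => ⟨X.comm_z i, h⟩⟩

theorem exists_of_mem_T {g : G} (hg : g ∈ X.T) : ∃ i, com i ka2 = true ∧ X.φ i = g := by
  obtain ⟨i, rfl⟩ := (X.mem_C g).1 hg.1
  exact ⟨i, (X.mem_T i).1 hg, rfl⟩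

theorem card_T : Nat.card X.T = 32 := by
  rw [X.card_inf ka2]
  exact (cc_of_lab).2.1 (Or.inr (Or.inl lab_rep.2.2.1))

theorem isPGroup_T : IsPGroup 2 X.T := IsPGroup.of_card (n := 5) (by rw [X.card_T]; norm_num)

theorem orderOf_w : orderOf X.w = 2 := X.orderOf_phi (by rw [lab_rep.2.2.1]; decide)

theorem z_mem_T : z ∈ X.T := by
  have h := (X.mem_T kz).2 cw_rep.1
  rwa [X.z_eq] at h

theorem z_mem_L : z ∈ X.L := X.z_mem_T.2

theorem zz : z * z = 1 := by rw [← pow_two, ← X.orderOf_z, pow_orderOf_eq_one]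

theorem ww : X.w * X.w = 1 := by rw [← pow_two, ← X.orderOf_w, pow_orderOf_eq_one]

theorem phi_ku : X.φ ku = z * X.w := by rw [← cw_rep.2.2.2.2.2.2.2.1, X.map_mul, X.z_eq]

theorem lab_of_conj {i : I} {x : G} (hx : orderOf x = 2) (h : IsConj x (X.φ i)) : lab i ≠ 0 := by
  have ho : orderOf (X.φ i) = 2 := by
    obtain ⟨g, hg⟩ := isConj_iff.1 h
    rw [← hg, orderOf_conj, hx]
  obtain ⟨j, hj, hl⟩ := X.exists_index_of_involution ho (X.comm_z i)
  rwa [X.inj hj] at hl

theorem lab_of_order {i : I} (h : orderOf (X.φ i) = 2) : lab i ≠ 0 :=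
  X.lab_of_conj h (IsConj.refl _)

variable (F : Fus9 X)
include F

theorem not_conj_w : ¬ IsConj z X.w := fun h => by
  have := ((F ka2 (by rw [lab_rep.2.2.1]; decide)).1).1 h
  rw [lab_rep.2.2.1] at this
  omega

theorem zLab_iff {i : I} (h : lab i ≠ 0) : zLab i = true ↔ IsConj z (X.φ i) := by
  rw [(F i h).1]
  simp [zLab, or_assoc]

theorem wLab_iff {i : I} (h : lab i ≠ 0) : wLab i = true ↔ IsConj X.w (X.φ i) := by
  rw [(F i h).2]
  simp [wLab]

theorem zLab_of_conj {i : I} (h : IsConj z (X.φ i)) : zLab i = true :=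
  (X.zLab_iff F (X.lab_of_conj X.orderOf_z h)).2 h

theorem wLab_of_conj {i : I} (h : IsConj X.w (X.φ i)) : wLab i = true :=
  (X.wLab_iff F (X.lab_of_conj X.orderOf_w h)).2 h

theorem conj_z_of_zLab {i : I} (h : zLab i = true) : IsConj z (X.φ i) :=
  (X.zLab_iff F (by intro e; simp [zLab, e] at h)).1 h

theorem conj_w_of_wLab {i : I} (h : wLab i = true) : IsConj X.w (X.φ i) :=
  (X.wLab_iff F (by intro e; simp [wLab, e] at h)).1 h

theorem not_both {x : G} (h1 : IsConj z x) (h2 : IsConj X.w x) : False :=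
  X.not_conj_w F (h1.trans h2.symm)

/-- The normaliser of `T` in `C(w)` is `T`. -/
theorem normalizer_T {g : G} (hgL : g ∈ X.L) (hn : ∀ t ∈ X.T, g * t * g⁻¹ ∈ X.T) : g ∈ X.T := by
  obtain ⟨i, hi, e⟩ := X.exists_of_mem_T (hn z X.z_mem_T)
  have hc : IsConj z (X.φ i) := isConj_iff.2 ⟨g, e.symm⟩
  have hmap : X.T.map (MulAut.conj g).toMonoidHom = X.T :=
    Subgroup.eq_of_le_of_card_ge (by rintro _ ⟨t, ht, rfl⟩; exact hn t ht)
      (by rw [Subgroup.card_map_of_injective (MulAut.conj g).injective])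
  have hall : (all1 fun j => !com j ka2 || com i j) = true := by
    rw [all1, List.all_eq_true]
    intro n hn'
    rcases hb : com (fin n) ka2 with _ | _
    · rfl
    simp only [Bool.not_true, Bool.false_or]
    obtain ⟨t, ht, et⟩ := hmap.ge ((X.mem_T (fin n)).2 hb)
    rw [X.com_iff, e, ← et]
    exact comm_conj g (mem_cs.1 ht.1).symm
  have h := all1_spec centre_check i
  simp only [hi, hall, Bool.and_self, Bool.not_true, Bool.false_or, Bool.or_eq_true,
    beq_iff_eq] at h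
  rcases h with (h | h) | h
  · exfalso
    have h0 := X.lab_of_conj X.orderOf_z hc
    rw [show i = 0 from Fin.ext h] at h0
    exact h0 (by decide +kernel)
  · refine Subgroup.mem_inf.2 ⟨mem_cs.2 (comm_of_conj_fix ?_), hgL⟩
    rw [← e, show i = kz from Fin.ext h, X.z_eq]
  · exact absurd (X.conj_w_of_wLab F h) fun h' => X.not_both F hc h'

theorem eq_T {P : Subgroup G} (hP : IsPGroup 2 P) (hPL : P ≤ X.L) (hTP : X.T ≤ P) : P = X.T := by
  haveI := Fact.mk Nat.prime_two
  exact MTwelve.eq_of_normalizer_le hP hTP fun g hg hn => X.normalizer_T F (hPL hg) hn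

/-- `T` is a Sylow subgroup of `C(w)`. -/
theorem sylow_T : ∃ Q : Sylow 2 ↥X.L, (Q : Subgroup ↥X.L) = X.T.subgroupOf X.L := by
  have hp : IsPGroup 2 ↥(X.T.subgroupOf X.L) :=
    X.isPGroup_T.of_equiv (Subgroup.subgroupOfEquivOfLe inf_le_right).symm
  obtain ⟨Q, hQ⟩ := hp.exists_le_sylow
  refine ⟨Q, le_antisymm ?_ hQ⟩
  have h1 := X.eq_T F (Q.isPGroup'.map X.L.subtype) (Subgroup.map_subtype_le _)
    (fun t ht => ⟨⟨t, ht.2⟩, hQ ht, rfl⟩)
  intro x hx
  show (x : G) ∈ X.T
  rw [← h1]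
  exact ⟨x, hx, rfl⟩

/-- The order of `C(w)` is an odd multiple of 32. -/
theorem exists_card_L : ∃ m, Nat.card X.L = 32 * m ∧ m % 2 = 1 := by
  haveI := Fact.mk Nat.prime_two
  obtain ⟨Q, hQ⟩ := X.sylow_T F
  refine ⟨(Q : Subgroup ↥X.L).index, ?_, ?_⟩
  · rw [← (Q : Subgroup ↥X.L).card_mul_index, hQ,
      Nat.card_congr (Subgroup.subgroupOfEquivOfLe inf_le_right).toEquiv, X.card_T]
  · have := Q.not_dvd_index; omega

theorem conj_into_T {P : Subgroup G} (hP : IsPGroup 2 P) (hPL : P ≤ X.L) :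
    ∃ c ∈ X.L, ∀ x ∈ P, c * x * c⁻¹ ∈ X.T := by
  haveI := Fact.mk Nat.prime_two
  obtain ⟨Q0, hQ0⟩ := X.sylow_T F
  obtain ⟨Q, hQ⟩ := (hP.of_equiv (Subgroup.subgroupOfEquivOfLe hPL).symm :
    IsPGroup 2 ↥(P.subgroupOf X.L)).exists_le_sylow
  obtain ⟨c, hc⟩ := MulAction.exists_smul_eq ↥X.L Q Q0
  refine ⟨c, c.2, fun x hx => ?_⟩
  have h1 : c * ⟨x, hPL hx⟩ * c⁻¹ ∈ (Q0 : Subgroup ↥X.L) := by
    rw [← hc, Sylow.coe_subgroup_smul]
    exact ⟨⟨x, hPL hx⟩, hQ hx, rfl⟩
  rw [hQ0] at h1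
  exact h1

/-- An element whose fourth power is one is conjugate in `C(w)` into `T`. -/
theorem LConj_into_T {x : G} (hx : x ∈ X.L) (h4 : x ^ 4 = 1) :
    ∃ i, com i ka2 = true ∧ X.LConj x (X.φ i) := by
  haveI := Fact.mk Nat.prime_two
  have hp : IsPGroup 2 ↥(Subgroup.zpowers x) := by
    obtain ⟨k, -, hk⟩ := (Nat.dvd_prime_pow Nat.prime_two).1
      (show orderOf x ∣ 2 ^ 2 from orderOf_dvd_of_pow_eq_one h4)
    exact IsPGroup.of_card (n := k) (by rw [Nat.card_zpowers, hk])
  obtain ⟨c, hc, hcT⟩ := X.conj_into_T F hp (Subgroup.zpowers_le.2 hx)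
  obtain ⟨i, hi, e⟩ := X.exists_of_mem_T (hcT x (Subgroup.mem_zpowers x))
  exact ⟨i, hi, c, hc, e.symm⟩

omit F
theorem LConj.refl' (x : G) : X.LConj x x := ⟨1, X.L.one_mem, by group⟩

theorem LConj.symm' {x y : G} (h : X.LConj x y) : X.LConj y x := by
  obtain ⟨g, hg, rfl⟩ := h
  exact ⟨g⁻¹, X.L.inv_mem hg, by group⟩

theorem LConj.trans' {x y v : G} (h : X.LConj x y) (h' : X.LConj y v) : X.LConj x v := by
  obtain ⟨g, hg, rfl⟩ := h
  obtain ⟨g', hg', rfl⟩ := h'
  exact ⟨g' * g, X.L.mul_mem hg' hg, by group⟩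

theorem LConj.isConj {x y : G} (h : X.LConj x y) : IsConj x y := by
  obtain ⟨g, -, e⟩ := h
  exact isConj_iff.2 ⟨g, e⟩

theorem LConj.mul_w {x y : G} (h : X.LConj x y) : X.LConj (x * X.w) (y * X.w) := by
  obtain ⟨g, hg, rfl⟩ := h
  refine ⟨g, hg, ?_⟩
  calc g * (x * X.w) * g⁻¹ = g * x * g⁻¹ * (g * X.w * g⁻¹) := by group
    _ = g * x * g⁻¹ * X.w := by rw [conj_fix (X.mem_L.1 hg)]

theorem LConj.of_table {i j : I} (h : (any1 fun g => com g ka2 && (cj g i).val == j.val) = true) :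
    X.LConj (X.φ i) (X.φ j) := by
  obtain ⟨g, hg⟩ := any1_spec h
  rw [Bool.and_eq_true, beq_iff_eq] at hg
  exact ⟨X.φ g, X.phi_mem_L hg.1, by rw [← X.map_cj, Fin.ext hg.2]⟩

theorem six_cases {i : I} (hi : com i ka2 = true) (hl : lab i ≠ 0) :
    sZ i = true ∨ sU i = true ∨ sD i = true ∨ sE i = true ∨ sC i = true ∨ sW i = true := by
  have h := all1_spec six_check.1 i
  simp only [hi, beq_eq_false_iff_ne.2 hl, Bool.not_false, Bool.and_self, beq_iff_eq] at h
  simpa [or_assoc] using h.symm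

include F

/-- The kinds of the six sets. -/
theorem kind {i : I} : (sZ i = true → IsConj z (X.φ i) ∧ IsConj X.w (X.φ i * X.w)) ∧
    (sU i = true → IsConj X.w (X.φ i) ∧ IsConj z (X.φ i * X.w)) ∧
    (sD i = true → IsConj X.w (X.φ i) ∧ IsConj X.w (X.φ i * X.w)) ∧
    (sE i = true → IsConj z (X.φ i) ∧ IsConj z (X.φ i * X.w)) ∧
    (sC i = true → IsConj X.w (X.φ i) ∧ IsConj X.w (X.φ i * X.w)) := by
  obtain ⟨-, c1, c2, c3, c4, c5⟩ := six_check
  have e : X.φ i * X.w = X.φ (mul i ka2) := (X.map_mul i ka2).symm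
  refine ⟨fun h => ?_, fun h => ?_, fun h => ?_, fun h => ?_, fun h => ?_⟩
  · have := all1_spec c1 i
    simp only [h, Bool.not_true, Bool.false_or, Bool.and_eq_true] at this
    exact ⟨X.conj_z_of_zLab F this.1.1.1, e ▸ X.conj_w_of_wLab F this.1.1.2⟩
  · have := all1_spec c2 i
    simp only [h, Bool.not_true, Bool.false_or, Bool.and_eq_true] at this
    exact ⟨X.conj_w_of_wLab F this.1.1.1, e ▸ X.conj_z_of_zLab F this.1.1.2⟩
  · have := all1_spec c3 i
    simp only [h, Bool.not_true, Bool.false_or, Bool.and_eq_true] at this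
    exact ⟨X.conj_w_of_wLab F this.1.1.1, e ▸ X.conj_w_of_wLab F this.1.1.2⟩
  · have := all1_spec c4 i
    simp only [h, Bool.not_true, Bool.false_or, Bool.and_eq_true] at this
    exact ⟨X.conj_z_of_zLab F this.1.1.1, e ▸ X.conj_z_of_zLab F this.1.1.2⟩
  · have := all1_spec c5 i
    simp only [h, Bool.not_true, Bool.false_or, Bool.and_eq_true] at this
    exact ⟨X.conj_w_of_wLab F this.1.1.1.1.1, e ▸ X.conj_w_of_wLab F this.1.1.1.1.2⟩

/-- No element of `inA` is conjugate in `C(w)` to an element of the class of `kc`. -/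
theorem not_LConj_C {i j : I} (hi : sC i = true) (hj : inA j = true) :
    ¬ X.LConj (X.φ i) (X.φ j) := by
  haveI := Fact.mk Nat.prime_two
  rintro ⟨g, hgL, hg⟩
  have h := all1_spec six_check.2.2.2.2.2 i
  simp only [hi, Bool.not_true, Bool.false_or, Bool.and_eq_true, beq_iff_eq] at h
  obtain ⟨⟨-, h8⟩, huniq⟩ := h
  set D := X.L ⊓ Subgroup.centralizer ({X.φ i} : Set G) with hD
  set E := Subgroup.centralizer ({z} : Set G) ⊓ D with hE
  have hEc : Nat.card E = 8 := by
    rw [← h8]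
    refine X.card_image (fun k => com k i && com k ka2) _ fun x => ?_
    rw [hE, hD, Subgroup.mem_inf, Subgroup.mem_inf, X.mem_C, mem_cs, mem_cs]
    constructor
    · rintro ⟨⟨k, rfl⟩, h1, h2⟩
      exact ⟨k, by rw [Bool.and_eq_true, X.com_iff, X.com_iff]; exact ⟨h2, h1⟩, rfl⟩
    · rintro ⟨k, hk, rfl⟩
      rw [Bool.and_eq_true, X.com_iff, X.com_iff] at hk
      exact ⟨⟨k, rfl⟩, hk.2, hk.1⟩
  have hp : IsPGroup 2 ↥(E.subgroupOf D) := by
    refine IsPGroup.of_card (n := 3) ?_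
    rw [Nat.card_congr (Subgroup.subgroupOfEquivOfLe inf_le_right).toEquiv, hEc]
    norm_num
  obtain ⟨Q, hQ⟩ := hp.exists_le_sylow
  set P := (Q : Subgroup ↥D).map D.subtype with hP
  have hPD : P ≤ D := Subgroup.map_subtype_le _
  have hEP : E ≤ P := fun x hx => ⟨⟨x, hx.2⟩, hQ hx, rfl⟩
  have hPE : P = E := by
    refine MTwelve.eq_of_normalizer_le (Q.isPGroup'.map D.subtype) hEP fun h hh hn => ?_
    refine Subgroup.mem_inf.2 ⟨mem_cs.2 (comm_of_conj_fix ?_), hPD hh⟩
    have hz : z ∈ E := Subgroup.mem_inf.2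
      ⟨mem_cs.2 rfl, X.z_mem_L, mem_cs.2 (X.comm_z i).symm⟩
    obtain ⟨h1, h2, h3⟩ := hn z hz
    obtain ⟨k, ek⟩ := (X.mem_C _).1 h1
    have hzk : zLab k = true := X.zLab_of_conj F (isConj_iff.2 ⟨h, ek.symm⟩)
    have hk1 : com k i = true := by rw [X.com_iff, ek]; exact mem_cs.1 h3
    have hk2 : com k ka2 = true := by rw [X.com_iff, ek]; exact mem_cs.1 h2
    have := all1_spec huniq k
    simp only [hk1, hk2, hzk, Bool.and_self, Bool.not_true, Bool.false_or, beq_iff_eq] at this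
    rw [← ek, show k = kz from Fin.ext this, X.z_eq]
  set A := X.sub inA sub_check.2.2.2.2.2.2.2.1 (fun a b ha hb => by
    have h := all1_spec (all1_spec closed_check a) b
    simp only [ha, hb, Bool.and_self, Bool.not_true, Bool.false_or, Bool.and_eq_true] at h
    exact h.1.1.2)
  have hA : ∀ x, x ∈ A ↔ ∃ k, inA k = true ∧ X.φ k = x := fun x => Iff.rfl
  have hAle : A.map (MulAut.conj g⁻¹).toMonoidHom ≤ D := by
    rintro _ ⟨x, hx, rfl⟩
    obtain ⟨k, hk, rfl⟩ := (hA x).1 hx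
    have hkc := all1_spec a_check k
    simp only [hk, Bool.not_true, Bool.false_or, Bool.and_eq_true] at hkc
    show g⁻¹ * X.φ k * g⁻¹⁻¹ ∈ D
    rw [hD, inv_inv]
    refine Subgroup.mem_inf.2 ⟨X.L.mul_mem (X.L.mul_mem (X.L.inv_mem hgL)
      (X.phi_mem_L hkc.1.1.1.1.1.1.1.1)) hgL, mem_cs.2 ?_⟩
    have hall := all1_spec hkc.1.1.2 j
    simp only [hj, Bool.not_true, Bool.false_or, Bool.and_eq_true] at hall
    have := comm_conj g⁻¹ ((X.com_iff k j).1 hall.1)
    rwa [inv_inv, ← hg, show g⁻¹ * (g * X.φ i * g⁻¹) * g = X.φ i by group] at this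
  have hAc : Nat.card ↥(A.map (MulAut.conj g⁻¹).toMonoidHom) = 16 := by
    rw [Subgroup.card_map_of_injective (MulAut.conj g⁻¹).injective, X.card_image inA A hA]
    exact sub_check.2.2.1
  obtain ⟨R, hR⟩ := (IsPGroup.of_card (n := 4) (by
    rw [Nat.card_congr (Subgroup.subgroupOfEquivOfLe hAle).toEquiv, hAc]; norm_num) :
    IsPGroup 2 ↥((A.map (MulAut.conj g⁻¹).toMonoidHom).subgroupOf D)).exists_le_sylow
  have h16 := Subgroup.card_le_of_le hR
  rw [Nat.card_congr (Subgroup.subgroupOfEquivOfLe hAle).toEquiv, hAc] at h16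
  have hQR : Nat.card (R : Subgroup ↥D) = Nat.card (Q : Subgroup ↥D) := by
    rw [R.card_eq_multiplicity, Q.card_eq_multiplicity]
  have hQc : Nat.card (Q : Subgroup ↥D) = 8 := by
    rw [← hEc, ← hPE, hP, Subgroup.card_map_of_injective D.subtype_injective]
  omega

/-- An element of `C(w)` moving `z` within `C(p * w)`. -/
theorem exists_move {p : I} (hp : (p = kv ∧ mul p ka2 = fin 163) ∨ (p = kv' ∧ mul p ka2 = fin 91)) :
    ∃ n ∈ X.L, n * X.φ p * n⁻¹ = X.φ p ∧ n * X.φ ku * n⁻¹ ≠ X.φ ku ∧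
      ∀ i, inA i = true → ∃ j, inA j = true ∧ X.φ j = n * X.φ i * n⁻¹ := by
  set q := mul p ka2 with hqdef
  have hql : lab q = 6 ∧ com q ka2 = true ∧ lab p = 5 ∧ com p ka2 = true := by
    rcases hp with ⟨rfl, h⟩ | ⟨rfl, h⟩ <;> rw [hqdef] <;> decide +kernel
  have hqA : ∀ k, (inA k = true → com k ka2 = true ∧ com k q = true ∧ com k p = true) ∧
      (com k ka2 = true → com k q = true → inA k = true) := by
    intro k
    have h := all1_spec a_check k
    simp only [Bool.and_eq_true, Bool.or_eq_true, Bool.not_eq_true'] at h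
    refine ⟨fun hk => ?_, fun h1 h2 => ?_⟩
    · obtain ⟨⟨⟨⟨⟨⟨a1, -⟩, a3⟩, a4⟩, a5⟩, a6⟩, -⟩ := h.1.1.resolve_left (by simp [hk])
      rcases hp with ⟨rfl, e⟩ | ⟨rfl, e⟩ <;> rw [e]
      exacts [⟨a1, a4, a5⟩, ⟨a1, a3, a6⟩]
    · rcases hp with ⟨rfl, e⟩ | ⟨rfl, e⟩ <;> rw [e] at h2
      · exact h.2.resolve_left (by simp [h1, h2])
      · exact h.1.2.resolve_left (by simp [h1, h2])
  obtain ⟨h, hh⟩ := isConj_iff.1 (X.conj_z_of_zLab F (i := q) (by simp [zLab, hql.1])).symm
  have hwq : X.w * X.φ q = X.φ q * X.w := ((X.com_iff q ka2).1 hql.2.1).symm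
  have hjz : h * X.w * h⁻¹ * z = z * (h * X.w * h⁻¹) := by
    have := comm_conj h hwq
    rwa [hh] at this
  obtain ⟨j, hj⟩ := X.surj _ hjz
  have hjw : IsConj X.w (X.φ j) := isConj_iff.2 ⟨h, hj.symm⟩
  have hj5 : lab j ≠ 5 := by
    intro e
    have h6 := all1_spec five_times_z j
    simp only [e, beq_self_eq_true, Bool.not_true, Bool.false_or, beq_iff_eq] at h6
    refine X.not_both F (X.conj_z_of_zLab F (i := mul j kz) (by simp [zLab, h6])) ?_
    refine (X.conj_w_of_wLab F (i := p) (by simp [wLab, hql.2.2.1])).trans (isConj_iff.2 ⟨h, ?_⟩)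
    have hpq : X.φ p = X.φ q * X.w := by
      rw [hqdef, X.map_mul, mul_assoc, X.ww, mul_one]
    rw [X.map_mul, hj, X.z_eq, hpq, hjz]
    calc h * (X.φ q * X.w) * h⁻¹ = h * X.φ q * h⁻¹ * (h * X.w * h⁻¹) := by group
      _ = z * (h * X.w * h⁻¹) := congrArg (· * (h * X.w * h⁻¹)) hh
  have hl3 : lab j = 3 := by
    have := X.wLab_of_conj F hjw
    simp only [wLab, Bool.or_eq_true, beq_iff_eq] at this
    omega
  have hcard : Nat.card ↥(X.L ⊓ Subgroup.centralizer ({X.φ q} : Set G)) = 2 ^ 5 := by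
    have e : (X.L ⊓ Subgroup.centralizer ({X.φ q} : Set G)).map (MulAut.conj h).toMonoidHom =
        Subgroup.centralizer ({z} : Set G) ⊓ Subgroup.centralizer ({X.φ j} : Set G) := by
      ext x
      simp only [Subgroup.mem_map, Subgroup.mem_inf, mem_cs]
      constructor
      · rintro ⟨y, ⟨h1, h2⟩, rfl⟩
        show h * y * h⁻¹ * z = z * (h * y * h⁻¹) ∧ h * y * h⁻¹ * X.φ j = X.φ j * (h * y * h⁻¹)
        have h2' := comm_conj h h2
        rw [hh] at h2'
        rw [hj]
        exact ⟨h2', comm_conj h h1⟩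
      · rintro ⟨h1, h2⟩
        rw [hj] at h2
        refine ⟨h⁻¹ * x * h, ⟨?_, ?_⟩, show h * (h⁻¹ * x * h) * h⁻¹ = x by group⟩
        · have := comm_conj h⁻¹ h2
          rwa [inv_inv, show h⁻¹ * (h * X.w * h⁻¹) * h = X.w by group] at this
        · have := comm_conj h⁻¹ h1
          have hq : h⁻¹ * z * h = X.φ q :=
            (congrArg (fun t => h⁻¹ * t * h) hh.symm).trans (by group)
          rwa [inv_inv, hq] at this
    rw [← Subgroup.card_map_of_injective (f := (MulAut.conj h).toMonoidHom)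
      (MulAut.conj h).injective, e, X.card_inf j, (cc_of_lab).2.1 (Or.inr (Or.inl hl3))]
    norm_num
  set P := X.L ⊓ Subgroup.centralizer ({X.φ q} : Set G)
  set A := X.sub inA sub_check.2.2.2.2.2.2.2.1 (fun a b ha hb => by
    have h := all1_spec (all1_spec closed_check a) b
    simp only [ha, hb, Bool.and_self, Bool.not_true, Bool.false_or, Bool.and_eq_true] at h
    exact h.1.1.2)
  have hA : ∀ x, x ∈ A ↔ ∃ k, inA k = true ∧ X.φ k = x := fun x => Iff.rfl
  have hAP : A ≤ P := fun x hx => by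
    obtain ⟨k, hk, rfl⟩ := (hA x).1 hx
    obtain ⟨a, b, -⟩ := (hqA k).1 hk
    exact Subgroup.mem_inf.2 ⟨X.phi_mem_L a, mem_cs.2 ((X.com_iff k q).1 b)⟩
  have hAP2 : (A.subgroupOf P).index = 2 := by
    have h1 := (A.subgroupOf P).card_mul_index
    rw [Nat.card_congr (Subgroup.subgroupOfEquivOfLe hAP).toEquiv, X.card_image inA A hA,
      sub_check.2.2.1, hcard] at h1
    omega
  obtain ⟨n, hn⟩ : ∃ n : ↥P, n ∉ A.subgroupOf P := by
    by_contra hall
    push Not at hall
    rw [(Subgroup.eq_top_iff' _).2 hall, Subgroup.index_top] at hAP2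
    omega
  have hnp : n.1 * X.φ p * n.1⁻¹ = X.φ p := by
    have e : X.φ p = X.φ q * X.w := by rw [hqdef, X.map_mul, mul_assoc, X.ww, mul_one]
    rw [e, show n.1 * (X.φ q * X.w) * n.1⁻¹ = n.1 * X.φ q * n.1⁻¹ * (n.1 * X.w * n.1⁻¹) by group,
      conj_fix (mem_cs.1 n.2.2), conj_fix (mem_cs.1 n.2.1)]
  refine ⟨n, n.2.1, hnp, fun e => hn ?_, fun i hi => ?_⟩
  · rw [X.phi_ku] at e
    have hz : n.1 * z = z * n.1 := comm_of_conj_fix (by
      calc n.1 * z * n.1⁻¹ = n.1 * (z * X.w) * n.1⁻¹ * (n.1 * X.w⁻¹ * n.1⁻¹) := by group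
        _ = z := by rw [e, conj_fix (Commute.inv_right (mem_cs.1 n.2.1)).eq]; group)
    obtain ⟨k, hk⟩ := X.surj _ hz
    rw [Subgroup.mem_subgroupOf, ← hk]
    exact (hA _).2 ⟨k, (hqA k).2 ((X.com_iff k ka2).2 (by rw [hk]; exact mem_cs.1 n.2.1))
      ((X.com_iff k q).2 (by rw [hk]; exact mem_cs.1 n.2.2)), rfl⟩
  · obtain ⟨j', hj', e⟩ := (hA _).1 (Subgroup.mem_subgroupOf.1
      ((Subgroup.normal_of_index_eq_two hAP2).conj_mem ⟨X.φ i, hAP ((hA _).2 ⟨i, hi, rfl⟩)⟩
        ((hA _).2 ⟨i, hi, rfl⟩) n))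
    exact ⟨j', hj', e⟩

theorem conj_ku {p : I} (hp : (p = kv ∧ mul p ka2 = fin 163) ∨ (p = kv' ∧ mul p ka2 = fin 91)) :
    ∃ n ∈ X.L, n * X.φ p * n⁻¹ = X.φ p ∧
      n * X.φ ku * n⁻¹ = X.φ (if p = kv then kv' else kv) ∧
      ∀ i, inA i = true → ∃ j, inA j = true ∧ X.φ j = n * X.φ i * n⁻¹ := by
  obtain ⟨n, hn, hnp, hne, hA⟩ := X.exists_move F hp
  refine ⟨n, hn, hnp, ?_, hA⟩
  obtain ⟨j, hj, e⟩ := hA ku (by decide +kernel)
  rw [← e]
  have hl : lab j ≠ 0 := X.lab_of_order (by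
    rw [e, orderOf_conj]; exact X.orderOf_phi (by decide +kernel))
  have hku : sU ku = true := by decide +kernel
  have hc : X.LConj (X.φ ku) (X.φ j) := ⟨n, hn, e.symm⟩
  have hu : sU j = true := by
    have hjT := (all1_spec a_check j)
    simp only [hj, Bool.not_true, Bool.false_or, Bool.and_eq_true] at hjT
    obtain ⟨k1, k2⟩ := (X.kind F (i := ku)).2.1 hku
    have j1 := k1.trans (LConj.isConj X hc)
    have j2 := k2.trans (LConj.isConj X (LConj.mul_w X hc))
    rcases X.six_cases hjT.1.1.1.1.1.1.1.1 hl with h | h | h | h | h | h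
    · exact absurd (((X.kind F).1 h).1) fun h' => X.not_both F h' j1
    · exact h
    · exact absurd (((X.kind F).2.2.1 h).2) fun h' => X.not_both F j2 h'
    · exact absurd (((X.kind F).2.2.2.1 h).1) fun h' => X.not_both F h' j1
    · exact absurd (((X.kind F).2.2.2.2 h).2) fun h' => X.not_both F j2 h'
    · exfalso
      simp only [sW, beq_iff_eq] at h
      rw [show j = ka2 from Fin.ext h, X.ww] at j2
      obtain ⟨g, hg⟩ := isConj_iff.1 j2
      have hz := X.orderOf_z
      rw [← orderOf_conj g z, hg, orderOf_one] at hz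
      omega
  simp only [sU, Bool.or_eq_true, beq_iff_eq] at hu
  have hne' : j ≠ ku := fun h => hne (by rw [← e, h])
  have hnp' : j ≠ p := fun h => by
    rw [h, ← hnp] at e
    have := X.inj (mul_left_cancel (mul_right_cancel e))
    rcases hp with ⟨rfl, -⟩ | ⟨rfl, -⟩ <;> revert this <;> decide +kernel
  congr 1
  rcases hp with ⟨rfl, -⟩ | ⟨rfl, -⟩
  · rw [if_pos rfl]
    rcases hu with (h | h) | h
    exacts [absurd (Fin.ext h) hne', absurd (Fin.ext h) hnp', Fin.ext h]
  · rw [if_neg (by decide)]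
    rcases hu with (h | h) | h
    exacts [absurd (Fin.ext h) hne', Fin.ext h, absurd (Fin.ext h) hnp']

/-- The representative of each of the six sets. -/
theorem rep_of_set {i : I} :
    (sZ i = true → X.LConj z (X.φ i)) ∧ (sU i = true → X.LConj (X.φ ku) (X.φ i)) ∧
    (sD i = true → X.LConj (X.φ kd) (X.φ i)) ∧ (sC i = true → X.LConj (X.φ kc) (X.φ i)) ∧
    (sE i = true → X.LConj (X.φ (fin 127)) (X.φ i)) := by
  obtain ⟨o1, o2, o3, o4, o5⟩ := orbit_check
  have oi := all1_spec o1 i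
  simp only [Bool.and_eq_true, Bool.or_eq_true, Bool.not_eq_true'] at oi
  obtain ⟨n, hn, hnp, hnu, hnA⟩ := X.conj_ku F (p := kv) (Or.inl ⟨rfl, by decide +kernel⟩)
  obtain ⟨n', hn', hnp', hnu', hnA'⟩ := X.conj_ku F (p := kv') (Or.inr ⟨rfl, by decide +kernel⟩)
  rw [if_pos rfl] at hnu
  rw [if_neg (by decide)] at hnu'
  have uV' : X.LConj (X.φ ku) (X.φ kv') := ⟨n, hn, hnu⟩
  have uV : X.LConj (X.φ ku) (X.φ kv) := ⟨n', hn', hnu'⟩
  refine ⟨fun h => ?_, fun h => ?_, fun h => LConj.of_table X (oi.1.2.resolve_left (by simp [h])),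
    fun h => LConj.of_table X (oi.1.1.resolve_left (by simp [h])), fun h => ?_⟩
  · have e : ∀ j : I, X.LConj (X.φ ku) (X.φ j) → X.LConj z (X.φ (mul j ka2)) := by
      intro j hj
      have h' := LConj.mul_w X hj
      rw [← X.map_mul, ← X.map_mul, show mul ku ka2 = kz by decide +kernel, X.z_eq] at h'
      exact h'
    simp only [sZ, Bool.or_eq_true, beq_iff_eq] at h
    rcases h with (h | h) | h
    · rw [show i = kz from Fin.ext h, X.z_eq]; exact LConj.refl' X z
    · rw [show i = mul kv' ka2 from Fin.ext (h.trans (by decide +kernel))]; exact e _ uV'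
    · rw [show i = mul kv ka2 from Fin.ext (h.trans (by decide +kernel))]; exact e _ uV
  · simp only [sU, Bool.or_eq_true, beq_iff_eq] at h
    rcases h with (h | h) | h
    · rw [show i = ku from Fin.ext h]; exact LConj.refl' X _
    · rw [show i = kv from Fin.ext h]; exact uV
    · rw [show i = kv' from Fin.ext h]; exact uV'
  · -- the images of `kd`
    have img : ∀ {n : G}, n ∈ X.L → (∀ j, inA j = true → ∃ k, inA k = true ∧
        X.φ k = n * X.φ j * n⁻¹) → ∃ a, sD a = true ∧ X.φ a = n * X.φ kd * n⁻¹ := by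
      intro n hn hA
      obtain ⟨j, hj, e⟩ := hA kd (by decide +kernel)
      refine ⟨j, ?_, e⟩
      have hl : lab j ≠ 0 := X.lab_of_order (by
        rw [e, orderOf_conj]; exact X.orderOf_phi (by decide +kernel))
      have hc : X.LConj (X.φ kd) (X.φ j) := ⟨n, hn, e.symm⟩
      obtain ⟨k1, k2⟩ := ((X.kind F (i := kd)).2.2.1) (by decide +kernel)
      have j1 := k1.trans (LConj.isConj X hc)
      have j2 := k2.trans (LConj.isConj X (LConj.mul_w X hc))
      have hjT := all1_spec a_check j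
      simp only [hj, Bool.not_true, Bool.false_or, Bool.and_eq_true] at hjT
      rcases X.six_cases hjT.1.1.1.1.1.1.1.1 hl with h | h | h | h | h | h
      · exact absurd (((X.kind F).1 h).1) fun h' => X.not_both F h' j1
      · exact absurd (((X.kind F).2.1 h).2) fun h' => X.not_both F h' j2
      · exact h
      · exact absurd (((X.kind F).2.2.2.1 h).1) fun h' => X.not_both F h' j1
      · exact absurd (LConj.symm' X hc) (X.not_LConj_C F h (by decide +kernel))
      · exfalso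
        simp only [sW, beq_iff_eq] at h
        rw [show j = ka2 from Fin.ext h, X.ww] at j2
        obtain ⟨g, hg⟩ := isConj_iff.1 j2
        have hz := X.orderOf_w
        rw [← orderOf_conj g X.w, hg, orderOf_one] at hz
        omega
    have edge : ∀ {n : G}, n ∈ X.L → ∀ {a b a' b' : I}, X.φ a' = n * X.φ a * n⁻¹ →
        X.φ b' = n * X.φ b * n⁻¹ → X.LConj (X.φ (mul a b)) (X.φ (mul a' b')) := by
      intro n hn a b a' b' ea eb
      exact ⟨n, hn, by rw [X.map_mul, X.map_mul, ea, eb]; group⟩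
    obtain ⟨a, ha, ea⟩ := img hn hnA
    obtain ⟨a', ha', ea'⟩ := img hn' hnA'
    have t1 : X.LConj (X.φ (fin 127)) (X.φ (fin 7)) := LConj.symm' X (LConj.of_table X o3)
    have t2 : X.LConj (X.φ (fin 84)) (X.φ (fin 90)) := LConj.of_table X o4
    have t3 : X.LConj (X.φ (fin 156)) (X.φ (fin 162)) := LConj.of_table X o5
    have h1 : X.LConj (X.φ (fin 127)) (X.φ (mul a kv')) := by
      rw [show fin 127 = mul kd ku by decide +kernel]; exact edge hn ea hnu.symm
    have h2 : X.LConj (X.φ (fin 127)) (X.φ (mul a' kv)) := by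
      rw [show fin 127 = mul kd ku by decide +kernel]; exact edge hn' ea' hnu'.symm
    have h3 : X.LConj (X.φ (fin 156)) (X.φ (mul a' kv')) := by
      rw [show fin 156 = mul kd kv' by decide +kernel]; exact edge hn' ea' hnp'.symm
    obtain ⟨m84, m156⟩ : X.LConj (X.φ (fin 127)) (X.φ (fin 84)) ∧
        X.LConj (X.φ (fin 127)) (X.φ (fin 156)) := by
      simp only [sD, Bool.or_eq_true, beq_iff_eq] at ha ha'
      rcases ha with ha | ha
      · rw [show a = kd from Fin.ext ha, show mul kd kv' = fin 156 by decide +kernel] at h1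
        refine ⟨?_, h1⟩
        rcases ha' with ha' | ha'
        · rwa [show a' = kd from Fin.ext ha', show mul kd kv = fin 84 by decide +kernel] at h2
        · rw [show a' = fin 121 from Fin.ext ha', show mul (fin 121) kv' = fin 90 by decide +kernel]
            at h3
          exact LConj.trans' X h1 (LConj.trans' X h3 (LConj.symm' X t2))
      · rw [show a = fin 121 from Fin.ext ha, show mul (fin 121) kv' = fin 90 by decide +kernel] at h1
        have h84 := LConj.trans' X h1 (LConj.symm' X t2)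
        refine ⟨h84, ?_⟩
        rcases ha' with ha' | ha'
        · rw [show a' = kd from Fin.ext ha', show mul kd kv = fin 84 by decide +kernel] at h2
          obtain ⟨b, hb, eb⟩ : ∃ b, b = mul a kv ∧ X.LConj (X.φ (fin 84)) (X.φ b) :=
            ⟨_, rfl, by rw [show fin 84 = mul kd kv by decide +kernel]; exact edge hn ea hnp.symm⟩
          rw [hb, show a = fin 121 from Fin.ext ha, show mul (fin 121) kv = fin 162 by decide +kernel]
            at eb
          exact LConj.trans' X h84 (LConj.trans' X eb (LConj.symm' X t3))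
        · rw [show a' = fin 121 from Fin.ext ha', show mul (fin 121) kv = fin 162 by decide +kernel]
            at h2
          exact LConj.trans' X h2 (LConj.symm' X t3)
    simp only [sE, Bool.or_eq_true, beq_iff_eq] at h
    rcases h with ((((h | h) | h) | h) | h) | h
    · rw [show i = fin 7 from Fin.ext h]; exact t1
    · rw [show i = fin 127 from Fin.ext h]; exact LConj.refl' X _
    · rw [show i = fin 84 from Fin.ext h]; exact m84
    · rw [show i = fin 90 from Fin.ext h]; exact LConj.trans' X m84 t2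
    · rw [show i = fin 156 from Fin.ext h]; exact m156
    · rw [show i = fin 162 from Fin.ext h]; exact LConj.trans' X m156 t3

omit [Finite G] in
omit F in
theorem LConj.orderOf {x y : G} (h : X.LConj x y) : orderOf y = orderOf x := by
  obtain ⟨g, -, rfl⟩ := h
  exact orderOf_conj g x

/-- Conjugacy in `C(w)` preserves each of the six sets. -/
theorem set_of_LConj {i j : I} (hj : com j ka2 = true) (h : X.LConj (X.φ i) (X.φ j)) :
    (sZ i = true → sZ j = true) ∧ (sU i = true → sU j = true) ∧ (sD i = true → sD j = true) ∧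
    (sE i = true → sE j = true) ∧ (sC i = true → sC j = true) ∧ (sW i = true → sW j = true) := by
  have hsW : sW i = true → sW j = true := fun hi => by
    simp only [sW, beq_iff_eq] at hi ⊢
    obtain ⟨g, hg, e⟩ := h
    rw [show i = ka2 from Fin.ext hi, conj_fix (X.mem_L.1 hg)] at e
    rw [← X.inj e]; rfl
  have hinA : ∀ k, (sD k = true → inA k = true) := fun k hk => by
    have := all1_spec six_check.2.2.2.1 k
    simp only [hk, Bool.not_true, Bool.false_or, Bool.and_eq_true] at this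
    exact this.1.2
  have hone : ∀ {p q : G}, IsConj p q → orderOf p = 2 → q ≠ 1 := fun hpq hp e => by
    obtain ⟨g, hg⟩ := isConj_iff.1 hpq
    rw [← orderOf_conj g, hg, e, orderOf_one] at hp
    omega
  have main : ∀ {a b : G}, IsConj a (X.φ i) → IsConj b (X.φ i * X.w) → orderOf a = 2 →
      orderOf b = 2 → IsConj a (X.φ j) ∧ IsConj b (X.φ j * X.w) ∧ lab j ≠ 0 ∧ sW j = false := by
    intro a b h1 h2 ha hb
    refine ⟨h1.trans (LConj.isConj X h), h2.trans (LConj.isConj X (LConj.mul_w X h)),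
      X.lab_of_conj ha (h1.trans (LConj.isConj X h)), ?_⟩
    rw [Bool.eq_false_iff]
    intro hw
    simp only [sW, beq_iff_eq] at hw
    refine hone (h2.trans (LConj.isConj X (LConj.mul_w X h))) hb ?_
    rw [show j = ka2 from Fin.ext hw, X.ww]
  refine ⟨fun hi => ?_, fun hi => ?_, fun hi => ?_, fun hi => ?_, fun hi => ?_, hsW⟩
  · obtain ⟨j1, j2, jl, jw⟩ := main ((X.kind F).1 hi).1 ((X.kind F).1 hi).2 X.orderOf_z X.orderOf_w
    rcases X.six_cases hj jl with h' | h' | h' | h' | h' | h'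
    · exact h'
    · exact absurd (((X.kind F).2.1 h').1) fun h'' => X.not_both F j1 h''
    · exact absurd (((X.kind F).2.2.1 h').1) fun h'' => X.not_both F j1 h''
    · exact absurd (((X.kind F).2.2.2.1 h').2) fun h'' => X.not_both F h'' j2
    · exact absurd (((X.kind F).2.2.2.2 h').1) fun h'' => X.not_both F j1 h''
    · simp [jw] at h'
  · obtain ⟨j1, j2, jl, jw⟩ := main ((X.kind F).2.1 hi).1 ((X.kind F).2.1 hi).2 X.orderOf_w X.orderOf_z
    rcases X.six_cases hj jl with h' | h' | h' | h' | h' | h'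
    · exact absurd (((X.kind F).1 h').1) fun h'' => X.not_both F h'' j1
    · exact h'
    · exact absurd (((X.kind F).2.2.1 h').2) fun h'' => X.not_both F j2 h''
    · exact absurd (((X.kind F).2.2.2.1 h').1) fun h'' => X.not_both F h'' j1
    · exact absurd (((X.kind F).2.2.2.2 h').2) fun h'' => X.not_both F j2 h''
    · simp [jw] at h'
  · obtain ⟨j1, j2, jl, jw⟩ := main ((X.kind F).2.2.1 hi).1 ((X.kind F).2.2.1 hi).2 X.orderOf_w
      X.orderOf_w
    rcases X.six_cases hj jl with h' | h' | h' | h' | h' | h'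
    · exact absurd (((X.kind F).1 h').1) fun h'' => X.not_both F h'' j1
    · exact absurd (((X.kind F).2.1 h').2) fun h'' => X.not_both F h'' j2
    · exact h'
    · exact absurd (((X.kind F).2.2.2.1 h').1) fun h'' => X.not_both F h'' j1
    · exact absurd (LConj.symm' X h) (X.not_LConj_C F h' (hinA i hi))
    · simp [jw] at h'
  · obtain ⟨j1, j2, jl, jw⟩ := main ((X.kind F).2.2.2.1 hi).1 ((X.kind F).2.2.2.1 hi).2 X.orderOf_z
      X.orderOf_z
    rcases X.six_cases hj jl with h' | h' | h' | h' | h' | h'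
    · exact absurd (((X.kind F).1 h').2) fun h'' => X.not_both F j2 h''
    · exact absurd (((X.kind F).2.1 h').1) fun h'' => X.not_both F j1 h''
    · exact absurd (((X.kind F).2.2.1 h').1) fun h'' => X.not_both F j1 h''
    · exact h'
    · exact absurd (((X.kind F).2.2.2.2 h').1) fun h'' => X.not_both F j1 h''
    · simp [jw] at h'
  · obtain ⟨j1, j2, jl, jw⟩ := main ((X.kind F).2.2.2.2 hi).1 ((X.kind F).2.2.2.2 hi).2 X.orderOf_w
      X.orderOf_w
    rcases X.six_cases hj jl with h' | h' | h' | h' | h' | h'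
    · exact absurd (((X.kind F).1 h').1) fun h'' => X.not_both F h'' j1
    · exact absurd (((X.kind F).2.1 h').2) fun h'' => X.not_both F h'' j2
    · exact absurd h (X.not_LConj_C F hi (hinA j h'))
    · exact absurd (((X.kind F).2.2.2.1 h').1) fun h'' => X.not_both F h'' j1
    · exact h'
    · simp [jw] at h'

end Ctr

end CfsgLib.InvChar.AEight
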