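import Cfsg.Agent.Lib.InvChar.AEight.CentWBase
import Cfsg.Agent.Lib.InvChar.AEight.Transfer

/-!
Two subgroups of index two of the centraliser of `φ ka2`.
-/

set_option autoImplicit false
set_option linter.unusedSectionVars false
set_option linter.style.haveILetI false

open Cfsg CfsgLib.Involutions

namespace CfsgLib.InvChar.AEight

universe u

namespace Ctr

variable {G : Type u} [Group G] [Finite G] {z : G} (X : Ctr z) (F : Fus9 X)
include X F

/-- A subgroup of index two avoiding an involution and containing a subgroup of index two of `T`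
generated by involutions. -/
theorem exists_char (p : I → Bool) (h0 : p 0 = true)
    (hm : ∀ i j, p i = true → p j = true → p (mul i j) = true) (h16 : cnt p = 16)
    (hT : ∀ i, p i = true → com i ka2 = true)
    (hgen : ∀ i, p i = true → i = 0 ∨ ∃ j, p j = true ∧ lab j ≠ 0 ∧ p (mul j i) = true ∧
      (mul j i = 0 ∨ lab (mul j i) ≠ 0))
    (x : I) (hxT : com x ka2 = true) (hxl : lab x ≠ 0) (hxp : ∀ j, p j = true → ¬ X.LConj (X.φ x) (X.φ j))
    (hcl : ∀ i j, p i = true → lab i ≠ 0 → com j ka2 = true → X.LConj (X.φ i) (X.φ j) → p j = true) :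
    ∃ K : Subgroup ↥X.L, K.index = 2 ∧ (⟨X.φ x, X.phi_mem_L hxT⟩ : ↥X.L) ∉ K ∧
      ∀ i (hi : com i ka2 = true), ((⟨X.φ i, X.phi_mem_L hi⟩ : ↥X.L) ∈ K ↔ p i = true) := by
  haveI := Fact.mk Nat.prime_two
  set M0 := X.sub p h0 hm with hM0
  have hM : ∀ g, g ∈ M0 ↔ ∃ i, p i = true ∧ X.φ i = g := fun g => Iff.rfl
  have hM0T : M0 ≤ X.T := fun g hg => by
    obtain ⟨i, hi, rfl⟩ := (hM g).1 hg
    exact (X.mem_T i).2 (hT i hi)
  obtain ⟨Q, hQ⟩ := X.sylow_T F
  have hidx : (X.T.subgroupOf X.L).index % 2 = 1 := by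
    rw [← hQ]
    have := Q.not_dvd_index
    omega
  have hTc : Nat.card ↥(X.T.subgroupOf X.L) = 32 := by
    rw [Nat.card_congr (Subgroup.subgroupOfEquivOfLe inf_le_right).toEquiv, X.card_T]
  have hMc : Nat.card ↥(M0.subgroupOf X.L) = 16 := by
    rw [Nat.card_congr (Subgroup.subgroupOfEquivOfLe (hM0T.trans inf_le_right)).toEquiv,
      X.card_image p M0 hM, h16]
  obtain ⟨K, hK, hxK, hyK⟩ := exists_index_two_avoiding (T := X.T.subgroupOf X.L)
    (M := M0.subgroupOf X.L) (x := (⟨X.φ x, X.phi_mem_L hxT⟩ : ↥X.L)) hidx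
    (fun g hg => hM0T hg) (by rw [hMc, hTc])
    (by rw [Subgroup.orderOf_mk]; exact X.orderOf_phi hxl)
    (fun g hg => by
      obtain ⟨j, hj, e⟩ := (hM _).1 hg
      exact hxp j hj ⟨g, g.2, e.symm⟩)
  refine ⟨K, hK, hxK, ?_⟩
  have hinv : ∀ i (hi : com i ka2 = true), p i = true → lab i ≠ 0 →
      (⟨X.φ i, X.phi_mem_L hi⟩ : ↥X.L) ∈ K := by
    intro i hi hp hl
    refine hyK _ (by rw [Subgroup.orderOf_mk]; exact X.orderOf_phi hl) fun g hg => ?_
    obtain ⟨j, hj, e⟩ := X.exists_of_mem_T hg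
    exact (hM _).2 ⟨j, hcl i j hp hl hj ⟨g, g.2, e.symm⟩, e⟩
  have hone : ∀ i (hi : com i ka2 = true), i = 0 → (⟨X.φ i, X.phi_mem_L hi⟩ : ↥X.L) ∈ K :=
    fun i hi e => by
      rw [show (⟨X.φ i, X.phi_mem_L hi⟩ : ↥X.L) = 1 from Subtype.ext (by
        show X.φ i = 1
        rw [e, X.map_one])]
      exact K.one_mem
  have hback : ∀ i (hi : com i ka2 = true), p i = true → (⟨X.φ i, X.phi_mem_L hi⟩ : ↥X.L) ∈ K := by
    intro i hi hp
    rcases hgen i hp with e | ⟨j, hj, hjl, hji, h'⟩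
    · exact hone i hi e
    have h1 := hinv j (hT j hj) hj hjl
    have h2 : (⟨X.φ (mul j i), X.phi_mem_L (hT _ hji)⟩ : ↥X.L) ∈ K := by
      rcases h' with e | e
      · exact hone _ (hT _ hji) e
      · exact hinv _ (hT _ hji) hji e
    have := K.mul_mem (K.inv_mem h1) h2
    convert this using 1
    refine Subtype.ext ?_
    show X.φ i = (X.φ j)⁻¹ * X.φ (mul j i)
    rw [X.map_mul, inv_mul_cancel_left]
  -- the intersection with `T` is no larger
  set R := (K ⊓ X.T.subgroupOf X.L) with hR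
  have hMR : M0.subgroupOf X.L ≤ R := fun g hg => by
    obtain ⟨i, hi, e⟩ := (hM _).1 hg
    refine ⟨?_, hM0T hg⟩
    have := hback i (hT i hi) hi
    rwa [show (⟨X.φ i, X.phi_mem_L (hT i hi)⟩ : ↥X.L) = g from Subtype.ext e] at this
  have hRT : R ≤ X.T.subgroupOf X.L := inf_le_right
  have hRlt : R ≠ X.T.subgroupOf X.L := fun e => hxK (e.ge (show (⟨X.φ x, _⟩ : ↥X.L) ∈
    X.T.subgroupOf X.L from (X.mem_T x).2 hxT)).1
  have hd := Subgroup.card_dvd_of_le hRT
  have hle := Subgroup.card_le_of_le hMR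
  rw [hTc] at hd
  rw [hMc] at hle
  have hne : Nat.card R ≠ 32 := fun e => hRlt (Subgroup.eq_of_le_of_card_ge hRT (by rw [e, hTc]))
  have hR16 : Nat.card R = 16 := by
    obtain ⟨k, hk, e⟩ := (Nat.dvd_prime_pow Nat.prime_two).1 (show Nat.card R ∣ 2 ^ 5 by simpa using hd)
    rw [e] at hle hne ⊢
    clear hinv hback hcl hgen hxp hyK
    interval_cases k <;> first | norm_num at hle hne ⊢ | omega
  have hRM : M0.subgroupOf X.L = R := Subgroup.eq_of_le_of_card_ge hMR (by rw [hR16, hMc])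
  intro i hi
  refine ⟨fun h => ?_, hback i hi⟩
  have : (⟨X.φ i, X.phi_mem_L hi⟩ : ↥X.L) ∈ M0.subgroupOf X.L :=
    hRM.ge ⟨h, (X.mem_T i).2 hi⟩
  obtain ⟨j, hj, e⟩ := (hM _).1 this
  rwa [← X.inj e]

theorem sets_inA {i : I} (hi : com i ka2 = true) (hl : lab i ≠ 0) :
    (inA i = false ↔ sC i = true) ∧ (inB i = false ↔ (sD i = true ∨ sE i = true)) := by
  have h6 : ((sZ i || sU i || sD i || sE i || sC i || sW i) = true) := by
    rcases X.six_cases hi hl with h | h | h | h | h | h <;> simp [h]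
  obtain ⟨-, c1, c2, c3, c4, c5⟩ := six_check
  have e1 := all1_spec c1 i
  have e2 := all1_spec c2 i
  have e3 := all1_spec c3 i
  have e4 := all1_spec c4 i
  have e5 := all1_spec c5 i
  have e6 : sW i = true → inA i = true ∧ inB i = true := fun h => by
    simp only [sW, beq_iff_eq] at h
    rw [show i = ka2 from Fin.ext h]
    decide +kernel
  revert h6 e1 e2 e3 e4 e5 e6
  cases sZ i <;> cases sU i <;> cases sD i <;> cases sE i <;> cases sC i <;> cases sW i <;>
    cases inA i <;> cases inB i <;> simp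

/-- The two subgroups of index two, meeting `T` in `inA` and `inB`. -/
theorem exists_two_chars : ∃ K1 K2 : Subgroup ↥X.L, K1.index = 2 ∧ K2.index = 2 ∧
    ∀ i (hi : com i ka2 = true), ((⟨X.φ i, X.phi_mem_L hi⟩ : ↥X.L) ∈ K1 ↔ inA i = true) ∧
      ((⟨X.φ i, X.phi_mem_L hi⟩ : ↥X.L) ∈ K2 ↔ inB i = true) := by
  have hA : ∀ i, inA i = true → com i ka2 = true ∧ (∀ j, inA j = true → inA (mul i j) = true) ∧
      (i = 0 ∨ lab i ≠ 0) := by
    intro i hi
    have h1 := all1_spec a_check i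
    have h2 := all1_spec mem_check i
    simp only [hi, Bool.not_true, Bool.false_or, Bool.and_eq_true] at h1
    simp only [hi, Bool.not_true, Bool.false_or, Bool.and_eq_true, Bool.or_eq_true,
      Bool.not_eq_true', beq_iff_eq, beq_eq_false_iff_ne] at h2
    refine ⟨h1.1.1.1.1.1.1.1.1, fun j hj => ?_, ?_⟩
    · have := all1_spec h1.1.1.2 j
      simp only [hj, Bool.not_true, Bool.false_or, Bool.and_eq_true] at this
      exact this.2
    · exact h2.1.2.2.imp (fun e => Fin.ext e) id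
  have hB : ∀ i, inB i = true → com i ka2 = true ∧ (∀ j, inB j = true → inB (mul i j) = true) ∧
      (i = 0 ∨ ∃ j, inB j = true ∧ lab j ≠ 0 ∧ inB (mul j i) = true ∧
        (mul j i = 0 ∨ lab (mul j i) ≠ 0)) := by
    intro i hi
    have h1 := all1_spec b_check.1 i
    simp only [hi, Bool.not_true, Bool.false_or, Bool.and_eq_true, Bool.or_eq_true,
      beq_iff_eq] at h1
    refine ⟨h1.1.1, fun j hj => by simpa [hj] using all1_spec h1.1.2 j, ?_⟩
    rcases h1.2 with e | e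
    · exact Or.inl (Fin.ext e)
    · obtain ⟨j, hj⟩ := any1_spec e
      simp only [Bool.and_eq_true, Bool.or_eq_true, Bool.not_eq_true', beq_iff_eq,
        beq_eq_false_iff_ne] at hj
      exact Or.inr ⟨j, hj.1.1.1, hj.1.2, hj.1.1.2, hj.2.imp (fun e => Fin.ext e) id⟩
  have hcD : sD kd = true ∧ sC kc = true ∧ com kd ka2 = true ∧ com kc ka2 = true := by decide +kernel
  have lab_kd : lab kd ≠ 0 ∧ lab kc ≠ 0 := by decide +kernel
  have hl : ∀ {i j : I}, X.LConj (X.φ i) (X.φ j) → lab i ≠ 0 → lab j ≠ 0 := fun h hi =>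
    X.lab_of_order (by rw [LConj.orderOf X h]; exact X.orderOf_phi hi)
  obtain ⟨K1, h1, -, hK1⟩ := X.exists_char F inA sub_check.2.2.2.2.2.2.2.1
    (fun i j hi hj => (hA i hi).2.1 j hj) sub_check.2.2.1 (fun i hi => (hA i hi).1)
    (fun i hi => by
      rcases (hA i hi).2.2 with e | e
      · exact Or.inl e
      · refine Or.inr ⟨i, hi, e, (hA i hi).2.1 i hi, Or.inl (X.inj ?_)⟩
        rw [X.map_mul, X.map_one]
        exact (X.lab_ne_zero.1 e).2)
    kc hcD.2.2.2 lab_kd.2 (fun j hj => X.not_LConj_C F hcD.2.1 hj)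
    (fun i j hi hli hj hc => by
      by_contra hn
      have hjC := ((X.sets_inA F hj (hl hc hli)).1).1 (Bool.eq_false_iff.2 hn)
      exact X.not_LConj_C F hjC hi (LConj.symm' X hc))
  obtain ⟨K2, h2, -, hK2⟩ := X.exists_char F inB b_check.2
    (fun i j hi hj => (hB i hi).2.1 j hj) cw_rep.2.2.2.2.2.2.2.2.2.2.2 (fun i hi => (hB i hi).1)
    (fun i hi => (hB i hi).2.2)
    kd hcD.2.2.1 lab_kd.1 (fun j hj hc => by
      have hjD := (X.set_of_LConj F (hB j hj).1 hc).2.2.1 hcD.1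
      have := ((X.sets_inA F (hB j hj).1 (hl hc lab_kd.1)).2).2 (Or.inl hjD)
      simp [hj] at this)
    (fun i j hi hli hj hc => by
      by_contra hn
      have hiC := (hB i hi).1
      rcases ((X.sets_inA F hj (hl hc hli)).2).1 (Bool.eq_false_iff.2 hn) with h | h
      · have := ((X.sets_inA F hiC hli).2).2
          (Or.inl ((X.set_of_LConj F hiC (LConj.symm' X hc)).2.2.1 h))
        simp [hi] at this
      · have := ((X.sets_inA F hiC hli).2).2
          (Or.inr ((X.set_of_LConj F hiC (LConj.symm' X hc)).2.2.2.1 h))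
        simp [hi] at this)
  exact ⟨K1, K2, h1, h2, fun i hi => ⟨hK1 i hi, hK2 i hi⟩⟩

/-- A square root of `w` lies outside both subgroups. -/
theorem root_not_mem {K1 K2 : Subgroup ↥X.L} (h1 : K1.index = 2) (h2 : K2.index = 2)
    (h : ∀ i (hi : com i ka2 = true), ((⟨X.φ i, X.phi_mem_L hi⟩ : ↥X.L) ∈ K1 ↔ inA i = true) ∧
      ((⟨X.φ i, X.phi_mem_L hi⟩ : ↥X.L) ∈ K2 ↔ inB i = true))
    (y : ↥X.L) (hy : (y : G) * y = X.w) : y ∉ K1 ∧ y ∉ K2 := by
  obtain ⟨i, hi, g, hg, e⟩ := X.LConj_into_T F y.2 (by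
    rw [show (y : G) ^ 4 = y * y * ((y : G) * y) by simp [pow_succ, mul_assoc], hy, X.ww])
  have hsq : mul i i = ka2 := by
    apply X.inj
    rw [X.map_mul, ← e]
    calc g * y * g⁻¹ * (g * y * g⁻¹) = g * ((y : G) * y) * g⁻¹ := by group
      _ = X.w := by rw [hy, conj_fix (X.mem_L.1 hg)]
  have hroot := all1_spec root_check i
  rw [hi, hsq] at hroot
  simp only [beq_self_eq_true, Bool.and_self, Bool.not_true, Bool.false_or, Bool.and_eq_true,
    Bool.not_eq_true'] at hroot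
  have key : ∀ K : Subgroup ↥X.L, K.index = 2 → y ∈ K →
      (⟨X.φ i, X.phi_mem_L hi⟩ : ↥X.L) ∈ K := by
    intro K hK hyK
    have := (Subgroup.normal_of_index_eq_two hK).conj_mem y hyK ⟨g, hg⟩
    rwa [show (⟨g, hg⟩ : ↥X.L) * y * ⟨g, hg⟩⁻¹ = ⟨X.φ i, X.phi_mem_L hi⟩ from Subtype.ext e] at this
  exact ⟨fun hm => by simpa [hroot.1] using (h i hi).1.1 (key K1 h1 hm),
    fun hm => by simpa [hroot.2] using (h i hi).2.1 (key K2 h2 hm)⟩

end Ctr

end CfsgLib.InvChar.AEight
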