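import Cfsg.Agent.Lib.InvChar.AEight.Table

/-!
Finite checks on the group of order 192.
-/

set_option autoImplicit false
set_option maxRecDepth 100000

namespace CfsgLib.InvChar.AEight

/-- The order of the centraliser. -/
def cc (i : I) : ℕ := cnt fun k => com k i

/-- The centre and the inverse. -/
theorem one_inv_check : mul 0 0 = 0 ∧ (all1 fun i => (mul i (inv i)).val == 0 && com i kz) = true := by
  decide +kernel

theorem lab_check : (all1 fun i =>
    ((lab i == 0) == ((i.val == 0) || !((mul i i).val == 0))) && (lab i ≤ 6 : Bool)) = true := by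
  decide +kernel

theorem cc_check : (all1 fun i =>
    (!(lab i == 1) || (cc i == 192 && i.val == kz.val)) &&
    (!(lab i == 2 || lab i == 3 || lab i == 4) || cc i == 32) &&
    (!(lab i == 5 || lab i == 6) || cc i == 16)) = true := by
  decide +kernel

theorem lab_rep : lab kz = 1 ∧ lab ka1 = 2 ∧ lab ka2 = 3 ∧ lab ka3 = 4 ∧ lab kp = 5 ∧ lab kr = 6 := by
  decide +kernel

theorem class_check : (all1 fun i => (!(lab i == 2) || any1 fun g => (cj g ka1).val == i.val) &&
    (!(lab i == 3) || any1 fun g => (cj g ka2).val == i.val) &&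
    (!(lab i == 4) || any1 fun g => (cj g ka3).val == i.val) &&
    (!(lab i == 5) || any1 fun g => (cj g kp).val == i.val) &&
    (!(lab i == 6) || any1 fun g => (cj g kr).val == i.val)) = true := by
  decide +kernel

theorem sub_check : cnt inQ = 32 ∧ cnt inS = 64 ∧ cnt inA = 16 ∧ cnt inE = 8 ∧ cnt inF = 8 ∧
    inQ 0 = true ∧ inS 0 = true ∧ inA 0 = true ∧ inE 0 = true ∧ inF 0 = true := by
  decide +kernel

theorem closed_check : (all1 fun i => all1 fun j =>
    (!(inQ i && inQ j) || inQ (mul i j)) && (!(inS i && inS j) || inS (mul i j)) &&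
    (!(inA i && inA j) || inA (mul i j)) && (!(inE i && inE j) || inE (mul i j)) &&
    (!(inF i && inF j) || inF (mul i j))) = true := by
  decide +kernel

theorem mem_check : (all1 fun i =>
    (inE i == (i.val == 0 || i.val == kz.val || lab i == 2)) &&
    (inF i == (i.val == 0 || i.val == kz.val || lab i == 4)) &&
    (!(lab i == 2 || lab i == 3 || lab i == 4) || inQ i) &&
    (!(lab i == 5 || lab i == 6) || !inQ i) &&
    (!inA i || (inS i && com i kp && (i.val == 0 || !(lab i == 0)))) &&
    (!inQ i || inS i)) = true := by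
  decide +kernel

end CfsgLib.InvChar.AEight
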