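import Cfsg.Agent.Lib.InvChar.AEight.FusionBase
import Cfsg.Agent.Lib.InvChar.AEight.CentWBase

/-!
With the fusion pattern of the alternating groups of degree eight and nine there are two classes of involutions.
-/

set_option autoImplicit false
set_option linter.unusedSectionVars false
set_option linter.style.haveILetI false

namespace CfsgLib.InvChar.AEight

universe u

namespace Ctr

variable {G : Type u} [Group G] [Finite G] {z : G} (X : Ctr z)
include X

/-- Every involution is conjugate to `z` or to `w`. -/
theorem involution_classes (F : Fus9 X) {x : G} (hx : orderOf x = 2) : IsConj z x ∨ IsConj X.w x := by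
  haveI := Fact.mk Nat.prime_two
  obtain ⟨Q, hQ⟩ := X.exists_sylow
  obtain ⟨g, hg⟩ := CfsgLib.Involutions.exists_conj_mem_of_involution Q hx
  obtain ⟨i, -, e⟩ := (hQ _).1 hg
  have hl : lab i ≠ 0 := X.lab_of_order (by rw [e, CfsgLib.Involutions.orderOf_conj, hx])
  have hc : IsConj (X.φ i) x := isConj_iff.2 ⟨g⁻¹, by rw [e]; group⟩
  rcases X.lab_cases hl with h | h | h | h | h | h
  · exact Or.inl ((((F i hl).1).2 (Or.inl h)).trans hc)
  · exact Or.inl ((((F i hl).1).2 (Or.inr (Or.inl h))).trans hc)
  · exact Or.inr ((((F i hl).2).2 (Or.inl h)).trans hc)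
  · exact Or.inl ((((F i hl).1).2 (Or.inr (Or.inr (Or.inl h)))).trans hc)
  · exact Or.inr ((((F i hl).2).2 (Or.inr h)).trans hc)
  · exact Or.inl ((((F i hl).1).2 (Or.inr (Or.inr (Or.inr h)))).trans hc)

end Ctr

end CfsgLib.InvChar.AEight
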