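import Cfsg.Agent.Lib.InvChar.AEight.Checks

/-!
A group with an involution whose centraliser is the group of order 192.
-/

set_option autoImplicit false
set_option linter.unusedSectionVars false

namespace CfsgLib.InvChar.AEight

universe u

variable {G : Type u} [Group G] [Finite G]

/-- A parametrisation of the centraliser of `z`. -/
structure Ctr (z : G) where
  φ : I → G
  inj : Function.Injective φ
  map_mul : ∀ i j, φ (mul i j) = φ i * φ j
  z_eq : φ kz = z
  surj : ∀ g, g * z = z * g → ∃ i, φ i = g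

/-- Conjugation preserves commutation. -/
theorem comm_conj {H : Type*} [Group H] {x y : H} (g : H)
    (h : x * y = y * x) : g * x * g⁻¹ * (g * y * g⁻¹) = g * y * g⁻¹ * (g * x * g⁻¹) := by
  calc g * x * g⁻¹ * (g * y * g⁻¹) = g * (x * y) * g⁻¹ := by group
    _ = g * y * g⁻¹ * (g * x * g⁻¹) := by rw [h]; group

namespace Ctr

variable {z : G} (X : Ctr z)
include X

theorem map_one : X.φ 0 = 1 := by
  have h := X.map_mul 0 0
  rw [one_inv_check.1] at h
  exact left_eq_mul.1 h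

theorem map_inv (i : I) : X.φ (inv i) = (X.φ i)⁻¹ := by
  have h := all1_spec one_inv_check.2 i
  simp only [Bool.and_eq_true, beq_iff_eq] at h
  refine (inv_eq_of_mul_eq_one_right ?_).symm
  rw [← X.map_mul, show mul i (inv i) = 0 from Fin.ext h.1, X.map_one]

theorem map_cj (g i : I) : X.φ (cj g i) = X.φ g * X.φ i * (X.φ g)⁻¹ := by
  rw [cj, X.map_mul, X.map_mul, X.map_inv]

theorem com_iff (i j : I) : com i j = true ↔ X.φ i * X.φ j = X.φ j * X.φ i := by
  rw [com, beq_iff_eq, ← Fin.ext_iff, ← X.map_mul, ← X.map_mul, X.inj.eq_iff]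

theorem comm_z (i : I) : X.φ i * z = z * X.φ i := by
  have h := all1_spec one_inv_check.2 i
  simp only [Bool.and_eq_true] at h
  have h2 := (X.com_iff i kz).1 h.2
  rwa [X.z_eq] at h2

theorem mem_C (g : G) : g ∈ Subgroup.centralizer ({z} : Set G) ↔ ∃ i, X.φ i = g :=
  ⟨fun h => X.surj g (Subgroup.mem_centralizer_singleton_iff.1 h),
    fun ⟨i, e⟩ => e ▸ Subgroup.mem_centralizer_singleton_iff.2 (X.comm_z i)⟩

/-- The subgroup of a closed set of indices. -/
def sub (p : I → Bool) (h0 : p 0 = true) (hm : ∀ i j, p i = true → p j = true → p (mul i j) = true) :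
    Subgroup G where
  carrier := {g | ∃ i, p i = true ∧ X.φ i = g}
  one_mem' := ⟨0, h0, X.map_one⟩
  mul_mem' := by
    rintro _ _ ⟨i, hi, rfl⟩ ⟨j, hj, rfl⟩
    exact ⟨mul i j, hm i j hi hj, X.map_mul i j⟩
  inv_mem' := by
    rintro _ ⟨i, hi, rfl⟩
    have hpow : ∀ n : ℕ, ∃ j, p j = true ∧ X.φ j = X.φ i ^ n := by
      intro n
      induction n with
      | zero => exact ⟨0, h0, by rw [pow_zero, X.map_one]⟩
      | succ n ih =>
        obtain ⟨j, hj, e⟩ := ih
        exact ⟨mul j i, hm j i hj hi, by rw [X.map_mul, e, pow_succ]⟩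
    obtain ⟨j, hj, e⟩ := hpow (orderOf (X.φ i) - 1)
    refine ⟨j, hj, ?_⟩
    rw [e]
    refine (inv_eq_of_mul_eq_one_right ?_).symm
    rw [← pow_succ', Nat.sub_add_cancel (orderOf_pos _), pow_orderOf_eq_one]

theorem card_image (p : I → Bool) (S : Subgroup G)
    (hS : ∀ g, g ∈ S ↔ ∃ i, p i = true ∧ X.φ i = g) : Nat.card S = cnt p := by
  rw [cnt_eq]
  refine (Nat.card_eq_of_bijective (fun i : {i : I // p i = true} =>
    (⟨X.φ i, (hS _).2 ⟨i, i.2, rfl⟩⟩ : S)) ⟨?_, ?_⟩).symm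
  · intro a b e
    exact Subtype.ext (X.inj (congrArg Subtype.val e))
  · rintro ⟨g, hg⟩
    obtain ⟨i, hi, rfl⟩ := (hS g).1 hg
    exact ⟨⟨i, hi⟩, rfl⟩

theorem card_inf (i : I) :
    Nat.card ↥(Subgroup.centralizer ({z} : Set G) ⊓ Subgroup.centralizer ({X.φ i} : Set G)) =
      cc i := by
  refine X.card_image (fun k => com k i) _ fun g => ?_
  rw [Subgroup.mem_inf, X.mem_C, Subgroup.mem_centralizer_singleton_iff]
  constructor
  · rintro ⟨⟨k, rfl⟩, h⟩
    exact ⟨k, (X.com_iff k i).2 h, rfl⟩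
  · rintro ⟨k, hk, rfl⟩
    exact ⟨⟨k, rfl⟩, (X.com_iff k i).1 hk⟩

theorem card_C : Nat.card (Subgroup.centralizer ({z} : Set G)) = 192 := by
  have h := X.card_inf kz
  rw [X.z_eq, inf_idem] at h
  rw [h]
  have hc := all1_spec cc_check kz
  simp only [Bool.and_eq_true, Bool.or_eq_true, Bool.not_eq_true', beq_iff_eq, beq_eq_false_iff_ne,
    lab_rep.1] at hc
  exact ((hc.1.1.resolve_left (by decide))).1

theorem lab_ne_zero {i : I} : lab i ≠ 0 ↔ X.φ i ≠ 1 ∧ X.φ i * X.φ i = 1 := by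
  have h := all1_spec lab_check i
  simp only [Bool.and_eq_true, beq_iff_eq, decide_eq_true_eq] at h
  rw [← X.map_mul, ← X.map_one, Ne, Ne, X.inj.eq_iff, X.inj.eq_iff]
  have h1 := h.1
  by_cases hl : lab i = 0
  · simp only [hl, beq_self_eq_true] at h1
    simp only [hl, not_true_eq_false, false_iff, not_and]
    intro hi hm
    rw [hm] at h1
    simp [Fin.val_eq_zero_iff, hi] at h1
  · rw [show (lab i == 0) = false from beq_eq_false_iff_ne.2 hl] at h1
    simp only [hl, not_false_eq_true, true_iff]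
    have h2 := h1.symm
    simp only [Bool.or_eq_false_iff, beq_eq_false_iff_ne, Bool.not_eq_false', beq_iff_eq] at h2
    exact ⟨fun e => h2.1 (congrArg Fin.val e), Fin.ext h2.2⟩

theorem orderOf_phi {i : I} (h : lab i ≠ 0) : orderOf (X.φ i) = 2 :=
  haveI := Fact.mk Nat.prime_two
  orderOf_eq_prime (by rw [pow_two]; exact (X.lab_ne_zero.1 h).2) (X.lab_ne_zero.1 h).1

theorem orderOf_z : orderOf z = 2 := by
  rw [← X.z_eq]; exact X.orderOf_phi (by rw [lab_rep.1]; decide)

theorem exists_index_of_involution {g : G} (hg : orderOf g = 2) (hc : g * z = z * g) :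
    ∃ i, X.φ i = g ∧ lab i ≠ 0 := by
  obtain ⟨i, rfl⟩ := X.surj g hc
  refine ⟨i, rfl, X.lab_ne_zero.2 ⟨fun e => ?_, ?_⟩⟩
  · rw [e, orderOf_one] at hg
    omega
  · rw [← pow_two, ← hg, pow_orderOf_eq_one]

/-- The label is at most six. -/
theorem lab_cases {i : I} (h : lab i ≠ 0) :
    lab i = 1 ∨ lab i = 2 ∨ lab i = 3 ∨ lab i = 4 ∨ lab i = 5 ∨ lab i = 6 := by
  have h1 := all1_spec lab_check i
  simp only [Bool.and_eq_true, decide_eq_true_eq] at h1
  omega

omit [Finite G] X in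
theorem cc_of_lab {i : I} : (lab i = 1 → cc i = 192 ∧ i = kz) ∧
    (lab i = 2 ∨ lab i = 3 ∨ lab i = 4 → cc i = 32) ∧ (lab i = 5 ∨ lab i = 6 → cc i = 16) := by
  have h := all1_spec cc_check i
  simp only [Bool.and_eq_true, Bool.or_eq_true, Bool.not_eq_true', beq_iff_eq,
    beq_eq_false_iff_ne, Bool.or_eq_false_iff] at h
  obtain ⟨⟨h1, h2⟩, h3⟩ := h
  refine ⟨fun e => ?_, fun e => h2.resolve_left ?_, fun e => h3.resolve_left ?_⟩
  · obtain ⟨x, y⟩ := h1.resolve_left (not_not.2 e)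
    exact ⟨x, Fin.ext y⟩
  all_goals omega

/-- The representative of a label. -/
def _root_.CfsgLib.InvChar.AEight.rep : ℕ → I
  | 2 => ka1
  | 3 => ka2
  | 4 => ka3
  | 5 => kp
  | 6 => kr
  | _ => kz

theorem conj_rep (i : I) (h : lab i ≠ 0) : IsConj (X.φ (rep (lab i))) (X.φ i) := by
  have hc := all1_spec class_check i
  simp only [Bool.and_eq_true, Bool.or_eq_true, Bool.not_eq_true', beq_eq_false_iff_ne] at hc
  obtain ⟨⟨⟨⟨c2, c3⟩, c4⟩, c5⟩, c6⟩ := hc
  have key : ∀ r, (any1 fun g => (cj g r).val == i.val) = true → IsConj (X.φ r) (X.φ i) := by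
    intro r hr
    obtain ⟨g, hg⟩ := any1_spec hr
    rw [beq_iff_eq, ← Fin.ext_iff] at hg
    exact isConj_iff.2 ⟨X.φ g, by rw [← X.map_cj, hg]⟩
  rcases X.lab_cases h with e | e | e | e | e | e <;> rw [e]
  · rw [((cc_of_lab).1 e).2]; rfl
  · exact key _ (c2.resolve_left (not_not.2 e))
  · exact key _ (c3.resolve_left (not_not.2 e))
  · exact key _ (c4.resolve_left (not_not.2 e))
  · exact key _ (c5.resolve_left (not_not.2 e))
  · exact key _ (c6.resolve_left (not_not.2 e))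

/-- Conjugation carrying `φ i` to `z` maps the centraliser of `φ i` in `C(z)` to that of an
involution with the same label. -/
theorem transport {i : I} {g : G} (h : g * X.φ i * g⁻¹ = z) :
    ∃ j, X.φ j = g * z * g⁻¹ ∧ cc j = cc i ∧
      ∀ k, com k i = true → ∃ k', X.φ k' = g * X.φ k * g⁻¹ ∧ com k' j = true := by
  have hzc : (g * z * g⁻¹) * z = z * (g * z * g⁻¹) := by
    have hc := comm_conj g (X.comm_z i).symm
    rwa [h] at hc
  obtain ⟨j, hj⟩ := X.surj _ hzc
  have hmap : ∀ k, com k i = true → ∃ k', X.φ k' = g * X.φ k * g⁻¹ ∧ com k' j = true := by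
    intro k hk
    have hk' := (X.com_iff k i).1 hk
    obtain ⟨k', e⟩ := X.surj (g * X.φ k * g⁻¹) (by
      have hc := comm_conj g hk'
      rwa [h] at hc)
    refine ⟨k', e, (X.com_iff k' j).2 ?_⟩
    rw [e, hj]
    exact comm_conj g (X.comm_z k)
  refine ⟨j, hj, ?_, hmap⟩
  rw [← X.card_inf i, ← X.card_inf j, hj]
  let e := MulAut.conj g
  have hmap2 : (Subgroup.centralizer ({z} : Set G) ⊓
      Subgroup.centralizer ({X.φ i} : Set G)).map e.toMonoidHom =
      Subgroup.centralizer ({z} : Set G) ⊓ Subgroup.centralizer ({g * z * g⁻¹} : Set G) := by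
    ext x
    simp only [Subgroup.mem_map, Subgroup.mem_inf, Subgroup.mem_centralizer_singleton_iff]
    constructor
    · rintro ⟨y, ⟨hy1, hy2⟩, rfl⟩
      show g * y * g⁻¹ * z = z * (g * y * g⁻¹) ∧ g * y * g⁻¹ * (g * z * g⁻¹) =
        g * z * g⁻¹ * (g * y * g⁻¹)
      refine ⟨?_, comm_conj g hy1⟩
      have hc := comm_conj g hy2
      rwa [h] at hc
    · rintro ⟨hx1, hx2⟩
      refine ⟨g⁻¹ * x * g, ⟨?_, ?_⟩, show g * (g⁻¹ * x * g) * g⁻¹ = x by group⟩
      · have hc := comm_conj g⁻¹ hx2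
        rw [inv_inv, show g⁻¹ * (g * z * g⁻¹) * g = z by group] at hc
        exact hc
      · have hi : X.φ i = g⁻¹ * z * g := by
          calc X.φ i = g⁻¹ * (g * X.φ i * g⁻¹) * g := by group
            _ = g⁻¹ * z * g := by rw [h]
        have hc := comm_conj g⁻¹ hx1
        rw [inv_inv] at hc
        rw [hi]
        exact hc
  rw [← hmap2]
  exact Subgroup.card_map_of_injective e.injective

end Ctr

/-- The fusion pattern of a group with elementary normal subgroup of order eight. -/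
def Fus3 {z : G} (X : Ctr z) : Prop :=
  ∀ i, lab i ≠ 0 → (IsConj z (X.φ i) ↔ (lab i = 1 ∨ lab i = 2)) ∧
    (IsConj (X.φ ka2) (X.φ i) ↔ (lab i = 3 ∨ lab i = 5)) ∧
    (IsConj (X.φ ka3) (X.φ i) ↔ (lab i = 4 ∨ lab i = 6))

/-- The fusion pattern of the alternating groups of degree eight and nine. -/
def Fus9 {z : G} (X : Ctr z) : Prop :=
  ∀ i, lab i ≠ 0 → (IsConj z (X.φ i) ↔ (lab i = 1 ∨ lab i = 2 ∨ lab i = 4 ∨ lab i = 6)) ∧
    (IsConj (X.φ ka2) (X.φ i) ↔ (lab i = 3 ∨ lab i = 5))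

end CfsgLib.InvChar.AEight
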