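import Cfsg.Prelude.Def_Solvable
import Cfsg.Agent.Lib.Cores.PCore
import Cfsg.Agent.Lib.InvChar.AEight.Setting

/-!
The core of the centraliser in the parametrisation.
-/

set_option autoImplicit false
set_option linter.unusedSectionVars false

namespace CfsgLib.InvChar.AEight

universe u

variable {G : Type u} [Group G] [Finite G]

theorem inQ_normal_check : (all1 fun g => all1 fun i => !inQ i || inQ (cj g i)) = true := by
  decide +kernel

theorem inQ_mul {i j : I} (hi : inQ i = true) (hj : inQ j = true) : inQ (mul i j) = true := by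
  have h := all1_spec (all1_spec closed_check i) j
  simp only [hi, hj, Bool.and_eq_true, Bool.and_self, Bool.not_true, Bool.false_or] at h
  exact h.1.1.1.1

/-- A subgroup of index set with `32` elements, closed under conjugation, is the two-core. -/
theorem core_eq {z : G} {L : Subgroup G} (hL : L = Subgroup.centralizer ({z} : Set G))
    (hQ : Nat.card ((Cfsg.pCore 2 L).map L.subtype : Subgroup G) = 32) (N : Subgroup G) (hNL : N ≤ L)
    (hN : Nat.card N = 32) (hnor : ∀ g ∈ L, ∀ n ∈ N, g * n * g⁻¹ ∈ N) :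
    N = (Cfsg.pCore 2 L).map L.subtype := by
  haveI : Fact (Nat.Prime 2) := ⟨Nat.prime_two⟩
  haveI : (N.subgroupOf L).Normal := ⟨fun n hn g => hnor g g.2 n hn⟩
  have hp : IsPGroup 2 (N.subgroupOf L) := IsPGroup.of_card (n := 5) (by
    rw [Nat.card_congr (Subgroup.subgroupOfEquivOfLe hNL).toEquiv, hN]; norm_num)
  have hle : N ≤ (Cfsg.pCore 2 L).map L.subtype := fun n hn =>
    Subgroup.mem_map.2 ⟨⟨n, hNL hn⟩, CfsgLib.Cores.le_pCore hp hn, rfl⟩
  exact Subgroup.eq_of_le_of_card_ge hle (by rw [hQ, hN])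

/-- A conjugate of `z` in the core has an index in `inQ`. -/
theorem Ctr.exists_nwc {z : G} (X : Ctr z) {L Q : Subgroup G}
    (hL : L = Subgroup.centralizer ({z} : Set G)) (hQ : Q = (Cfsg.pCore 2 L).map L.subtype)
    (hQ32 : Nat.card Q = 32) (hnwc : ∃ g : G, g * z * g⁻¹ ∈ Q ∧ g * z * g⁻¹ ≠ z) :
    ∃ i, inQ i = true ∧ i ≠ kz ∧ IsConj z (X.φ i) := by
  obtain ⟨g, hg, hne⟩ := hnwc
  set N := X.sub inQ sub_check.2.2.2.2.2.1 fun _ _ => inQ_mul with hN
  have hLi : ∀ h, h ∈ L ↔ ∃ i, X.φ i = h := fun h => by rw [hL]; exact X.mem_C h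
  have hNQ : N = Q := by
    rw [hQ] at hQ32 ⊢
    refine core_eq hL hQ32 N ?_ (by rw [X.card_image inQ N fun g => Iff.rfl, sub_check.1]) ?_
    · rintro _ ⟨i, -, rfl⟩
      exact (hLi _).2 ⟨i, rfl⟩
    · rintro h hh _ ⟨i, hi, rfl⟩
      obtain ⟨k, rfl⟩ := (hLi h).1 hh
      have hc := all1_spec (all1_spec inQ_normal_check k) i
      simp only [hi, Bool.not_true, Bool.false_or] at hc
      exact ⟨cj k i, hc, X.map_cj k i⟩
  obtain ⟨i, hi, hie⟩ := hNQ.ge hg
  refine ⟨i, hi, fun e => hne ?_, ?_⟩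
  · rw [← hie, e, X.z_eq]
  · exact isConj_iff.2 ⟨g, hie.symm⟩

end CfsgLib.InvChar.AEight
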