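import Cfsg.Agent.Lib.InvChar.AEight.FusionData

/-!
Finite checks on the candidates for the automiser of the elementary group of order 16.
-/

set_option autoImplicit false
set_option maxRecDepth 100000
set_option maxHeartbeats 4000000

namespace CfsgLib.InvChar.AEight.Automiser

/-- A linear map given by four images. -/
def ap (e p : ℕ) : ℕ :=
  Nat.xor (Nat.xor (bif p.testBit 0 then Nat.land e 15 else 0)
      (bif p.testBit 1 then Nat.land (Nat.shiftRight e 4) 15 else 0))
    (Nat.xor (bif p.testBit 2 then Nat.land (Nat.shiftRight e 8) 15 else 0)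
      (bif p.testBit 3 then Nat.land (Nat.shiftRight e 12) 15 else 0))

/-- The units. -/
def units : List ℕ := [1, 2, 4, 8]

/-- The letters: two maps of the centraliser and two candidates. -/
def letE (s t : ℕ) : ℕ → ℕ
  | 0 => vE.getD 1 0
  | 1 => vE.getD 2 0
  | 2 => s
  | _ => t

/-- A word applied to a point. -/
def run (s t : ℕ) (w : List ℕ) (p : ℕ) : ℕ := w.foldr (fun g x => ap (letE s t g) x) p

/-- A word fixing the first point which is none of the four maps of the centraliser. -/
def badWord (s t : ℕ) (w : List ℕ) : Bool :=
  Nat.beq (run s t w 1) 1 && !(vE.any fun v => units.all fun k => Nat.beq (run s t w k) (ap v k))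

/-- The colour of the label of a point. -/
def colP (r : Row) (p : ℕ) : ℕ := r.col.getD (lab (el p)) 0

def scanOk (L : ℕ) : Bool :=
  (List.range 4096).all fun r =>
    let e := pL L + 16 * r
    ((rows L).any fun x => Nat.beq x.e e) ||
      ((List.range 15).any fun p => Nat.beq (ap e (p + 1)) 0) ||
      (words L).any fun w => badWord e e w

theorem scan2 : scanOk 2 = true := by decide +kernel
theorem scan3 : scanOk 3 = true := by decide +kernel
theorem scan4 : scanOk 4 = true := by decide +kernel
theorem scan5 : scanOk 5 = true := by decide +kernel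
theorem scan6 : scanOk 6 = true := by decide +kernel

theorem el_check : ((List.range 16).all fun p => inA (el p) &&
      (List.range 16).all fun q => ((el (Nat.xor p q)).val == (mul (el p) (el q)).val) &&
        (!((el p).val == (el q).val) || Nat.beq p q)) = true ∧
    (all1 fun i => !inA i || (List.range 16).any fun p => (el p).val == i.val) = true ∧
    el 1 = kz ∧ el 0 = 0 := by
  decide +kernel

theorem v_check : vE.length = 4 ∧ ((List.range 4).all fun k => (List.range 16).all fun p =>
    Nat.blt (ap (vE.getD k 0) p) 16 &&
      ((cj (fin (vW.getD k 0)) (el p)).val == (el (ap (vE.getD k 0) p)).val) &&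
      Nat.beq (lab (el (ap (vE.getD k 0) p))) (lab (el p))) = true := by
  decide +kernel

theorem stab_check : (all1 fun i => !(units.all fun k => inA (cj i (el k))) ||
    vE.any fun v => units.all fun k => (cj i (el k)).val == (el (ap v k)).val) = true := by
  decide +kernel

theorem rep_check : ((List.range 6).all fun M => Nat.blt (pL (M + 1)) 16 &&
    Nat.beq (lab (el (pL (M + 1)))) (M + 1)) = true := by
  decide +kernel

theorem lab_pos_check : ((List.range 16).all fun p => Nat.beq p 0 ||
    (Nat.blt 0 (lab (el p)) && Nat.blt (lab (el p)) 7)) = true := by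
  decide +kernel

/-- The colours are invariant under the candidate, the words lead to the first point and connect the labels. -/
def rowOk (r : Row) : Bool :=
  ((List.range 16).all fun p => Nat.beq p 0 ||
    (Nat.blt 0 (ap r.e p) && Nat.blt (ap r.e p) 16 && Nat.beq (colP r (ap r.e p)) (colP r p) &&
      (!(Nat.beq (colP r p) (r.col.getD 1 0)) || (((r.to1.getD p []).all fun g => Nat.blt g 3) &&
        Nat.beq (run r.e r.e (r.to1.getD p []) p) 1)))) &&
  (List.range 6).all fun M =>
    Nat.blt 0 (r.col.getD (M + 1) 0) && Nat.blt (r.col.getD (M + 1) 0) 7 &&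
      ((r.conn.getD (M + 1) []).all fun g => Nat.blt g 3) &&
      Nat.beq (lab (el (run r.e r.e (r.conn.getD (M + 1) []) (pL (r.col.getD (M + 1) 0))))) (M + 1)

theorem rows_check : ((List.range 5).all fun L => (rows (L + 2)).all rowOk) = true := by
  decide +kernel

/-- Two candidates of different colours are incompatible. -/
def comboOk (L : ℕ) : Bool :=
  (rows L).all fun r => (List.range 5).all fun k =>
    let M := k + 2
    Nat.beq (r.col.getD M 0) (r.col.getD 1 0) || (Nat.blt L 5 && Nat.blt 4 M) ||
      (rows M).all fun t => (combo L).any fun w => (w.all fun g => Nat.blt g 4) &&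
        (badWord r.e t.e w || (Nat.blt L 5 && Nat.blt M 5 && Nat.blt 4 (lab (el (run r.e t.e w 1)))))

theorem combo_check : ((List.range 5).all fun L => comboOk (L + 2)) = true := by decide +kernel

/-- The colours wanted: in the first case and in the second. -/
def tgt (L : ℕ) : List ℕ := bif Nat.blt L 5 then [0, 1, 1, 3, 4, 3, 4] else [0, 1, 1, 3, 1, 3, 1]

theorem tgt_check : ((List.range 5).all fun k => (rows (k + 2)).all fun r =>
    let pi := autPi.getD r.aut []
    Nat.blt r.aut 12 && Nat.beq (pi.getD 1 0) 1 &&
      (List.range 6).all fun x => Nat.blt 0 (pi.getD (x + 1) 0) && Nat.blt (pi.getD (x + 1) 0) 7 &&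
        (List.range 6).all fun y =>
          Nat.beq (r.col.getD (pi.getD (x + 1) 0) 0) (r.col.getD (pi.getD (y + 1) 0) 0) ==
            Nat.beq ((tgt (k + 2)).getD (x + 1) 0) ((tgt (k + 2)).getD (y + 1) 0)) = true := by
  decide +kernel

theorem aut_check : ((List.range 12).all fun a => (psi a kz).val == kz.val && (psi a 0).val == 0 &&
    all1 fun i => (psiInv a (psi a i)).val == i.val && (psi a (psiInv a i)).val == i.val &&
      Nat.beq (lab (psi a i)) ((autPi.getD a []).getD (lab i) 0) &&
      genL.all fun g => (psi a (mul i (fin g))).val == (mul (psi a i) (psi a (fin g))).val) = true := by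
  decide +kernel

theorem gen_check : (all1 fun i => ((genWords.getD i.val []).all fun k => Nat.blt k 4) &&
    ((genWords.getD i.val []).foldl (fun x k => mul x (fin (genL.getD k 0))) 0).val == i.val) = true := by
  decide +kernel

end CfsgLib.InvChar.AEight.Automiser
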