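import Cfsg.Agent.Lib.InvChar.AEight.FusionBase
import Cfsg.Agent.Lib.InvChar.AEight.FusionChecks

/-!
The fusion of involutions: up to an automorphism of the centraliser it is one of two patterns.
-/

set_option autoImplicit false
set_option linter.unusedSectionVars false

namespace CfsgLib.InvChar.AEight

open Automiser

universe u

variable {G : Type u} [Group G] [Finite G] {z : G} (X : Ctr z)

/-- A map of the coordinates induced by conjugation. -/
def Ctr.Act (f : ℕ → ℕ) : Prop :=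
  ∃ g : G, ∀ p, p < 16 → f p < 16 ∧ g * X.φ (el p) * g⁻¹ = X.φ (el (f p))

namespace Ctr

theorem el_spec {p q : ℕ} (hp : p < 16) (hq : q < 16) :
    inA (el p) = true ∧ el (Nat.xor p q) = mul (el p) (el q) ∧ (el p = el q → p = q) := by
  have h := List.all_eq_true.1 el_check.1 p (List.mem_range.2 hp)
  simp only [Bool.and_eq_true, List.all_eq_true, List.mem_range, Bool.or_eq_true, Bool.not_eq_true',
    beq_iff_eq, beq_eq_false_iff_ne, Nat.beq_eq] at h
  exact ⟨h.1, Fin.ext (h.2 q hq).1, fun e => (h.2 q hq).2.resolve_left (not_not.2 (congrArg Fin.val e))⟩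

theorem exists_el {i : I} (h : inA i = true) : ∃ p, p < 16 ∧ el p = i := by
  have h' := all1_spec el_check.2.1 i
  simp only [h, Bool.not_true, Bool.false_or, List.any_eq_true, List.mem_range, beq_iff_eq] at h'
  obtain ⟨p, hp, e⟩ := h'
  exact ⟨p, hp, Fin.ext e⟩

include X in
theorem act_comp {f g : ℕ → ℕ} (hf : X.Act f) (hg : X.Act g) : X.Act fun p => f (g p) := by
  obtain ⟨a, ha⟩ := hf
  obtain ⟨b, hb⟩ := hg
  refine ⟨a * b, fun p hp => ⟨(ha _ (hb p hp).1).1, ?_⟩⟩
  rw [← (ha _ (hb p hp).1).2, ← (hb p hp).2]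
  group

theorem act_id : X.Act fun p => p := ⟨1, fun p hp => ⟨hp, by simp⟩⟩

theorem act_v {k : ℕ} (hk : k < 4) : X.Act (ap (vE.getD k 0)) := by
  refine ⟨X.φ (fin (vW.getD k 0)), fun p hp => ?_⟩
  have h := List.all_eq_true.1 (List.all_eq_true.1 v_check.2 k (List.mem_range.2 hk)) p (List.mem_range.2 hp)
  simp only [Bool.and_eq_true, Nat.blt_eq, beq_iff_eq] at h
  exact ⟨h.1.1, by rw [← X.map_cj, Fin.ext h.1.2]⟩

theorem act_of_agree {f g : ℕ → ℕ} (hf : X.Act f) (h : ∀ p, p < 16 → f p = g p) : X.Act g := by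
  obtain ⟨a, ha⟩ := hf
  exact ⟨a, fun p hp => h p hp ▸ ha p hp⟩

theorem act_run {s t : ℕ} (hs : X.Act (ap s)) (ht : X.Act (ap t)) (w : List ℕ) : X.Act (run s t w) := by
  induction w with
  | nil => exact X.act_id
  | cons g w ih =>
    show X.Act fun p => ap (letE s t g) (run s t w p)
    refine X.act_comp (f := ap (letE s t g)) (g := run s t w) ?_ ih
    match g with
    | 0 => exact X.act_v (by decide)
    | 1 => exact X.act_v (by decide)
    | 2 => exact hs
    | _ + 3 => exact ht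

theorem act_of_conj {a b : ℕ} (ha : a < 16) (hb : b < 16) (h : IsConj (X.φ (el a)) (X.φ (el b))) :
    ∃ f, X.Act f ∧ f a = b := by
  classical
  obtain ⟨g, hg, hA⟩ := X.exists_normalizer_of_conj (el_spec ha ha).1 (el_spec hb hb).1 h
  have hq : ∀ p : ℕ, ∃ q, p < 16 → q < 16 ∧ g * X.φ (el p) * g⁻¹ = X.φ (el q) := by
    intro p
    by_cases hp : p < 16
    · obtain ⟨j, hj, e⟩ := hA _ (el_spec hp hp).1
      obtain ⟨q, hq, rfl⟩ := exists_el hj
      exact ⟨q, fun _ => ⟨hq, e.symm⟩⟩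
    · exact ⟨0, fun h => absurd h hp⟩
  choose f hf using hq
  exact ⟨f, ⟨g, hf⟩, (el_spec (hf a ha).1 hb).2.2 (X.inj ((hf a ha).2.symm.trans hg))⟩

theorem conj_of_act {f : ℕ → ℕ} (hf : X.Act f) {p : ℕ} (hp : p < 16) :
    IsConj (X.φ (el p)) (X.φ (el (f p))) := by
  obtain ⟨g, hg⟩ := hf
  exact isConj_iff.2 ⟨g, (hg p hp).2⟩

theorem ap_xor (e p q : ℕ) : ap e (Nat.xor p q) = Nat.xor (ap e p) (ap e q) := by
  have key : ∀ (a b : Bool) (n : ℕ), (bif Bool.xor a b then n else 0) =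
      (bif a then n else 0) ^^^ (bif b then n else 0) := by
    intro a b n
    cases a <;> cases b <;> simp
  unfold ap
  simp only [show ∀ x y, Nat.xor x y = x ^^^ y from fun _ _ => rfl, Nat.testBit_xor, key]
  ac_rfl

theorem act_xor {f : ℕ → ℕ} (hf : X.Act f) {p q : ℕ} (hp : p < 16) (hq : q < 16) :
    f (Nat.xor p q) = Nat.xor (f p) (f q) := by
  obtain ⟨g, hg⟩ := hf
  have h1 : Nat.xor p q < 16 := Nat.xor_lt_two_pow (n := 4) hp hq
  have h2 : Nat.xor (f p) (f q) < 16 := Nat.xor_lt_two_pow (n := 4) (hg p hp).1 (hg q hq).1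
  refine (el_spec (hg _ h1).1 h2).2.2 (X.inj ?_)
  rw [← (hg _ h1).2, (el_spec hp hq).2.1, (el_spec (hg p hp).1 (hg q hq).1).2.1, X.map_mul, X.map_mul,
    ← (hg p hp).2, ← (hg q hq).2]
  group

theorem act_zero {f : ℕ → ℕ} (hf : X.Act f) {p : ℕ} (hp : p < 16) (h : f p = 0) : p = 0 := by
  obtain ⟨g, hg⟩ := hf
  refine (el_spec hp (by decide)).2.2 (X.inj ?_)
  have e := (hg p hp).2
  rw [h, el_check.2.2.2, X.map_one, conj_eq_one_iff] at e
  rw [e, el_check.2.2.2, X.map_one]

/-- Two induced maps agreeing on the units agree. -/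
theorem agree_of_units {f : ℕ → ℕ} (hf : X.Act f) (e : ℕ) (h : ∀ k ∈ units, f k = ap e k) :
    ∀ p, p < 16 → f p = ap e p := by
  have h0 : f 0 = ap e 0 := by
    have hx := X.act_xor hf (p := 1) (q := 1) (by decide) (by decide)
    rw [show Nat.xor 1 1 = 0 from rfl] at hx
    rw [hx, show Nat.xor (f 1) (f 1) = 0 from Nat.xor_self _]
    simp [ap]
  have hb : ∀ p, p < 16 → ∀ k ∈ units, Nat.land p k = 0 ∨ Nat.land p k = k := by decide
  have hd : ∀ p, p < 16 → p = Nat.xor (Nat.xor (Nat.land p 1) (Nat.land p 2))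
      (Nat.xor (Nat.land p 4) (Nat.land p 8)) ∧ Nat.xor (Nat.land p 1) (Nat.land p 2) < 16 ∧
      Nat.xor (Nat.land p 4) (Nat.land p 8) < 16 ∧ ∀ k ∈ units, Nat.land p k < 16 := by decide
  intro p hp
  obtain ⟨e1, l1, l2, l3⟩ := hd p hp
  have hu : ∀ k ∈ units, f (Nat.land p k) = ap e (Nat.land p k) := fun k hk => by
    rcases hb p hp k hk with c | c <;> rw [c]
    · exact h0
    · exact h k hk
  rw [e1, X.act_xor hf l1 l2, X.act_xor hf (l3 1 (by decide)) (l3 2 (by decide)),
    X.act_xor hf (l3 4 (by decide)) (l3 8 (by decide)), ap_xor, ap_xor, ap_xor, hu 1 (by decide),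
    hu 2 (by decide), hu 4 (by decide), hu 8 (by decide)]

/-- A map fixing the first point is one of the four maps of the centraliser. -/
theorem stab {f : ℕ → ℕ} (hf : X.Act f) (h1 : f 1 = 1) :
    ∃ k, k < 4 ∧ ∀ p, p < 16 → f p = ap (vE.getD k 0) p := by
  obtain ⟨g, hg⟩ := id hf
  have hz := (hg 1 (by decide)).2
  rw [h1, el_check.2.2.1, X.z_eq] at hz
  obtain ⟨i, rfl⟩ := X.surj g (mul_inv_eq_iff_eq_mul.1 hz)
  have hcj : ∀ p, p < 16 → cj i (el p) = el (f p) := fun p hp =>
    X.inj (by rw [X.map_cj]; exact (hg p hp).2)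
  have hu : ∀ k ∈ units, k < 16 := by decide
  have h := all1_spec stab_check i
  simp only [Bool.or_eq_true, Bool.not_eq_true'] at h
  rcases h with h | h
  · exfalso
    rw [← Bool.not_eq_true, List.all_eq_true] at h
    exact h fun k hk => by rw [hcj k (hu k hk)]; exact (el_spec (hg k (hu k hk)).1 (hu k hk)).1
  · obtain ⟨v, hv, hvk⟩ := List.any_eq_true.1 h
    obtain ⟨k, hk, rfl⟩ := List.getElem_of_mem hv
    refine ⟨k, v_check.1 ▸ hk, ?_⟩
    rw [List.getD_eq_getElem _ _ hk]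
    refine X.agree_of_units hf _ fun q hq => ?_
    have e : cj i (el q) = el (ap vE[k] q) := Fin.ext (by simpa using List.all_eq_true.1 hvk q hq)
    rw [hcj q (hu q hq)] at e
    have hlt := ((X.act_v (k := k) (v_check.1 ▸ hk)))
    obtain ⟨g', hg'⟩ := hlt
    have hb := (hg' q (hu q hq)).1
    rw [List.getD_eq_getElem _ _ hk] at hb
    exact (el_spec (hg q (hu q hq)).1 hb).2.2 e

theorem not_badWord {s t : ℕ} (hs : X.Act (ap s)) (ht : X.Act (ap t)) (w : List ℕ) : badWord s t w = false := by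
  refine Bool.eq_false_iff.2 fun h => ?_
  simp only [badWord, Bool.and_eq_true, Nat.beq_eq, Bool.not_eq_true'] at h
  obtain ⟨k, hk, hf⟩ := X.stab (X.act_run hs ht w) h.1
  have hk' : k < vE.length := by rw [v_check.1]; exact hk
  have h2 : (vE.any fun v => units.all fun q => Nat.beq (run s t w q) (ap v q)) = true :=
    List.any_eq_true.2 ⟨vE[k], List.getElem_mem _, List.all_eq_true.2 fun q hq => by
      rw [Nat.beq_eq, hf q ((by decide : ∀ k ∈ units, k < 16) q hq), List.getD_eq_getElem _ _ hk']⟩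
  rw [h2] at h
  exact Bool.noConfusion h.2

/-- The class of the central involution meets a label. -/
def InO (M : ℕ) : Prop := IsConj z (X.φ (el (pL M)))

theorem pL_spec {M : ℕ} (h1 : 1 ≤ M) (h2 : M ≤ 6) : pL M < 16 ∧ lab (el (pL M)) = M := by
  have h := List.all_eq_true.1 rep_check (M - 1) (List.mem_range.2 (by omega))
  rw [show M - 1 + 1 = M by omega] at h
  simp only [Bool.and_eq_true, Nat.blt_eq, Nat.beq_eq] at h
  exact h

theorem lab_el {p : ℕ} (hp : p < 16) (h0 : p ≠ 0) : 1 ≤ lab (el p) ∧ lab (el p) ≤ 6 := by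
  have h := List.all_eq_true.1 lab_pos_check p (List.mem_range.2 hp)
  simp only [Bool.or_eq_true, Bool.and_eq_true, Nat.blt_eq, Nat.beq_eq, h0, false_or] at h
  omega

theorem conj_label {i j : I} (hi : lab i ≠ 0) (h : lab i = lab j) : IsConj (X.φ i) (X.φ j) := by
  have h1 := X.conj_rep i hi
  have h2 := X.conj_rep j (h ▸ hi)
  rw [h] at h1
  exact h1.symm.trans h2

theorem inO_of_conj {p : ℕ} (hp : p < 16) (h0 : p ≠ 0) (h : IsConj z (X.φ (el p))) : X.InO (lab (el p)) := by
  obtain ⟨h1, h2⟩ := lab_el hp h0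
  exact h.trans (X.conj_label (by omega) (pL_spec h1 h2).2.symm)

theorem z_el : X.φ (el 1) = z := by rw [el_check.2.2.1, X.z_eq]

theorem exists_row {L : ℕ} (h2 : 2 ≤ L) (h6 : L ≤ 6) (h : X.InO L) : ∃ r ∈ rows L, X.Act (ap r.e) := by
  obtain ⟨f, hf, hf1⟩ := X.act_of_conj (a := 1) (by decide) (pL_spec (by omega) h6).1 (by rw [X.z_el]; exact h)
  obtain ⟨g, hg⟩ := id hf
  set n := f 2 + 16 * f 4 + 256 * f 8 with hn
  have b2 := (hg 2 (by decide)).1
  have b4 := (hg 4 (by decide)).1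
  have b8 := (hg 8 (by decide)).1
  have b1 := (pL_spec (M := L) (by omega) h6).1
  have hland : ∀ x : ℕ, x &&& 15 = x % 16 := fun x => Nat.and_two_pow_sub_one_eq_mod x 4
  have hag : ∀ k ∈ units, f k = ap (pL L + 16 * n) k := by
    intro k hk
    rcases (by decide : ∀ k ∈ units, k = 1 ∨ k = 2 ∨ k = 4 ∨ k = 8) k hk with rfl | rfl | rfl | rfl <;>
      simp [ap, Nat.testBit, Nat.shiftRight_eq_div_pow] <;> simp only [hland] <;> omega
  have he : X.Act (ap (pL L + 16 * n)) := X.act_of_agree hf (X.agree_of_units hf _ hag)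
  have hs : scanOk L = true := by
    rcases (by omega : L = 2 ∨ L = 3 ∨ L = 4 ∨ L = 5 ∨ L = 6) with rfl | rfl | rfl | rfl | rfl
    exacts [scan2, scan3, scan4, scan5, scan6]
  have h' := List.all_eq_true.1 hs n (List.mem_range.2 (by omega))
  simp only [Bool.or_eq_true] at h'
  rcases h' with (h' | h') | h'
  · obtain ⟨r, hr, e⟩ := List.any_eq_true.1 h'
    exact ⟨r, hr, by rw [Nat.eq_of_beq_eq_true e]; exact he⟩
  · obtain ⟨p, hp, e⟩ := List.any_eq_true.1 h'
    rw [List.mem_range] at hp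
    have := X.act_zero he (p := p + 1) (by omega) (Nat.eq_of_beq_eq_true e)
    omega
  · obtain ⟨w, -, e⟩ := List.any_eq_true.1 h'
    rw [X.not_badWord he he w] at e
    exact Bool.noConfusion e

theorem row_spec {L : ℕ} (h2 : 2 ≤ L) (h6 : L ≤ 6) {r : Row} (hr : r ∈ rows L) :
    (∀ p, p < 16 → p ≠ 0 → 0 < ap r.e p ∧ ap r.e p < 16 ∧ colP r (ap r.e p) = colP r p ∧
      (colP r p = r.col.getD 1 0 → (∀ g ∈ r.to1.getD p [], g < 3) ∧ run r.e r.e (r.to1.getD p []) p = 1)) ∧
    ∀ M, 1 ≤ M → M ≤ 6 → 1 ≤ r.col.getD M 0 ∧ r.col.getD M 0 ≤ 6 ∧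
      lab (el (run r.e r.e (r.conn.getD M []) (pL (r.col.getD M 0)))) = M := by
  have h := List.all_eq_true.1 (List.all_eq_true.1 rows_check (L - 2) (List.mem_range.2 (by omega))) r
    (by rwa [show L - 2 + 2 = L by omega])
  simp only [rowOk, Bool.and_eq_true, List.all_eq_true, List.mem_range, Bool.or_eq_true, Nat.blt_eq,
    Nat.beq_eq, Bool.not_eq_true'] at h
  refine ⟨fun p hp h0 => ?_, fun M hM1 hM6 => ?_⟩
  · obtain ⟨⟨⟨a1, a2⟩, a3⟩, a4⟩ := (h.1 p hp).resolve_left h0
    refine ⟨a1, a2, a3, fun e => a4.resolve_left ?_⟩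
    rw [e]
    simp
  · have h' := h.2 (M - 1) (by omega)
    rw [show M - 1 + 1 = M by omega] at h'
    exact ⟨h'.1.1.1, by omega, h'.2⟩

/-- Only the labels of the colour of the central involution meet its class, if the candidates are compatible. -/
theorem col_of_inO {L : ℕ} (h2 : 2 ≤ L) (h6 : L ≤ 6) {r : Row} (hr : r ∈ rows L) (hs : X.Act (ap r.e))
    (hquad : L < 5 → ∀ M, 5 ≤ M → M ≤ 6 → ¬ X.InO M) {M : ℕ} (hM1 : 1 ≤ M) (hM6 : M ≤ 6) (h : X.InO M) :
    r.col.getD M 0 = r.col.getD 1 0 := by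
  by_contra hne
  have hM2 : 2 ≤ M := by
    by_contra hc
    exact hne (by rw [show M = 1 by omega])
  obtain ⟨t, ht, hta⟩ := X.exists_row hM2 hM6 h
  have hc := List.all_eq_true.1 combo_check (L - 2) (List.mem_range.2 (by omega))
  rw [show L - 2 + 2 = L by omega, comboOk] at hc
  have hc' := List.all_eq_true.1 (List.all_eq_true.1 hc r hr) (M - 2) (List.mem_range.2 (by omega))
  simp only [show M - 2 + 2 = M by omega, Bool.or_eq_true, Nat.beq_eq, Bool.and_eq_true, Nat.blt_eq] at hc'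
  rcases hc' with (e | ⟨eL, eM⟩) | hall
  · exact hne e
  · exact hquad eL M (by omega) hM6 h
  · obtain ⟨w, -, hw⟩ := List.any_eq_true.1 (List.all_eq_true.1 hall t ht)
    simp only [Bool.and_eq_true, Bool.or_eq_true, Nat.blt_eq, X.not_badWord hs hta w, Bool.false_eq_true,
      false_or] at hw
    obtain ⟨-, ⟨eL, -⟩, hq⟩ := hw
    obtain ⟨g, hg⟩ := id (X.act_run hs hta w)
    have hlt := (hg 1 (by decide)).1
    have h0 : run r.e t.e w 1 ≠ 0 := fun e0 => absurd (X.act_zero (X.act_run hs hta w) (by decide) e0) (by decide)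
    have hO := X.inO_of_conj hlt h0 (by
      have := X.conj_of_act (X.act_run hs hta w) (p := 1) (by decide)
      rwa [X.z_el] at this)
    exact hquad eL _ (by omega) (lab_el hlt h0).2 hO

/-- Involutions are conjugate exactly when their labels have the same colour. -/
theorem conj_iff {L : ℕ} (h2 : 2 ≤ L) (h6 : L ≤ 6) {r : Row} (hr : r ∈ rows L) (hs : X.Act (ap r.e))
    (hquad : L < 5 → ∀ M, 5 ≤ M → M ≤ 6 → ¬ X.InO M) {i j : I} (hi : lab i ≠ 0) (hj : lab j ≠ 0) :
    IsConj (X.φ i) (X.φ j) ↔ r.col.getD (lab i) 0 = r.col.getD (lab j) 0 := by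
  obtain ⟨hrow, hconn⟩ := row_spec h2 h6 hr
  have hi6 : 1 ≤ lab i ∧ lab i ≤ 6 := by rcases X.lab_cases hi with e | e | e | e | e | e <;> omega
  have hj6 : 1 ≤ lab j ∧ lab j ≤ 6 := by rcases X.lab_cases hj with e | e | e | e | e | e <;> omega
  obtain ⟨hpi, hli⟩ := pL_spec hi6.1 hi6.2
  obtain ⟨hpj, hlj⟩ := pL_spec hj6.1 hj6.2
  have ci : IsConj (X.φ i) (X.φ (el (pL (lab i)))) := X.conj_label hi hli.symm
  have cj' : IsConj (X.φ j) (X.φ (el (pL (lab j)))) := X.conj_label hj hlj.symm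
  constructor
  · intro h
    obtain ⟨f, hf, hfp⟩ := X.act_of_conj hpi hpj (ci.symm.trans (h.trans cj'))
    obtain ⟨g, hg⟩ := id hf
    have hne : ∀ p, p < 16 → p ≠ 0 → f p ≠ 0 := fun p hp h0 e => h0 (X.act_zero hf hp e)
    set q := f 1 with hq
    have hq16 : q < 16 := (hg 1 (by decide)).1
    have hq0 : q ≠ 0 := hne 1 (by decide) (by decide)
    have hO : X.InO (lab (el q)) := X.inO_of_conj hq16 hq0 (by
      have := X.conj_of_act hf (p := 1) (by decide)
      rwa [X.z_el] at this)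
    obtain ⟨hu, hu1⟩ := ((hrow q hq16 hq0).2.2.2
      (X.col_of_inO h2 h6 hr hs hquad (lab_el hq16 hq0).1 (lab_el hq16 hq0).2 hO))
    set u := r.to1.getD q []
    have hcol : ∀ w : List ℕ, (∀ g ∈ w, g < 3) → ∀ p, p < 16 → p ≠ 0 → run r.e r.e w p < 16 ∧
        run r.e r.e w p ≠ 0 ∧ colP r (run r.e r.e w p) = colP r p := by
      intro w hw p hp h0
      induction w with
      | nil => exact ⟨hp, h0, rfl⟩
      | cons g w ih =>
        obtain ⟨i1, i2, i3⟩ := ih fun x hx => hw x (List.mem_cons_of_mem _ hx)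
        have hv : ∀ k, k < 4 → ap (vE.getD k 0) (run r.e r.e w p) < 16 ∧
            ap (vE.getD k 0) (run r.e r.e w p) ≠ 0 ∧
            colP r (ap (vE.getD k 0) (run r.e r.e w p)) = colP r p := fun k hk => by
          have h' := List.all_eq_true.1 (List.all_eq_true.1 v_check.2 k (List.mem_range.2 hk)) _
            (List.mem_range.2 i1)
          simp only [Bool.and_eq_true, Nat.blt_eq, beq_iff_eq, Nat.beq_eq] at h'
          exact ⟨h'.1.1, fun e => i2 (X.act_zero (X.act_v hk) i1 e), by rw [← i3, colP, colP, h'.2]⟩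
        match g, hw g (List.mem_cons_self ..) with
        | 0, _ => exact hv 1 (by decide)
        | 1, _ => exact hv 2 (by decide)
        | 2, _ =>
          obtain ⟨a1, a2, a3, -⟩ := hrow _ i1 i2
          exact ⟨a2, Nat.pos_iff_ne_zero.1 a1, a3.trans i3⟩
    obtain ⟨k, hk, hkf⟩ := X.stab (X.act_comp (X.act_run hs hs u) hf) hu1
    have e := hkf _ hpi
    have hpi0 : pL (lab i) ≠ 0 := fun e0 => by
      rw [e0, el_check.2.2.2] at hli
      exact hi (hli.symm.trans (by decide +kernel : lab (0 : I) = 0))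
    have c1 := (hcol u hu _ (hg _ hpi).1 (hne _ hpi hpi0)).2.2
    rw [e, hfp] at c1
    have h' := List.all_eq_true.1 (List.all_eq_true.1 v_check.2 k (List.mem_range.2 hk)) _
      (List.mem_range.2 hpi)
    simp only [Bool.and_eq_true, Nat.beq_eq] at h'
    rw [colP, colP, h'.2, hli, hlj] at c1
    exact c1
  · intro h
    have key : ∀ M, 1 ≤ M → M ≤ 6 → IsConj (X.φ (el (pL (r.col.getD M 0)))) (X.φ (el (pL M))) := by
      intro M hM1 hM6
      obtain ⟨c1, c6, c⟩ := hconn M hM1 hM6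
      have hp := (pL_spec c1 c6).1
      obtain ⟨g, hg⟩ := id (X.act_run hs hs (r.conn.getD M []))
      refine (X.conj_of_act (X.act_run hs hs (r.conn.getD M [])) hp).trans
        (X.conj_label (by rw [c]; omega) ?_)
      rw [c, (pL_spec hM1 hM6).2]
    exact ci.trans ((key _ hi6.1 hi6.2).symm.trans ((h ▸ key _ hj6.1 hj6.2 :
      IsConj (X.φ (el (pL (r.col.getD (lab i) 0)))) _).trans cj'.symm))

/-- The parametrisation moved by an automorphism of the table. -/
def relabel (a : ℕ) (ha : a < 12) : Ctr z where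
  φ i := X.φ (psi a i)
  inj i j h := by
    have e := X.inj h
    have hh := List.all_eq_true.1 aut_check a (List.mem_range.2 ha)
    simp only [Bool.and_eq_true] at hh
    have hi := all1_spec hh.2 i
    have hj := all1_spec hh.2 j
    simp only [Bool.and_eq_true, beq_iff_eq] at hi hj
    rw [e] at hi
    exact (Fin.ext hi.1.1.1 : psiInv a (psi a j) = i).symm.trans (Fin.ext hj.1.1.1)
  map_mul := by
    have hh := List.all_eq_true.1 aut_check a (List.mem_range.2 ha)
    simp only [Bool.and_eq_true, beq_iff_eq] at hh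
    have h0 : psi a 0 = 0 := Fin.ext hh.1.2
    have hgen : ∀ i, ∀ k < 4, psi a (mul i (fin (genL.getD k 0))) =
        mul (psi a i) (psi a (fin (genL.getD k 0))) := fun i k hk => by
      have hi := all1_spec hh.2 i
      simp only [Bool.and_eq_true, beq_iff_eq] at hi
      have hmem : genL.getD k 0 ∈ genL := by
        rcases (by omega : k = 0 ∨ k = 1 ∨ k = 2 ∨ k = 3) with rfl | rfl | rfl | rfl <;> decide
      have h' := List.all_eq_true.1 hi.2 _ hmem
      simp only [beq_iff_eq] at h'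
      exact Fin.ext h'
    have key : ∀ (w : List ℕ), (∀ k ∈ w, k < 4) → ∀ i j, (∀ i', X.φ (psi a (mul i' j)) =
        X.φ (psi a i') * X.φ (psi a j)) → X.φ (psi a (mul i (w.foldl (fun x k => mul x (fin (genL.getD k 0))) j))) =
        X.φ (psi a i) * X.φ (psi a (w.foldl (fun x k => mul x (fin (genL.getD k 0))) j)) := by
      intro w
      induction w with
      | nil => intro _ i j h; exact h i
      | cons k w ih =>
        intro hw i j h
        refine ih (fun x hx => hw x (List.mem_cons_of_mem _ hx)) i _ fun i' => ?_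
        have hk := hw k (List.mem_cons_self ..)
        have assoc : mul i' (mul j (fin (genL.getD k 0))) = mul (mul i' j) (fin (genL.getD k 0)) :=
          X.inj (by simp only [X.map_mul, mul_assoc])
        rw [assoc, hgen _ k hk, hgen _ k hk, X.map_mul, X.map_mul, h, mul_assoc]
    intro i j
    have hj := all1_spec gen_check j
    simp only [Bool.and_eq_true, beq_iff_eq, List.all_eq_true, Nat.blt_eq] at hj
    have e : (genWords.getD j.val []).foldl (fun x k => mul x (fin (genL.getD k 0))) 0 = j := Fin.ext hj.2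
    rw [← e]
    refine key _ hj.1 i 0 fun i' => ?_
    have : mul i' 0 = i' := X.inj (by rw [X.map_mul, X.map_one, mul_one])
    rw [this, h0, X.map_one, mul_one]
  z_eq := by
    have hh := List.all_eq_true.1 aut_check a (List.mem_range.2 ha)
    simp only [Bool.and_eq_true, beq_iff_eq] at hh
    rw [show psi a kz = kz from Fin.ext hh.1.1, X.z_eq]
  surj g hg := by
    obtain ⟨i, rfl⟩ := X.surj g hg
    have hh := List.all_eq_true.1 aut_check a (List.mem_range.2 ha)
    simp only [Bool.and_eq_true] at hh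
    have hi := all1_spec hh.2 i
    simp only [Bool.and_eq_true, beq_iff_eq] at hi
    exact ⟨psiInv a i, congrArg X.φ (Fin.ext hi.1.1.2)⟩

/-- After relabelling, involutions are conjugate exactly when their labels have the same wanted colour. -/
theorem exists_relabel {L : ℕ} (h2 : 2 ≤ L) (h6 : L ≤ 6) {r : Row} (hr : r ∈ rows L) (hs : X.Act (ap r.e))
    (hquad : L < 5 → ∀ M, 5 ≤ M → M ≤ 6 → ¬ X.InO M) :
    ∃ Y : Ctr z, ∀ i j, lab i ≠ 0 → lab j ≠ 0 →
      (IsConj (Y.φ i) (Y.φ j) ↔ (tgt L).getD (lab i) 0 = (tgt L).getD (lab j) 0) := by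
  have h := List.all_eq_true.1 (List.all_eq_true.1 tgt_check (L - 2) (List.mem_range.2 (by omega))) r
    (by rwa [show L - 2 + 2 = L by omega])
  simp only [show L - 2 + 2 = L by omega, Bool.and_eq_true, List.all_eq_true, List.mem_range, Nat.blt_eq,
    Nat.beq_eq, beq_iff_eq] at h
  obtain ⟨⟨ha, -⟩, hpi⟩ := h
  refine ⟨X.relabel r.aut ha, fun i j hi hj => ?_⟩
  have hlab : ∀ k, lab (psi r.aut k) = (autPi.getD r.aut []).getD (lab k) 0 := fun k => by
    have hh := List.all_eq_true.1 aut_check r.aut (List.mem_range.2 ha)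
    simp only [Bool.and_eq_true] at hh
    have hk := all1_spec hh.2 k
    simp only [Bool.and_eq_true, Nat.beq_eq] at hk
    exact hk.1.2
  have hb : ∀ k, lab k ≠ 0 → lab k - 1 < 6 ∧ lab k - 1 + 1 = lab k := fun k hk => by
    rcases X.lab_cases hk with e | e | e | e | e | e <;> omega
  obtain ⟨ai, ei⟩ := hb i hi
  obtain ⟨aj, ej⟩ := hb j hj
  have hpi' := (hpi _ ai)
  have hxy := hpi'.2 _ aj
  rw [ei, ej] at hxy
  have hpj := (hpi _ aj).1
  rw [ei] at hpi'
  rw [ej] at hpj
  show IsConj (X.φ (psi r.aut i)) (X.φ (psi r.aut j)) ↔ _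
  rw [X.conj_iff h2 h6 hr hs hquad (by rw [hlab]; omega) (by rw [hlab]; omega), hlab, hlab]
  exact ⟨fun e => by rwa [← Nat.beq_eq, hxy, Nat.beq_eq] at e, fun e => by rwa [← Nat.beq_eq, ← hxy, Nat.beq_eq] at e⟩

end Ctr

/-- Up to an automorphism of the centraliser, the fusion has one of two patterns. -/
theorem fusion (hnwc : ∃ i, inQ i = true ∧ i ≠ kz ∧ IsConj z (X.φ i)) : ∃ Y : Ctr z, Fus3 Y ∨ Fus9 Y := by
  have key : ∀ {L : ℕ} (Y : Ctr z), (∀ i j, lab i ≠ 0 → lab j ≠ 0 →
      (IsConj (Y.φ i) (Y.φ j) ↔ (tgt L).getD (lab i) 0 = (tgt L).getD (lab j) 0)) →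
      (L < 5 → Fus3 Y) ∧ (5 ≤ L → Fus9 Y) := by
    intro L Y hY
    have h1 := hY kz
    have h3 := hY ka2
    have h4 := hY ka3
    rw [Y.z_eq] at h1
    rw [lab_rep.1] at h1
    rw [lab_rep.2.2.1] at h3
    rw [lab_rep.2.2.2.1] at h4
    refine ⟨fun hL i hi => ?_, fun hL i hi => ?_⟩
    · rw [h1 i (by decide) hi, h3 i (by decide) hi, h4 i (by decide) hi, tgt,
        show Nat.blt L 5 = true from by rw [Nat.blt_eq]; exact hL]
      rcases Y.lab_cases hi with e | e | e | e | e | e <;> rw [e] <;> decide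
    · rw [h1 i (by decide) hi, h3 i (by decide) hi, tgt,
        show Nat.blt L 5 = false from Bool.eq_false_iff.2 fun e => by rw [Nat.blt_eq] at e; omega]
      rcases Y.lab_cases hi with e | e | e | e | e | e <;> rw [e] <;> decide
  obtain ⟨i, hiQ, hiz, hconj⟩ := hnwc
  have hi0 : lab i ≠ 0 := by
    obtain ⟨g, hg⟩ := isConj_iff.1 hconj
    refine X.lab_ne_zero.2 ⟨?_, ?_⟩ <;> rw [← hg]
    · intro e
      have := X.orderOf_z
      rw [conj_eq_one_iff.1 e, orderOf_one] at this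
      omega
    · have hz : z * z = 1 := by rw [← pow_two, ← X.orderOf_z, pow_orderOf_eq_one]
      calc g * z * g⁻¹ * (g * z * g⁻¹) = g * (z * z) * g⁻¹ := by group
        _ = 1 := by rw [hz]; group
  have hL : 2 ≤ lab i ∧ lab i ≤ 4 := by
    have h1 := all1_spec mem_check i
    simp only [Bool.and_eq_true, Bool.or_eq_true, Bool.not_eq_true', beq_eq_false_iff_ne, beq_iff_eq,
      Bool.or_eq_false_iff, hiQ, Bool.true_eq_false, or_false] at h1
    rcases X.lab_cases hi0 with e | e | e | e | e | e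
    · exact absurd (Ctr.cc_of_lab.1 e).2 hiz
    all_goals omega
  obtain ⟨hp, hpl⟩ := Ctr.pL_spec (M := lab i) (by omega) (by omega)
  have hO : X.InO (lab i) := hconj.trans (X.conj_label hi0 hpl.symm)
  by_cases hq : ∃ M, 5 ≤ M ∧ M ≤ 6 ∧ X.InO M
  · obtain ⟨M, hM5, hM6, hM⟩ := hq
    obtain ⟨r, hr, hs⟩ := X.exists_row (by omega) hM6 hM
    obtain ⟨Y, hY⟩ := X.exists_relabel (by omega) hM6 hr hs fun h => absurd h (by omega)
    exact ⟨Y, Or.inr ((key Y hY).2 hM5)⟩
  · obtain ⟨r, hr, hs⟩ := X.exists_row hL.1 (by omega) hO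
    obtain ⟨Y, hY⟩ := X.exists_relabel hL.1 (by omega) hr hs fun _ M h5 h6 h => hq ⟨M, h5, h6, h⟩
    exact ⟨Y, Or.inl ((key Y hY).1 (by omega))⟩

end CfsgLib.InvChar.AEight
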