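import Cfsg.Agent.Lib.InvChar.AEight.Setting

/-!
The elementary group of order 16 is weakly closed in the Sylow subgroup: conjugate elements of it are conjugate
in its normaliser.
-/

set_option autoImplicit false
set_option linter.unusedSectionVars false
set_option maxRecDepth 100000

namespace CfsgLib.InvChar.AEight

theorem syl_check : (all1 fun i => !inS i || i.val == 0 || i.val == kz.val ||
    any1 fun j => inS j && !com i j) = true ∧ inS kz = true := by
  decide +kernel

/-- An involution of the Sylow subgroup outside the elementary group commutes with fewer than fifteen. -/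
theorem outside_check : (all1 fun i => !inS i || inA i || lab i == 0 ||
    Nat.ble (cnt fun j => inS j && com i j && !(lab j == 0)) 14) = true := by
  decide +kernel

theorem inA_check : (all1 fun i => !inA i || (all1 fun j => !inA j || com i j)) = true := by
  decide +kernel

/-- A subgroup of a `p`-group containing what normalises it is the whole group. -/
theorem eq_of_normalizer_le {H : Type*} [Group H] [Finite H] {P T : Subgroup H} {p : ℕ}
    [Fact p.Prime] (hP : IsPGroup p P) (hTP : T ≤ P)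
    (h : ∀ g ∈ P, (∀ t ∈ T, g * t * g⁻¹ ∈ T) → g ∈ T) : P = T := by
  refine le_antisymm ?_ hTP
  by_contra hne
  have : Group.IsNilpotent ↥P := hP.isNilpotent
  have hlt : T.subgroupOf P < ⊤ := lt_top_iff_ne_top.2 fun e =>
    hne (Subgroup.subgroupOf_eq_top.1 e)
  obtain ⟨y, hy, hyT⟩ := SetLike.exists_of_lt (Group.normalizerCondition_of_isNilpotent _ hlt)
  refine hyT (h y y.2 fun t ht => ?_)
  exact (Subgroup.mem_normalizer_iff.1 hy ⟨t, hTP ht⟩).1 ht

universe u

namespace Ctr

variable {G : Type u} [Group G] [Finite G] {z : G} (X : Ctr z)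
include X

/-- The elementary group of order 16. -/
def subA : Subgroup G :=
  X.sub inA sub_check.2.2.2.2.2.2.2.1 fun i j hi hj => by
    have h := all1_spec (all1_spec closed_check i) j
    simp only [Bool.and_eq_true, Bool.or_eq_true, Bool.not_eq_true', hi, hj, Bool.and_true] at h
    simpa using h.1.1.2

theorem mem_subA {g : G} : g ∈ X.subA ↔ ∃ i, inA i = true ∧ X.φ i = g := Iff.rfl

theorem card_subA : Nat.card X.subA = 16 :=
  (X.card_image inA X.subA fun _ => X.mem_subA).trans sub_check.2.2.1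

theorem comm_subA {a b : G} (ha : a ∈ X.subA) (hb : b ∈ X.subA) : a * b = b * a := by
  obtain ⟨i, hi, rfl⟩ := ha
  obtain ⟨j, hj, rfl⟩ := hb
  have h := all1_spec inA_check i
  simp only [hi, Bool.not_true, Bool.false_or] at h
  have h2 := all1_spec h j
  simp only [hj, Bool.not_true, Bool.false_or] at h2
  exact (X.com_iff i j).1 h2

theorem sq_subA {a : G} (ha : a ∈ X.subA) : a * a = 1 := by
  obtain ⟨i, hi, rfl⟩ := ha
  by_cases h0 : i.val = 0
  · rw [show i = 0 from Fin.ext h0, X.map_one, one_mul]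
  have h := all1_spec mem_check i
  simp only [Bool.and_eq_true, Bool.or_eq_true, Bool.not_eq_true', beq_iff_eq, hi, h0] at h
  simp only [Bool.true_eq_false, false_or, beq_eq_false_iff_ne, ne_eq] at h
  exact (X.lab_ne_zero.1 h.1.2.2).2

/-- The Sylow subgroup. -/
theorem exists_sylow : ∃ Q : Sylow 2 G, ∀ g, g ∈ Q ↔ ∃ i, inS i = true ∧ X.φ i = g := by
  have := Fact.mk Nat.prime_two
  let S := X.sub inS sub_check.2.2.2.2.2.2.1 fun i j hi hj => by
    have h := all1_spec (all1_spec closed_check i) j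
    simp only [Bool.and_eq_true, Bool.or_eq_true, Bool.not_eq_true', hi, hj, Bool.and_true] at h
    simpa using h.1.1.1.2
  have hmem : ∀ g, g ∈ S ↔ ∃ i, inS i = true ∧ X.φ i = g := fun g => Iff.rfl
  have hSc : Nat.card S = 64 := (X.card_image inS S hmem).trans sub_check.2.1
  obtain ⟨Q, hQ⟩ := (IsPGroup.of_card (n := 6) (by rw [hSc]; norm_num) :
    IsPGroup 2 S).exists_le_sylow
  have hzS : z ∈ S := (hmem z).2 ⟨kz, syl_check.2, X.z_eq⟩
  have hcap : (Q : Subgroup G) ⊓ Subgroup.centralizer ({z} : Set G) = S := by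
    have hle : S ≤ (Q : Subgroup G) ⊓ Subgroup.centralizer ({z} : Set G) := le_inf hQ
      fun g hg => by obtain ⟨i, -, rfl⟩ := (hmem g).1 hg; exact (X.mem_C _).2 ⟨i, rfl⟩
    refine (Subgroup.eq_of_le_of_card_ge hle ?_).symm
    obtain ⟨n, hn⟩ := IsPGroup.iff_card.1 (Q.isPGroup'.to_le (inf_le_left :
      (Q : Subgroup G) ⊓ Subgroup.centralizer ({z} : Set G) ≤ Q))
    have hd := Subgroup.card_dvd_of_le (inf_le_right :
      (Q : Subgroup G) ⊓ Subgroup.centralizer ({z} : Set G) ≤ _)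
    rw [X.card_C, hn] at hd
    rw [hSc, hn]
    refine le_trans ?_ (le_refl (2 ^ 6))
    refine Nat.pow_le_pow_right (by norm_num) ?_
    by_contra hc
    have : 2 ^ 7 ∣ 192 := (pow_dvd_pow 2 (by omega)).trans hd
    omega
  have hQS : (Q : Subgroup G) = S := eq_of_normalizer_le Q.isPGroup' hQ fun g hg hn => by
    rw [← hcap]
    refine ⟨hg, Subgroup.mem_centralizer_singleton_iff.2 ?_⟩
    obtain ⟨i, hi, e⟩ := (hmem _).1 (hn z hzS)
    have hi' := all1_spec syl_check.1 i
    simp only [hi, Bool.not_true, Bool.false_or, Bool.or_eq_true, beq_iff_eq] at hi'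
    rcases hi' with (h0 | h1) | hj
    · rw [show i = 0 from Fin.ext h0, X.map_one] at e
      have hz1 : z = 1 := conj_eq_one_iff.1 e.symm
      have := X.orderOf_z
      rw [hz1, orderOf_one] at this
      omega
    · rw [show i = kz from Fin.ext h1, X.z_eq] at e
      exact (eq_mul_inv_iff_mul_eq.1 e).symm
    · exfalso
      obtain ⟨j, hj⟩ := any1_spec hj
      simp only [Bool.and_eq_true, Bool.not_eq_true'] at hj
      have hj' : g⁻¹ * X.φ j * g ∈ S := by
        have hmap : S.map (MulAut.conj g).toMonoidHom = S :=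
          Subgroup.eq_of_le_of_card_ge (by rintro _ ⟨t, ht, rfl⟩; exact hn t ht)
            (by rw [Subgroup.card_map_of_injective (MulAut.conj g).injective])
        obtain ⟨t, ht, et⟩ := hmap.ge ((hmem _).2 ⟨j, hj.1, rfl⟩)
        have : t = g⁻¹ * X.φ j * g := by rw [← et]; simp [mul_assoc]
        exact this ▸ ht
      obtain ⟨k, -, ek⟩ := (hmem _).1 hj'
      have hc := comm_conj g (ek ▸ X.comm_z k).symm
      rw [← e, show g * (g⁻¹ * X.φ j * g) * g⁻¹ = X.φ j by group] at hc
      rw [(X.com_iff i j).2 hc] at hj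
      exact Bool.noConfusion hj.2
  exact ⟨Q, fun g => by rw [← hmem g]; exact ⟨fun h => hQS ▸ h, fun h => hQ h⟩⟩

/-- An elementary group of order 16 in the Sylow subgroup is the given one. -/
theorem eq_subA {B : Subgroup G} (hB : Nat.card B = 16) (hS : ∀ g ∈ B, ∃ i, inS i = true ∧ X.φ i = g)
    (hc : ∀ a ∈ B, ∀ b ∈ B, a * b = b * a) (hsq : ∀ a ∈ B, a * a = 1) : B = X.subA := by
  refine Subgroup.eq_of_le_of_card_ge (fun g hg => ?_) (by rw [hB, X.card_subA])
  by_contra hgA
  obtain ⟨i, hi, rfl⟩ := hS g hg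
  have hinv : ∀ k, X.φ k ∈ B → X.φ k ≠ 1 → lab k ≠ 0 := fun k hk hk1 => X.lab_ne_zero.2 ⟨hk1, hsq _ hk⟩
  have hg1 : X.φ i ≠ 1 := fun e => hgA (e ▸ one_mem _)
  have hiA : inA i = false := Bool.eq_false_iff.2 fun e => hgA ⟨i, e, rfl⟩
  have h := all1_spec outside_check i
  simp only [hi, hiA, beq_eq_false_iff_ne.2 (hinv i hg hg1), Bool.not_true, Bool.or_self, Bool.false_or,
    Nat.ble_eq] at h
  have hle : Nat.card B ≤ 1 + cnt (fun j => inS j && com i j && !(lab j == 0)) := by
    rw [cnt_eq, ← Nat.card_unique (α := PUnit), ← Nat.card_sum]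
    classical
    let f : B → PUnit.{1} ⊕ {j : I // (inS j && com i j && !(lab j == 0)) = true} := fun b =>
      if hb : (b : G) = 1 then Sum.inl ⟨⟩ else
        Sum.inr ⟨(hS b b.2).choose, by
          obtain ⟨h1, h2⟩ := (hS b b.2).choose_spec
          simp only [Bool.and_eq_true, Bool.not_eq_true', beq_eq_false_iff_ne]
          exact ⟨⟨h1, (X.com_iff _ _).2 (by rw [h2]; exact hc _ hg _ b.2)⟩,
            hinv _ (by rw [h2]; exact b.2) (by rw [h2]; exact hb)⟩⟩
    refine Nat.card_le_card_of_injective f fun a b e => ?_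
    simp only [f] at e
    split at e <;> split at e
    · next ha hb => exact Subtype.ext (ha.trans hb.symm)
    · simp at e
    · simp at e
    · have e' := congrArg (fun s : {j : I // _} => X.φ s.1) (Sum.inr.inj e)
      simp only [(hS a a.2).choose_spec.2, (hS b b.2).choose_spec.2] at e'
      exact Subtype.ext e'
  omega

/-- Conjugate elements of the elementary group are conjugate by an element normalising it. -/
theorem exists_normalizer_of_conj {a b : I} (ha : inA a = true) (hb : inA b = true)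
    (h : IsConj (X.φ a) (X.φ b)) :
    ∃ g, g * X.φ a * g⁻¹ = X.φ b ∧ ∀ i, inA i = true → ∃ j, inA j = true ∧ X.φ j = g * X.φ i * g⁻¹ := by
  have := Fact.mk Nat.prime_two
  obtain ⟨g, hg⟩ := isConj_iff.1 h
  set H := Subgroup.centralizer ({X.φ b} : Set G) with hH
  set B := X.subA.map (MulAut.conj g).toMonoidHom with hBdef
  have hpA : IsPGroup 2 X.subA := IsPGroup.of_card (n := 4) (by rw [X.card_subA]; norm_num)
  have hAH : X.subA ≤ H := fun x hx =>
    Subgroup.mem_centralizer_singleton_iff.2 (X.comm_subA hx ⟨b, hb, rfl⟩)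
  have hBH : B ≤ H := by
    rintro _ ⟨x, hx, rfl⟩
    rw [hH, Subgroup.mem_centralizer_singleton_iff, ← hg]
    exact comm_conj g (X.comm_subA hx ⟨a, ha, rfl⟩)
  obtain ⟨T1, hT1⟩ := (hpA.of_equiv (Subgroup.subgroupOfEquivOfLe hAH).symm).exists_le_sylow
  obtain ⟨T2, hT2⟩ := ((hpA.map (MulAut.conj g).toMonoidHom).of_equiv
    (Subgroup.subgroupOfEquivOfLe hBH).symm).exists_le_sylow
  obtain ⟨k, hk⟩ := MulAction.exists_smul_eq ↥H T2 T1
  obtain ⟨Q, hQ⟩ := X.exists_sylow
  obtain ⟨P, hP⟩ := (T1.isPGroup'.map H.subtype).exists_le_sylow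
  obtain ⟨c, hc⟩ := MulAction.exists_smul_eq G P Q
  have hinto : ∀ t : ↥H, t ∈ (T1 : Subgroup ↥H) → c * t * c⁻¹ ∈ Q := fun t ht => by
    rw [← SetLike.mem_coe, ← hc, Sylow.coe_smul]
    exact ⟨t, hP ⟨t, ht, rfl⟩, rfl⟩
  have hm : ∀ d : G, (∀ x ∈ X.subA, d * x * d⁻¹ ∈ Q) → X.subA.map (MulAut.conj d).toMonoidHom = X.subA := by
    intro d hd
    refine X.eq_subA ?_ ?_ ?_ ?_
    · rw [Subgroup.card_map_of_injective (MulAut.conj d).injective, X.card_subA]
    · rintro _ ⟨x, hx, rfl⟩; exact (hQ _).1 (hd x hx)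
    · rintro _ ⟨x, hx, rfl⟩ _ ⟨y, hy, rfl⟩
      rw [← _root_.map_mul, ← _root_.map_mul, X.comm_subA hx hy]
    · rintro _ ⟨x, hx, rfl⟩
      rw [← _root_.map_mul, X.sq_subA hx, _root_.map_one]
  have e1 := hm c fun x hx => hinto ⟨x, hAH hx⟩ (hT1 hx)
  have e2 := hm (c * k * g) fun x hx => by
    have hgx : g * x * g⁻¹ ∈ B := ⟨x, hx, rfl⟩
    have hk1 : k * ⟨g * x * g⁻¹, hBH hgx⟩ * k⁻¹ ∈ (T1 : Subgroup ↥H) := by
      rw [← hk, Sylow.coe_subgroup_smul]
      exact ⟨⟨g * x * g⁻¹, hBH hgx⟩, hT2 hgx, rfl⟩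
    have := hinto _ hk1
    rwa [show c * k * g * x * (c * k * g)⁻¹ = c * ((k : G) * (g * x * g⁻¹) * (k : G)⁻¹) * c⁻¹ by group]
  refine ⟨k * g, ?_, fun i hi => ?_⟩
  · calc (k : G) * g * X.φ a * ((k : G) * g)⁻¹ = k * (g * X.φ a * g⁻¹) * (k : G)⁻¹ := by group
      _ = X.φ b := by
        rw [hg, Subgroup.mem_centralizer_singleton_iff.1 k.2]
        group
  · have hx : c * (k * g * X.φ i * (k * g)⁻¹) * c⁻¹ ∈ X.subA := by
      rw [show c * ((k : G) * g * X.φ i * (k * g)⁻¹) * c⁻¹ = c * k * g * X.φ i * (c * k * g)⁻¹ by group, ← e2]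
      exact ⟨_, ⟨i, hi, rfl⟩, rfl⟩
    rw [← e1] at hx
    obtain ⟨y, ⟨j, hj, rfl⟩, hy⟩ := hx
    exact ⟨j, hj, (MulAut.conj c).injective hy⟩

end Ctr

end CfsgLib.InvChar.AEight
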