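import Cfsg.Agent.Lib.InvChar.AEight.Words
import Cfsg.Agent.Lib.InvChar.AEight.FusionBase

/-!
In a group with the fusion of the alternating groups of degree eight and nine there are elements of
order three satisfying the relations of the alternating group of degree eight.
-/

set_option autoImplicit false
set_option linter.unusedSectionVars false
set_option maxRecDepth 100000

open CfsgLib.SporRecognition.CosetCert

namespace CfsgLib.InvChar.AEight

attribute [local irreducible] mul inv coA mA1 mA3 mE1 mF3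

universe u

variable {G : Type u} [Group G] [Finite G] {z : G}

theorem evalW_wInv (f : Fin 4 → G) (w : Wd) : evalW f (wInv w) = (evalW f w)⁻¹ := by
  induction w with
  | nil => simp [wInv, evalW_eq_prod]
  | cons x w ih =>
    rw [show wInv (x :: w) = wInv w ++ [(x.1, !x.2)] by simp [wInv], evalW_append, ih,
      show x :: w = [x] ++ w from rfl, evalW_append, mul_inv_rev]
    congr 1
    rcases x with ⟨a, _ | _⟩ <;> simp [evalW_eq_prod]

namespace Ctr

variable (X : Ctr z)
include X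

theorem evalW_low (f : Fin 4 → G) (h0 : f 0 = X.φ kc1) (h1 : f 1 = X.φ kc2) :
    ∀ w : Wd, (∀ x ∈ w, x.1.val < 2) → evalW f w = X.φ (evI w) := by
  intro w
  induction w with
  | nil => intro _; rw [evI, List.foldr_nil, X.map_one, evalW_eq_prod]; rfl
  | cons x w ih =>
    intro hw
    have e : evI (x :: w) = mul (letV x) (evI w) := rfl
    rw [e, X.map_mul, ← ih fun y hy => hw y (List.mem_cons_of_mem _ hy),
      show x :: w = [x] ++ w from rfl, evalW_append]
    congr 1
    have hx := hw x (List.mem_cons_self ..)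
    obtain ⟨⟨a, ha⟩, b⟩ := x
    rcases (show a = 0 ∨ a = 1 by simp at hx; omega) with rfl | rfl <;> cases b <;>
      simp [evalW_eq_prod, letV, X.map_inv, h0, h1]

theorem evalW_cWd (f : Fin 4 → G) (h0 : f 0 = X.φ kc1) (h1 : f 1 = X.φ kc2) (i : I) :
    evalW f (cWd i) = X.φ i := by
  have h := all1_spec cWd_check i
  simp only [Bool.and_eq_true, beq_iff_eq, List.all_eq_true, decide_eq_true_eq] at h
  rw [X.evalW_low f h0 h1 _ h.2, show evI (cWd i) = i from Fin.ext h.1]

/-- Conjugation by `g` acts on `inA` as `m`. -/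
def ActA (g : G) (m : I → I) : Prop :=
  ∀ x, inA x = true → inA (m x) = true ∧ g * X.φ x * g⁻¹ = X.φ (m x)

theorem actA_mul {g h : G} {m n : I → I} (hg : X.ActA g m) (hh : X.ActA h n) :
    X.ActA (g * h) (fun x => m (n x)) := fun x hx => by
  obtain ⟨h1, h2⟩ := hh x hx
  obtain ⟨g1, g2⟩ := hg _ h1
  exact ⟨g1, by rw [← g2, ← h2]; group⟩

theorem actA_congr {g : G} {m n : I → I} (hg : X.ActA g m) (h : ∀ x, inA x = true → m x = n x) :
    X.ActA g n := fun x hx => h x hx ▸ hg x hx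

theorem actA_phi {i : I} (h : ∀ x, inA x = true → inA (cj i x) = true) :
    X.ActA (X.φ i) (cj i) := fun x hx => ⟨h x hx, (X.map_cj i x).symm⟩

theorem phi_sq_A {x : I} (hx : inA x = true) : X.φ x * X.φ x = 1 :=
  X.sq_subA ⟨x, hx, rfl⟩

/-- What acts trivially on `inA` lies there. -/
theorem mem_A_of_actA {g : G} {m : I → I} (hg : X.ActA g m) (h : ∀ x, inA x = true → m x = x) :
    ∃ c, inA c = true ∧ X.φ c = g := by
  have hcomm : ∀ x, inA x = true → g * X.φ x = X.φ x * g := fun x hx => by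
    have := (hg x hx).2
    rw [h x hx] at this
    exact mul_inv_eq_iff_eq_mul.1 this
  obtain ⟨i, rfl⟩ := X.surj g (by have := hcomm kz basis_check.2.1; rwa [X.z_eq] at this)
  refine ⟨i, ?_, rfl⟩
  have hi := all1_spec closedA_check.2 i
  simp only [Bool.or_eq_true] at hi
  refine hi.resolve_left fun hh => ?_
  obtain ⟨x, hx⟩ := any1_spec hh
  simp only [Bool.and_eq_true, Bool.not_eq_true'] at hx
  rw [(X.com_iff i x).2 (hcomm x hx.1)] at hx
  exact Bool.noConfusion hx.2

theorem zlab_iff (F : Fus9 X) {x : I} (h : lab x ≠ 0) : zlab x = true ↔ IsConj z (X.φ x) := by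
  rw [(F x h).1]; simp [zlab, or_assoc]

theorem wlab_iff (F : Fus9 X) {x : I} (h : lab x ≠ 0) :
    wlab x = true ↔ IsConj (X.φ ka2) (X.φ x) := by
  rw [(F x h).2]; simp [wlab]

theorem lab_zero_iff {g : G} {x y : I} (e : g * X.φ x * g⁻¹ = X.φ y) : lab x = 0 ↔ lab y = 0 := by
  refine not_iff_not.1 (Iff.trans X.lab_ne_zero (Iff.trans ?_ X.lab_ne_zero.symm))
  rw [← e]
  refine and_congr ?_ ?_
  · rw [not_iff_not, conj_eq_one_iff]
  · rw [show g * X.φ x * g⁻¹ * (g * X.φ x * g⁻¹) = g * (X.φ x * X.φ x) * g⁻¹ by group,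
      conj_eq_one_iff]

/-- Conjugation respects the classes. -/
theorem lab_conj (F : Fus9 X) {g : G} {x y : I} (e : g * X.φ x * g⁻¹ = X.φ y) :
    zlab x = zlab y ∧ wlab x = wlab y := by
  by_cases h : lab x = 0
  · simp [zlab, wlab, h, (X.lab_zero_iff e).1 h]
  have hy : lab y ≠ 0 := fun hy => h ((X.lab_zero_iff e).2 hy)
  have hc : IsConj (X.φ x) (X.φ y) := isConj_iff.2 ⟨g, e⟩
  constructor
  · rw [Bool.eq_iff_iff, X.zlab_iff F h, X.zlab_iff F hy]
    exact ⟨fun h' => h'.trans hc, fun h' => h'.trans hc.symm⟩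
  · rw [Bool.eq_iff_iff, X.wlab_iff F h, X.wlab_iff F hy]
    exact ⟨fun h' => h'.trans hc, fun h' => h'.trans hc.symm⟩

/-- An element acting as a map fixing `kz` acts as an element of the centraliser. -/
theorem not_bad {g : G} {W : I → I} (hg : X.ActA g W) : bad W = false := by
  refine Bool.eq_false_iff.2 fun hb => ?_
  rw [bad, Bool.and_eq_true, beq_iff_eq, ← Fin.ext_iff] at hb
  have h := (hg kz basis_check.2.1).2
  rw [hb.1, X.z_eq] at h
  obtain ⟨i, rfl⟩ := X.surj g (mul_inv_eq_iff_eq_mul.1 h)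
  obtain ⟨x, hx⟩ := any1_spec (all1_spec hb.2 i)
  simp only [Bool.and_eq_true, Bool.not_eq_true', beq_eq_false_iff_ne] at hx
  have := (hg x hx.1).2
  rw [← X.map_cj] at this
  exact hx.2 (congrArg Fin.val (X.inj this))

theorem actA_kv : X.ActA (X.φ kv1) (cj kv1) ∧ X.ActA (X.φ kv3) (cj kv3) ∧
    X.ActA (X.φ kv3') (cj kv3') ∧ X.ActA (X.φ kb1) (cj kb1) ∧ X.ActA (X.φ kb3) (cj kb3) := by
  refine ⟨X.actA_phi ?_, X.actA_phi ?_, X.actA_phi ?_, X.actA_phi ?_, X.actA_phi ?_⟩ <;>
    intro x hx <;> have h := all1_spec basis_check.2.2.2.2.2.2.2 x <;>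
    simp only [hx, Bool.not_true, Bool.false_or, Bool.and_eq_true] at h <;> tauto

theorem exists_action (F : Fus9 X) {e : I} (he : inA e = true) (hze : zlab e = true) :
    ∃ g p r s, g * X.φ kz * g⁻¹ = X.φ e ∧ X.ActA g (linA p e r s) ∧ cand p e r s = true ∧
      (inA p && zlab p == zlab kp && wlab p == wlab kp) = true ∧
      (inA r && zlab r == zlab ka3 && wlab r == wlab ka3) = true ∧
      (inA s && zlab s == zlab ka2 && wlab s == wlab ka2) = true := by
  obtain ⟨b1, b2, b3, b4, -, -, -, hlin⟩ := basis_check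
  have he0 : lab e ≠ 0 := by
    intro h0; simp [zlab, h0] at hze
  obtain ⟨g, hg, hA⟩ := X.exists_normalizer_of_conj b2 he
    (by rw [X.z_eq]; exact (X.zlab_iff F he0).1 hze)
  obtain ⟨p, hp, ep⟩ := hA kp b1
  obtain ⟨r, hr, er⟩ := hA ka3 b3
  obtain ⟨s, hs, es⟩ := hA ka2 b4
  have hact : X.ActA g (linA p e r s) := by
    intro x hx
    obtain ⟨y, hy, ey⟩ := hA x hx
    have h := all1_spec hlin x
    simp only [hx, Bool.not_true, Bool.false_or, Bool.and_eq_true, beq_iff_eq,
      ← Fin.ext_iff] at h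
    have e1 : g * X.φ x * g⁻¹ = X.φ (linA p e r s x) := by
      have hx' : linA kp kz ka3 ka2 x = x := by tauto
      conv_lhs => rw [← hx']
      unfold linA
      rw [X.map_mul, X.map_mul, X.map_mul, X.map_mul, X.map_mul, X.map_mul]
      have hb : ∀ (b : Bool) (u v : I), g * X.φ u * g⁻¹ = X.φ v →
          g * X.φ (bif b then u else 0) * g⁻¹ = X.φ (bif b then v else 0) := by
        intro b u v huv
        cases b
        · simp [X.map_one]
        · exact huv
      rw [← hb _ _ _ ep.symm, ← hb _ _ _ hg, ← hb _ _ _ er.symm, ← hb _ _ _ es.symm]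
      group
    exact ⟨by rw [← X.inj (ey.trans e1)]; exact hy, e1⟩
  refine ⟨g, p, r, s, hg, hact, ?_, ?_, ?_, ?_⟩
  · have key : ∀ x, (!inA x || (zlab x == zlab (linA p e r s x) &&
        wlab x == wlab (linA p e r s x))) = true := fun x => by
      by_cases hx : inA x = true
      · obtain ⟨h1, h2⟩ := X.lab_conj F (hact x hx).2
        simp [hx, ← h1, ← h2]
      · simp [Bool.eq_false_iff.2 hx]
    rw [cand, all1, List.all_eq_true]
    exact fun i _ => key _
  · obtain ⟨h1, h2⟩ := X.lab_conj F ep.symm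
    simp [hp, ← h1, ← h2]
  · obtain ⟨h1, h2⟩ := X.lab_conj F er.symm
    simp [hr, ← h1, ← h2]
  · obtain ⟨h1, h2⟩ := X.lab_conj F es.symm
    simp [hs, ← h1, ← h2]

theorem exists_good {g : G} {f m : I → I} (hg : X.ActA g f) (h : good f m = true) :
    ∃ g', X.ActA g' m := by
  obtain ⟨i, hi⟩ := any1_spec h
  have hi' : ∀ x, inA x = true → inA (cj i x) = true ∧ f (cj i x) = m x := fun x hx => by
    have := all1_spec hi x
    simp only [hx, Bool.not_true, Bool.false_or, Bool.and_eq_true, beq_iff_eq,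
      ← Fin.ext_iff] at this
    exact this
  exact ⟨g * X.φ i, X.actA_congr (X.actA_mul hg (X.actA_phi fun x hx => (hi' x hx).1))
    fun x hx => (hi' x hx).2⟩

theorem exists_m1 (F : Fus9 X) : ∃ g, X.ActA g mA1 := by
  have hA : inA (mA1 kz) = true := by
    have h := all1_spec basis_check.2.2.2.2.2.2.2 kz
    simp only [basis_check.2.1, Bool.not_true, Bool.false_or, Bool.and_eq_true] at h
    tauto
  obtain ⟨g, p, r, s, -, hact, hc, hp, hr, hs⟩ := X.exists_action F hA fix1_check.2.2.2.2.2.2.1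
  set f := linA p (mA1 kz) r s with hf
  have h1 := all1_spec cand1_check p
  simp only [hp, Bool.not_true, Bool.false_or] at h1
  have h2 := all1_spec h1 r
  simp only [hr, Bool.not_true, Bool.false_or] at h2
  have h3 := all1_spec h2 s
  simp only [hs, hc, Bool.not_true, Bool.false_or, Bool.or_eq_true] at h3
  rcases h3 with (h | h) | h
  · exact X.exists_good hact h
  · have hv := X.actA_kv.1
    have := X.not_bad (W := word1 f kv1) (X.actA_congr
      (X.actA_mul hact (X.actA_mul hact (X.actA_mul hv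
      (X.actA_mul hact (X.actA_mul hact hact))))) fun _ _ => rfl)
    rw [h] at this; exact Bool.noConfusion this
  · have hv := X.actA_kv.1
    have := X.not_bad (W := word2 f kv1) (X.actA_congr
      (X.actA_mul hact (X.actA_mul hv (X.actA_mul hact
      (X.actA_mul hact (X.actA_mul hv (X.actA_mul hact hact)))))) fun _ _ => rfl)
    rw [h] at this; exact Bool.noConfusion this

theorem exists_m3 (F : Fus9 X) : ∃ g, X.ActA g mA3 := by
  have hA : inA (mA3 kz) = true := by
    have h := all1_spec basis_check.2.2.2.2.2.2.2 kz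
    simp only [basis_check.2.1, Bool.not_true, Bool.false_or, Bool.and_eq_true] at h
    tauto
  obtain ⟨g, p, r, s, -, hact, hc, hp, hr, hs⟩ := X.exists_action F hA fix3_check.2.2.2.2.2.2.1
  set f := linA p (mA3 kz) r s with hf
  have h1 := all1_spec cand3_check p
  simp only [hp, Bool.not_true, Bool.false_or] at h1
  have h2 := all1_spec h1 r
  simp only [hr, Bool.not_true, Bool.false_or] at h2
  have h3 := all1_spec h2 s
  simp only [hs, hc, Bool.not_true, Bool.false_or, Bool.or_eq_true] at h3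
  rcases h3 with (h | h) | h
  · exact X.exists_good hact h
  · have hv := X.actA_kv.2.1
    have := X.not_bad (W := word1 f kv3) (X.actA_congr
      (X.actA_mul hact (X.actA_mul hact (X.actA_mul hv
      (X.actA_mul hact (X.actA_mul hact hact))))) fun _ _ => rfl)
    rw [h] at this; exact Bool.noConfusion this
  · have hv := X.actA_kv.2.2.1
    have := X.not_bad (W := word3 f kv3') (X.actA_congr
      (X.actA_mul hact (X.actA_mul hact (X.actA_mul hv
      (X.actA_mul hact (X.actA_mul hv (X.actA_mul hact hact)))))) fun _ _ => rfl)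
    rw [h] at this; exact Bool.noConfusion this

/-- An element of order three with a given action of period three. -/
theorem pow_four {g : G} {m : I → I} (hg : X.ActA g m)
    (hm : ∀ x, inA x = true → m (m (m x)) = x) :
    (g ^ 4) ^ 3 = 1 ∧ X.ActA (g ^ 4) m := by
  obtain ⟨c, hc, ec⟩ := X.mem_A_of_actA (X.actA_mul hg (X.actA_mul hg hg)) hm
  have h3 : g ^ 3 * g ^ 3 = 1 := by
    rw [pow_three, ← ec, X.phi_sq_A hc]
  refine ⟨?_, ?_⟩
  · rw [← pow_mul, show 4 * 3 = 3 + 3 + (3 + 3) from rfl, pow_add, pow_add, h3, one_mul]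
  · rw [pow_succ, pow_three]
    exact X.actA_congr (X.actA_mul (X.actA_mul hg (X.actA_mul hg hg)) hg)
      fun x hx => hm _ (hg x hx).1

theorem actA_conjA {g : G} {m : I → I} {a : I} (hg : X.ActA g m) (ha : inA a = true) :
    X.ActA (X.φ a * g * (X.φ a)⁻¹) m := fun x hx => by
  obtain ⟨h1, h2⟩ := hg x hx
  refine ⟨h1, ?_⟩
  have e1 : (X.φ a)⁻¹ * X.φ x * X.φ a = X.φ x := by
    rw [mul_assoc, X.comm_subA ⟨x, hx, rfl⟩ ⟨a, ha, rfl⟩]; group
  have e2 : X.φ a * X.φ (m x) * (X.φ a)⁻¹ = X.φ (m x) :=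
    mul_inv_eq_iff_eq_mul.2 (X.comm_subA ⟨a, ha, rfl⟩ ⟨_, h1, rfl⟩)
  calc X.φ a * g * (X.φ a)⁻¹ * X.φ x * (X.φ a * g * (X.φ a)⁻¹)⁻¹
      = X.φ a * (g * ((X.φ a)⁻¹ * X.φ x * X.φ a) * g⁻¹) * (X.φ a)⁻¹ := by group
    _ = X.φ (m x) := by rw [e1, h2, e2]

theorem actA_period (m : I → I) (hm : m = mA1 ∨ m = mA3) :
    ∀ x, inA x = true → m (m (m x)) = x ∧ (m x = x → x = 0) := by
  intro x hx
  have h := all1_spec basis_check.2.2.2.2.2.2.2 x
  simp only [hx, Bool.not_true, Bool.false_or, Bool.and_eq_true, Bool.or_eq_true,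
    Bool.not_eq_true', beq_iff_eq, beq_eq_false_iff_ne, ← Fin.ext_iff] at h
  rcases hm with rfl | rfl
  · refine ⟨by tauto, fun e => ?_⟩
    have h' : mA1 x ≠ x ∨ x = 0 := by
      have := h.1.2
      rcases this with h | h
      · exact Or.inl fun e => h (congrArg Fin.val e)
      · exact Or.inr (Fin.ext h)
    exact h'.resolve_left (not_not.2 e)
  · refine ⟨by tauto, fun e => ?_⟩
    have h' : mA3 x ≠ x ∨ x = 0 := by
      have := h.2
      rcases this with h | h
      · exact Or.inl fun e => h (congrArg Fin.val e)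
      · exact Or.inr (Fin.ext h)
    exact h'.resolve_left (not_not.2 e)

/-- An element of `A` commuting with an element acting without fixed points is trivial. -/
theorem eq_one_of_comm {g : G} {m : I → I} (hg : X.ActA g m) (hm : m = mA1 ∨ m = mA3) {d : I}
    (hd : inA d = true) (h : g * X.φ d = X.φ d * g) : X.φ d = 1 := by
  have := (hg d hd).2
  rw [mul_inv_eq_iff_eq_mul.2 h] at this
  rw [(X.actA_period m hm d hd).2 (X.inj this).symm, X.map_one]

theorem mul_mem_A {x y : I} (hx : inA x = true) (hy : inA y = true) : inA (mul x y) = true := by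
  have h := all1_spec closedA_check.1 x
  simp only [hx, Bool.not_true, Bool.false_or] at h
  have h' := all1_spec h y
  simpa [hy] using h'

theorem conj_b_image {g : G} {m : I → I} (hg : X.ActA g m) (hg3 : g ^ 3 = 1) (F : Fus9 X)
    {b : I} (hb : inA b = false) (hz : zlab b = true) (hm : m (m (m kz)) = kz)
    (hc : com b (m (m kz)) = true) (hcz : com b kz = true) :
    ∃ x, X.φ x = g * X.φ b * g⁻¹ ∧ inA x = false ∧ zlab x = true ∧ com x (m kz) = true := by
  have b2 := basis_check.2.1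
  have hm1 := (hg kz b2).1
  have hm2 := (hg _ hm1).1
  have he : g * X.φ b * g⁻¹ * X.φ (m (m (m kz))) = X.φ (m (m (m kz))) * (g * X.φ b * g⁻¹) := by
    rw [← (hg _ hm2).2]
    exact comm_conj g ((X.com_iff b _).1 hc)
  rw [hm, X.z_eq] at he
  obtain ⟨x, hx⟩ := X.surj _ he
  refine ⟨x, hx, Bool.eq_false_iff.2 fun hxA => ?_, ?_, ?_⟩
  · obtain ⟨h1, h2⟩ := X.actA_mul hg hg x hxA
    rw [hx, show g * g * (g * X.φ b * g⁻¹) * (g * g)⁻¹ = g ^ 3 * X.φ b * (g ^ 3)⁻¹ by
      simp [pow_three, mul_assoc], hg3] at h2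
    rw [one_mul, inv_one, mul_one] at h2
    rw [X.inj h2, h1] at hb
    exact Bool.noConfusion hb
  · rw [← (X.lab_conj F hx.symm).1]; exact hz
  · refine (X.com_iff _ _).2 ?_
    rw [hx, ← (hg kz b2).2]
    exact comm_conj g ((X.com_iff b kz).1 hcz)

theorem conj_image {g : G} {m : I → I} (hg : X.ActA g m) {b u w : I}
    (hu : X.φ u = g * X.φ b * g⁻¹) (hw : inA w = true) :
    g * X.φ (mul b w) * g⁻¹ = X.φ (mul u (m w)) := by
  rw [X.map_mul, X.map_mul, hu, ← (hg w hw).2]; group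

/-- The first element of order three. -/
theorem exists_k1 (F : Fus9 X) : ∃ k : G, k ^ 3 = 1 ∧ X.ActA k mA1 ∧
    k * X.φ kb1 = X.φ kb1 * k := by
  obtain ⟨g, hg⟩ := X.exists_m1 F
  obtain ⟨hk3, hk⟩ := X.pow_four hg fun x hx => (X.actA_period mA1 (Or.inl rfl) x hx).1
  set k := g ^ 4
  obtain ⟨c1, c2, c3, c4, c5, c6, c7, c8⟩ := fix1_check
  obtain ⟨u, hu, huA, huz, huc⟩ := X.conj_b_image hk hk3 F c1 c3 c4 c5 c6
  have hE := all1_spec c8 u
  simp only [huA, huz, huc, Bool.not_true, Bool.false_or] at hE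
  have h := all1_spec move1_check u
  simp only [huA, hE, Bool.not_true, Bool.false_or] at h
  obtain ⟨w, hw⟩ := any1_spec h
  simp only [Bool.and_eq_true, beq_iff_eq, ← Fin.ext_iff] at hw
  obtain ⟨⟨hwA, hweq⟩, ha⟩ := hw
  obtain ⟨a, ha⟩ := any1_spec ha
  simp only [Bool.and_eq_true, beq_iff_eq, ← Fin.ext_iff] at ha
  have hfix := X.conj_image hk hu hwA
  rw [hweq] at hfix
  refine ⟨X.φ a * k * (X.φ a)⁻¹, by rw [conj_pow, hk3, mul_one, mul_inv_cancel],
    X.actA_conjA hk ha.1, ?_⟩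
  rw [← ha.2, X.map_cj]
  exact comm_conj _ (mul_inv_eq_iff_eq_mul.1 hfix)

/-- The two elements of order three. -/
theorem exists_pair (F : Fus9 X) : ∃ k l : G, k ^ 3 = 1 ∧ l ^ 3 = 1 ∧ X.ActA k mA1 ∧
    X.ActA l mA3 ∧ k * l = l * k ∧ k * X.φ kb1 = X.φ kb1 * k ∧ l * X.φ kb3 = X.φ kb3 * l ∧
    X.φ kb1 * l * (X.φ kb1)⁻¹ * l = 1 ∧ X.φ kb3 * k * (X.φ kb3)⁻¹ * k = 1 := by
  obtain ⟨k, hk3, hk, hkb⟩ := X.exists_k1 F
  obtain ⟨g, hg⟩ := X.exists_m3 F
  have hp1 := fun x hx => (X.actA_period mA1 (Or.inl rfl) x hx).1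
  have hp3 := fun x hx => (X.actA_period mA3 (Or.inr rfl) x hx).1
  have hb := fun x => all1_spec basis_check.2.2.2.2.2.2.2 x
  -- an element acting as `mA3` and commuting with `k`
  have hkinv : X.ActA k⁻¹ fun x => mA1 (mA1 x) := by
    rw [show k⁻¹ = k * k from inv_eq_of_mul_eq_one_right (by rw [← pow_three, hk3])]
    exact X.actA_mul hk hk
  have hgg : X.ActA (g * k * g⁻¹ * k⁻¹) fun x => x := by
    intro x hx
    obtain ⟨a1, a2⟩ := hkinv x hx
    beta_reduce at a1 a2
    obtain ⟨y, hy⟩ : ∃ y, inA y = true ∧ mA3 y = mA1 (mA1 x) :=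
      ⟨mA3 (mA3 (mA1 (mA1 x))), (hg _ (hg _ a1).1).1, hp3 _ a1⟩
    refine ⟨hx, ?_⟩
    calc g * k * g⁻¹ * k⁻¹ * X.φ x * (g * k * g⁻¹ * k⁻¹)⁻¹
        = g * (k * (g⁻¹ * (k⁻¹ * X.φ x * k⁻¹⁻¹) * g) * k⁻¹) * g⁻¹ := by group
      _ = g * (k * X.φ y * k⁻¹) * g⁻¹ := by
        rw [a2, ← hy.2, ← (hg y hy.1).2]; group
      _ = X.φ (mA3 (mA1 y)) := by rw [(hk y hy.1).2, (hg _ (hk y hy.1).1).2]
      _ = X.φ x := by
        have h := hb y
        simp only [hy.1, Bool.not_true, Bool.false_or, Bool.and_eq_true, beq_iff_eq,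
          ← Fin.ext_iff] at h
        have e : mA1 (mA3 y) = mA3 (mA1 y) := by tauto
        rw [← e, hy.2, hp1 x hx]
  obtain ⟨c, hc, ec⟩ := X.mem_A_of_actA hgg fun _ _ => rfl
  have ha := all1_spec comm_adjust c
  simp only [hc, Bool.not_true, Bool.false_or] at ha
  obtain ⟨a, ha⟩ := any1_spec ha
  simp only [Bool.and_eq_true, beq_iff_eq] at ha
  have hak := (hk a ha.1).2
  have hcom : Commute (X.φ a * g) k := by
    have e0 : X.φ a * X.φ c * X.φ (mA1 a) = 1 := by
      rw [← X.map_mul, ← X.map_mul, show mul (mul a c) (mA1 a) = 0 from Fin.ext ha.2, X.map_one]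
    have e1 : X.φ a * g * k * (X.φ a * g)⁻¹ = k := by
      calc X.φ a * g * k * (X.φ a * g)⁻¹
          = X.φ a * (g * k * g⁻¹ * k⁻¹) * (k * (X.φ a)⁻¹ * k⁻¹) * k := by group
        _ = X.φ a * X.φ c * X.φ (mA1 a) * k := by
          rw [← ec, show k * (X.φ a)⁻¹ * k⁻¹ = (k * X.φ a * k⁻¹)⁻¹ by group, hak,
            inv_eq_of_mul_eq_one_right (X.phi_sq_A (hk a ha.1).1)]
        _ = k := by rw [e0, one_mul]
    exact mul_inv_eq_iff_eq_mul.1 e1
  have hag : X.ActA (X.φ a * g) mA3 := fun x hx => by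
    obtain ⟨h1, h2⟩ := hg x hx
    refine ⟨h1, ?_⟩
    calc X.φ a * g * X.φ x * (X.φ a * g)⁻¹ = X.φ a * (g * X.φ x * g⁻¹) * (X.φ a)⁻¹ := by group
      _ = X.φ (mA3 x) := by
        rw [h2]
        exact mul_inv_eq_iff_eq_mul.2 (X.comm_subA ⟨a, ha.1, rfl⟩ ⟨_, h1, rfl⟩)
  obtain ⟨hl3, hl⟩ := X.pow_four hag hp3
  set l := (X.φ a * g) ^ 4
  have hkl : k * l = l * k := (hcom.pow_left 4).eq.symm
  -- the inversion by `kb1`
  have hinv : ∀ (b : I) (s t : G) (m n : I → I), s ^ 3 = 1 → X.ActA s m → X.ActA t n →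
      (n = mA1 ∨ n = mA3) → X.ActA (X.φ b) (cj b) → mul b b = 0 → s * t = t * s →
      X.φ b * t = t * X.φ b → (∀ x, inA x = true → cj b (m (cj b (m x))) = x) →
      X.φ b * s * (X.φ b)⁻¹ * s = 1 := by
    intro b s t m n hs3 hs ht hn hB hbb hst hbt hid
    have hbinv : (X.φ b)⁻¹ = X.φ b := inv_eq_of_mul_eq_one_right (by
      rw [← X.map_mul, hbb, X.map_one])
    have hact : X.ActA (X.φ b * s * (X.φ b)⁻¹ * s) fun x => cj b (m (cj b (m x))) := by
      rw [hbinv]
      exact X.actA_congr (X.actA_mul (X.actA_mul (X.actA_mul hB hs) hB) hs) fun _ _ => rfl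
    obtain ⟨d, hd, ed⟩ := X.mem_A_of_actA hact hid
    rw [← ed]
    refine X.eq_one_of_comm ht hn hd ?_
    have c1 : Commute t (X.φ b) := hbt.symm
    have c2 : Commute t s := hst.symm
    rw [ed]
    exact (((c1.mul_right c2).mul_right c1.inv_right).mul_right c2).eq
  obtain ⟨m3c, m3b, m1b⟩ := move3_check
  have hid1 : ∀ x, inA x = true → cj kb1 (mA3 (cj kb1 (mA3 x))) = x ∧
      cj kb3 (mA1 (cj kb3 (mA1 x))) = x := fun x hx => by
    have h := hb x
    simp only [hx, Bool.not_true, Bool.false_or, Bool.and_eq_true, beq_iff_eq,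
      ← Fin.ext_iff] at h
    tauto
  have hinv1 : X.φ kb1 * l * (X.φ kb1)⁻¹ * l = 1 :=
    hinv kb1 l k mA3 mA1 hl3 hl hk (Or.inl rfl) X.actA_kv.2.2.2.1 m1b hkl.symm hkb.symm
      fun x hx => (hid1 x hx).1
  -- the fixed point of `l`
  obtain ⟨c1, c2, c3, c4, c5, c6, c7, c8⟩ := fix3_check
  obtain ⟨u, hu, huA, huz, huc⟩ := X.conj_b_image hl hl3 F c1 c3 c4 c5 c6
  have hFu := all1_spec c8 u
  simp only [huA, huz, huc, Bool.not_true, Bool.false_or] at hFu
  have h := all1_spec m3c u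
  simp only [huA, hFu, Bool.not_true, Bool.false_or] at h
  obtain ⟨w, hw⟩ := any1_spec h
  simp only [Bool.and_eq_true, Bool.or_eq_true, Bool.not_eq_true'] at hw
  obtain ⟨hwf, hw', hwa⟩ := hw
  simp only [fixF, Bool.and_eq_true, beq_iff_eq, ← Fin.ext_iff] at hwf
  have hfix := X.conj_image hl hu hwf.1
  rw [hwf.2] at hfix
  set b' := mul kb3 w
  have hfix' : fixF u (mul kb3 (cj kb1 b')) = true := by
    have e : l * X.φ (cj kb1 b') * l⁻¹ = X.φ (cj kb1 b') := by
      rw [X.map_cj]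
      have e1 : X.φ kb1 * l * (X.φ kb1)⁻¹ = l⁻¹ := eq_inv_of_mul_eq_one_left hinv1
      have e2 : l * X.φ kb1 = X.φ kb1 * l⁻¹ := by
        have hbb : X.φ kb1 * X.φ kb1 = 1 := by rw [← X.map_mul, m1b, X.map_one]
        rw [← e1, inv_eq_of_mul_eq_one_right hbb]
        simp only [← mul_assoc, hbb, one_mul]
      calc l * (X.φ kb1 * X.φ b' * (X.φ kb1)⁻¹) * l⁻¹
          = l * X.φ kb1 * X.φ b' * (l * X.φ kb1)⁻¹ := by group
        _ = X.φ kb1 * (l⁻¹ * (l * X.φ b' * l⁻¹) * l) * (X.φ kb1)⁻¹ := by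
          rw [e2, hfix]; group
        _ = X.φ kb1 * X.φ b' * (X.φ kb1)⁻¹ := by group
    have hx : X.φ (mul kb3 (mul kb3 (cj kb1 b'))) = X.φ (cj kb1 b') := by
      rw [X.map_mul, X.map_mul, ← mul_assoc, ← X.map_mul kb3 kb3, m3b, X.map_one, one_mul]
    have h2 := X.conj_image hl hu hw'
    rw [hx, e, ← hx] at h2
    simp only [fixF, hw', Bool.true_and, beq_iff_eq, ← Fin.ext_iff]
    exact (X.inj h2).symm
  have hwa' := hwa.resolve_left (by rw [hfix']; decide)
  obtain ⟨a', ha'⟩ := any1_spec hwa'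
  simp only [Bool.and_eq_true, beq_iff_eq, ← Fin.ext_iff] at ha'
  obtain ⟨⟨⟨ha'A, ha'1⟩, ha'3⟩, -⟩ := ha'
  set k' := X.φ a' * k * (X.φ a')⁻¹
  set l' := X.φ a' * l * (X.φ a')⁻¹
  have hb1' : X.φ a' * X.φ kb1 * (X.φ a')⁻¹ = X.φ kb1 :=
    mul_inv_eq_iff_eq_mul.2 ((X.com_iff _ _).1 ha'1)
  have hlb : l' * X.φ kb3 = X.φ kb3 * l' := by
    rw [← ha'3, X.map_cj]
    exact comm_conj _ (mul_inv_eq_iff_eq_mul.1 hfix)
  have hk' := X.actA_conjA hk ha'A
  have hl' := X.actA_conjA hl ha'A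
  have hk3' : k' ^ 3 = 1 := by rw [conj_pow, hk3, mul_one, mul_inv_cancel]
  refine ⟨k', l', hk3', by rw [conj_pow, hl3, mul_one, mul_inv_cancel], hk', hl',
    comm_conj _ hkl, ?_, hlb, ?_, ?_⟩
  · rw [← hb1']; exact comm_conj _ hkb
  · rw [← hb1', show l' = X.φ a' * l * (X.φ a')⁻¹ from rfl]
    calc _ = X.φ a' * (X.φ kb1 * l * (X.φ kb1)⁻¹ * l) * (X.φ a')⁻¹ := by group
      _ = 1 := by rw [hinv1, mul_one, mul_inv_cancel]
  · exact hinv kb3 k' l' mA1 mA3 hk3' hk' hl' (Or.inr rfl) X.actA_kv.2.2.2.2 m3b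
      (comm_conj _ hkl) hlb.symm fun x hx => (hid1 x hx).2

/-- A product of order four. -/
theorem four {f : Fin 4 → G} (h0 : f 0 = X.φ kc1) (h1 : f 1 = X.φ kc2) (l : Fin 4) (hl : l.val ≥ 2)
    (mV : I → I) (inV : I → Bool) (x y : I) (w : Wd)
    (hact : ∀ c, inV c = true → f l * X.φ c * (f l)⁻¹ = X.φ (mV c))
    (h3 : f l * (f l * f l) = 1)
    (hc : (all1 fun c => !inV c || ((actW mV (w ++ (cWd x ++ [(l, true)]) ++ wInv w) c).val ==
      (cj y c).val && inV (mV c) && inV (cj kc1 c) && inV (cj kc2 c) && inV (cj (inv kc1) c) &&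
      inV (cj (inv kc2) c) && (mV (mV (mV c))).val == c.val)) = true)
    (hz : inV kz = true)
    (hw : ((w ++ (cWd x ++ [(l, true)]) ++ wInv w).all
      fun a => decide (a.1.val < 2) || a.1 == l) = true)
    (hs : (all1 fun j => (any1 fun c => inV c && !com j c) ||
      (mul (mul (mul y j) (mul y j)) (mul (mul y j) (mul y j))).val == 0) = true) :
    evalW f (cWd x ++ [(l, true)]) * evalW f (cWd x ++ [(l, true)]) *
      evalW f (cWd x ++ [(l, true)]) * evalW f (cWd x ++ [(l, true)]) = 1 := by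
  set h := evalW f (w ++ (cWd x ++ [(l, true)]) ++ wInv w) with hh
  have key : ∀ u : Wd, (∀ a ∈ u, a.1.val < 2 ∨ a.1 = l) → ∀ c, inV c = true →
      inV (actW mV u c) = true ∧ evalW f u * X.φ c * (evalW f u)⁻¹ = X.φ (actW mV u c) := by
    intro u
    induction u with
    | nil => intro _ c hc'; exact ⟨hc', by simp [evalW_eq_prod, actW]⟩
    | cons a u ih =>
      intro hu c hc'
      obtain ⟨i1, i2⟩ := ih (fun b hb => hu b (List.mem_cons_of_mem _ hb)) c hc'
      have e : evalW f (a :: u) * X.φ c * (evalW f (a :: u))⁻¹ =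
          evalW f [a] * X.φ (actW mV u c) * (evalW f [a])⁻¹ := by
        rw [show a :: u = [a] ++ u from rfl, evalW_append, ← i2]; group
      rw [e]
      show inV (actL mV a (actW mV u c)) = true ∧ _ = X.φ (actL mV a (actW mV u c))
      generalize actW mV u c = d at i1
      have hd := all1_spec hc d
      simp only [i1, Bool.not_true, Bool.false_or, Bool.and_eq_true, beq_iff_eq,
        ← Fin.ext_iff] at hd
      obtain ⟨⟨⟨⟨⟨⟨-, d1⟩, d2⟩, d3⟩, d4⟩, d5⟩, d6⟩ := hd
      obtain ⟨a, b⟩ := a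
      by_cases ha : a.val < 2
      · rw [X.evalW_low f h0 h1 [(a, b)] (by simpa using ha),
          show evI [(a, b)] = mul (letV (a, b)) 0 from rfl, X.map_mul, X.map_one, mul_one,
          ← X.map_cj]
        simp only [actL, ha, decide_true, cond_true]
        refine ⟨?_, trivial⟩
        rcases a with ⟨a, ha'⟩
        rcases (show a = 0 ∨ a = 1 by simp at ha; omega) with rfl | rfl <;> cases b <;>
          simpa [letV]
      · have hal : a = l := (hu (a, b) (List.mem_cons_self ..)).resolve_left ha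
        subst hal
        simp only [actL, ha, decide_false, cond_false]
        cases b
        · refine ⟨?_, ?_⟩
          · have hd' := all1_spec hc (mV d)
            simp only [d1, Bool.not_true, Bool.false_or, Bool.and_eq_true] at hd'
            exact hd'.1.1.1.1.1.2
          · have e2 : evalW f [(a, false)] = f a * f a := by
              rw [show evalW f [(a, false)] = (f a)⁻¹ by simp [evalW_eq_prod]]
              exact inv_eq_of_mul_eq_one_right h3
            rw [e2, cond_false, show f a * f a * X.φ d * (f a * f a)⁻¹ =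
              f a * (f a * X.φ d * (f a)⁻¹) * (f a)⁻¹ by group, hact d i1, hact _ d1]
        · refine ⟨d1, ?_⟩
          rw [show evalW f [(a, true)] = f a by simp [evalW_eq_prod]]
          exact hact d i1
  have hword : ∀ a ∈ w ++ (cWd x ++ [(l, true)]) ++ wInv w, a.1.val < 2 ∨ a.1 = l := fun a ha => by
    simpa [Bool.or_eq_true] using List.all_eq_true.1 hw a ha
  have hconj : ∀ c, inV c = true → h * X.φ c * h⁻¹ = X.φ y * X.φ c * (X.φ y)⁻¹ := fun c hc' => by
    obtain ⟨-, e⟩ := key _ hword c hc'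
    have hd := all1_spec hc c
    simp only [hc', Bool.not_true, Bool.false_or, Bool.and_eq_true, beq_iff_eq,
      ← Fin.ext_iff] at hd
    rw [hh, e, hd.1.1.1.1.1.1, X.map_cj]
  have hfix : ∀ c, inV c = true → ((X.φ y)⁻¹ * h) * X.φ c = X.φ c * ((X.φ y)⁻¹ * h) := fun c hc' => by
    refine mul_inv_eq_iff_eq_mul.1 ?_
    calc (X.φ y)⁻¹ * h * X.φ c * ((X.φ y)⁻¹ * h)⁻¹
        = (X.φ y)⁻¹ * (h * X.φ c * h⁻¹) * X.φ y := by group
      _ = X.φ c := by rw [hconj c hc']; group
  obtain ⟨j, hj⟩ := X.surj ((X.φ y)⁻¹ * h) (by have := hfix kz hz; rwa [X.z_eq] at this)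
  have hj' := all1_spec hs j
  simp only [Bool.or_eq_true, beq_iff_eq] at hj'
  have hj4 : mul (mul (mul y j) (mul y j)) (mul (mul y j) (mul y j)) = 0 := by
    refine Fin.ext (hj'.resolve_left fun hh' => ?_)
    obtain ⟨c, hc'⟩ := any1_spec hh'
    simp only [Bool.and_eq_true, Bool.not_eq_true'] at hc'
    rw [(X.com_iff j c).2 (by rw [hj]; exact hfix c hc'.1)] at hc'
    exact Bool.noConfusion hc'.2
  have hh4 : h * h * (h * h) = 1 := by
    rw [show h = X.φ (mul y j) by rw [X.map_mul, hj]; group, ← X.map_mul, ← X.map_mul, hj4,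
      X.map_one]
  rw [hh, evalW_append, evalW_append, evalW_wInv] at hh4
  set q := evalW f (cWd x ++ [(l, true)])
  calc q * q * q * q = (evalW f w)⁻¹ * (evalW f w * q * (evalW f w)⁻¹ *
        (evalW f w * q * (evalW f w)⁻¹) * (evalW f w * q * (evalW f w)⁻¹ *
        (evalW f w * q * (evalW f w)⁻¹))) * evalW f w := by group
    _ = 1 := by rw [hh4]; group

theorem act_V {k : G} {m n : I → I} {b : I} {inV : I → Bool} (hk : X.ActA k m)
    (hb : k * X.φ b = X.φ b * k) (hbb : mul b b = 0)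
    (h : (all1 fun c => !inV c || (com kz c && ((inA c && (n c).val == (m c).val) ||
      (inA (mul b c) && (n c).val == (mul b (m (mul b c))).val)))) = true) :
    ∀ c, inV c = true → k * X.φ c * k⁻¹ = X.φ (n c) := fun c hc => by
  have h' := all1_spec h c
  simp only [hc, Bool.not_true, Bool.false_or, Bool.and_eq_true, Bool.or_eq_true, beq_iff_eq,
    ← Fin.ext_iff] at h'
  rcases h'.2 with ⟨hA, e⟩ | ⟨hA, e⟩
  · rw [e]; exact (hk c hA).2
  · have e1 : X.φ c = X.φ b * X.φ (mul b c) := by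
      rw [X.map_mul, ← mul_assoc, ← X.map_mul b b, hbb, X.map_one, one_mul]
    rw [e, X.map_mul, ← (hk _ hA).2, e1, ← mul_assoc, hb]
    group

/-- Four elements satisfying the relations. -/
theorem exists_gens (F : Fus9 X) : ∃ f : Fin 4 → G, f 0 = X.φ kc1 ∧ f 1 = X.φ kc2 ∧
    ∀ w ∈ allW, evalW f w = 1 := by
  obtain ⟨k, l, hk3, hl3, hk, hl, hkl, hkb, hlb, hi1, hi3⟩ := X.exists_pair F
  refine ⟨![X.φ kc1, X.φ kc2, k, l], rfl, rfl, ?_⟩
  set f : Fin 4 → G := ![X.φ kc1, X.φ kc2, k, l] with hf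
  have hC : ∀ i, evalW f (cWd i) = X.φ i := X.evalW_cWd f rfl rfl
  have hone : ∀ (a : Fin 4) (b : Bool), evalW f [(a, b)] = cond b (f a) (f a)⁻¹ := fun a b => by
    cases b <;> simp [evalW_eq_prod]
  have f2 : f 2 = k := rfl
  have f3 : f 3 = l := rfl
  obtain ⟨b1, b2, b3, b4, -⟩ := basis_check
  have hconj : ∀ (a : Fin 4) (m : I → I), X.ActA (f a) m → ∀ x, inA x = true →
      evalW f (conjW a x (m x)) = 1 := fun a m ha x hx => by
    rw [conjW, evalW_append, evalW_append, evalW_append, hone, hone, hC, evalW_wInv, hC,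
      cond_true, cond_false, (ha x hx).2, mul_inv_cancel]
  obtain ⟨m3c, m3b, m1b⟩ := move3_check
  intro w hw
  rw [allW, List.mem_append] at hw
  rcases hw with hw | hw
  · simp only [List.mem_cons, List.not_mem_nil, or_false] at hw
    rcases hw with rfl | rfl | rfl | rfl | rfl | rfl | rfl | rfl | rfl | rfl | rfl | rfl | rfl |
      rfl | rfl | rfl | rfl
    · rw [← hk3]; simp [evalW_eq_prod, f2, pow_three]
    · rw [← hl3]; simp [evalW_eq_prod, f3, pow_three]
    · simp only [evalW_eq_prod, List.map_cons, List.map_nil, List.prod_cons, List.prod_nil,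
        mul_one, f2, f3, cond_true, cond_false, Bool.false_eq_true, if_false, if_true]
      rw [← mul_assoc, hkl]
      group
    · simp only [evalW_append, evalW_wInv, hC, hone, cond_true, cond_false, f2]
      rw [hkb]; group
    · exact hconj 2 mA1 hk _ b1
    · exact hconj 2 mA1 hk _ b2
    · exact hconj 2 mA1 hk _ b3
    · exact hconj 2 mA1 hk _ b4
    · simp only [evalW_append, evalW_wInv, hC, hone, cond_true, cond_false, f3]
      rw [hlb]; group
    · exact hconj 3 mA3 hl _ b1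
    · exact hconj 3 mA3 hl _ b2
    · exact hconj 3 mA3 hl _ b3
    · exact hconj 3 mA3 hl _ b4
    · simp only [evalW_append, evalW_wInv, hC, hone, cond_true, f3]
      exact hi1
    · simp only [evalW_append, evalW_wInv, hC, hone, cond_true, f2]
      exact hi3
    · rw [evalW_append, evalW_append, evalW_append]
      exact X.four rfl rfl 2 (by decide) mE1 inE kx1 ky1 wx1 (X.act_V hk hkb m1b actE_check.1)
        (by rw [f2, ← pow_three, hk3]) four1_check.1 four1_check.2.1 four1_check.2.2.1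
        four1_check.2.2.2
    · rw [evalW_append, evalW_append, evalW_append]
      exact X.four rfl rfl 3 (by decide) mF3 inF kx3 ky3 wx3 (X.act_V hl hlb m3b actE_check.2)
        (by rw [f3, ← pow_three, hl3]) four3_check.1 four3_check.2.1 four3_check.2.2.1
        four3_check.2.2.2
  · have h := List.all_eq_true.1 cRels_check w hw
    simp only [Bool.and_eq_true, beq_iff_eq, List.all_eq_true, decide_eq_true_eq] at h
    rw [X.evalW_low f rfl rfl w h.2, show evI w = 0 from Fin.ext h.1, X.map_one]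

end Ctr

end CfsgLib.InvChar.AEight
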