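import Cfsg.Agent.Lib.InvChar.AEight.Data
import Cfsg.Agent.Lib.InvChar.AEight.Checks
import Cfsg.Agent.Lib.SporRecognition.CosetCert.Words
import Cfsg.Agent.Lib.Derangements.PermIndex

/-!
The model: four even permutations of eight points satisfying the relations; they generate the
alternating group, and the first two generate a copy of the centraliser.
-/

set_option autoImplicit false
set_option linter.unusedSectionVars false
set_option maxRecDepth 100000

open CfsgLib.SporRecognition.CosetCert

namespace CfsgLib.InvChar.AEight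

namespace Model

/-- The image of a point under a generator. -/
def fwd (a : Fin 4) (p : Fin 8) : Fin 8 := (permTbl.getD a.val []).getD p.val 0

/-- The preimage of a point under a generator. -/
def bwd (a : Fin 4) (p : Fin 8) : Fin 8 := ((List.finRange 8).find? fun q => fwd a q == p).getD 0

theorem bij_check : ∀ (a : Fin 4) (p : Fin 8), fwd a (bwd a p) = p ∧ bwd a (fwd a p) = p := by
  decide +kernel

/-- A generator as a permutation. -/
def perm (a : Fin 4) : Equiv.Perm (Fin 8) :=
  ⟨fwd a, bwd a, fun p => (bij_check a p).2, fun p => (bij_check a p).1⟩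

theorem perm_sign : ∀ a : Fin 4, Equiv.Perm.sign (perm a) = 1 := by decide +kernel

/-- The image of a point under a letter. -/
def letF (x : Fin 4 × Bool) (p : Fin 8) : Fin 8 := bif x.2 then fwd x.1 p else bwd x.1 p

/-- The image of a point under a word. -/
def wordF (w : Wd) (p : Fin 8) : Fin 8 := w.foldr (fun x q => letF x q) p

/-- Whether a word acts trivially. -/
def isOne (w : Wd) : Bool := (List.finRange 8).all fun p => (wordF w p).val == p.val

/-- The value of a letter in the centraliser. -/
def letV8 (x : Fin 4 × Bool) : I :=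
  bif x.2 then (bif x.1.val == 0 then kc1 else kc2) else inv (bif x.1.val == 0 then kc1 else kc2)

theorem rels_check : (allW.all isOne) = true := by decide +kernel

theorem els_check : (all1 fun i => (i.val == 0 || !isOne (cWd i)) &&
    (cWd i).all (fun x => decide (x.1.val < 2)) &&
    ([(0, true), (0, false), (1, true), (1, false)] : Wd).all fun x =>
      (List.finRange 8).all fun p =>
        (wordF (cWd (mul i (letV8 x))) p).val == (wordF (cWd i) (letF x p)).val) = true ∧
    isOne (cWd 0) = true := by
  decide +kernel

theorem fold_check : (all1 fun i => all1 fun j =>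
    ((cWd j).foldl (fun r x => mul r (letV8 x)) i).val == (mul i j).val) = true := by
  decide +kernel

theorem unique_check : (all1 fun j => all1 fun i =>
    !((mul i (inv j)).val == 0) || i.val == j.val) = true := by
  decide +kernel

/-- A word of order seven. -/
def w7 : Wd := [(0, true), (2, true)]
/-- A word of order five. -/
def w5 : Wd := [(0, true), (0, true), (2, true), (2, true), (3, true)]

theorem order_check : isOne (List.replicate 7 w7).flatten = true ∧ isOne w7 = false ∧
    isOne (List.replicate 5 w5).flatten = true ∧ isOne w5 = false := by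
  decide +kernel

end Model

/-- The four generators. -/
def perm8 (a : Fin 4) : alternatingGroup (Fin 8) :=
  ⟨Model.perm a, Equiv.Perm.mem_alternatingGroup.2 (Model.perm_sign a)⟩

namespace Model

theorem evalW_apply (w : Wd) (p : Fin 8) :
    ((evalW perm8 w : alternatingGroup (Fin 8)) : Equiv.Perm (Fin 8)) p = wordF w p := by
  induction w generalizing p with
  | nil => rw [evalW_eq_prod]; rfl
  | cons x w ih =>
    rw [evalW_eq_prod, List.map_cons, List.prod_cons, ← evalW_eq_prod, Subgroup.coe_mul,
      Equiv.Perm.mul_apply, ih]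
    obtain ⟨a, b⟩ := x
    cases b <;> rfl

theorem isOne_iff (w : Wd) : isOne w = true ↔ evalW perm8 w = 1 := by
  simp only [isOne, List.all_eq_true, List.mem_finRange, true_implies, beq_iff_eq, ← Fin.ext_iff]
  constructor
  · intro h
    exact Subtype.ext (Equiv.ext fun p => by rw [evalW_apply, h p]; rfl)
  · intro h p
    rw [← evalW_apply, h]; rfl

theorem evalW_flatten (n : ℕ) (w : Wd) :
    evalW perm8 (List.replicate n w).flatten = evalW perm8 w ^ n := by
  induction n with
  | zero => rw [evalW_eq_prod]; rfl
  | succ n ih => rw [List.replicate_succ, List.flatten_cons, evalW_append, ih, pow_succ']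

theorem orderOf_of_check {q : ℕ} (hq : q.Prime) {w : Wd}
    (h1 : isOne (List.replicate q w).flatten = true) (h2 : isOne w = false) :
    orderOf (evalW perm8 w) = q := by
  haveI := Fact.mk hq
  refine orderOf_eq_prime (by rw [← evalW_flatten]; exact (isOne_iff _).1 h1) fun e => ?_
  rw [(isOne_iff w).2 e] at h2
  exact Bool.noConfusion h2

end Model

theorem model_rels : ∀ w ∈ allW, evalW perm8 w = 1 := fun w hw =>
  (Model.isOne_iff w).1 (List.all_eq_true.1 Model.rels_check w hw)

/-- The elements of the centraliser in the model. -/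
def eP (i : I) : alternatingGroup (Fin 8) := evalW perm8 (cWd i)

theorem eP_zero : eP 0 = 1 := (Model.isOne_iff _).1 Model.els_check.2

theorem eP_letter (i : I) (x : Fin 4 × Bool) (hx : x.1.val < 2) :
    eP (mul i (Model.letV8 x)) = eP i * cond x.2 (perm8 x.1) (perm8 x.1)⁻¹ := by
  have h := all1_spec Model.els_check.1 i
  simp only [Bool.and_eq_true, List.all_eq_true, beq_iff_eq, ← Fin.ext_iff] at h
  have hmem : x ∈ ([(0, true), (0, false), (1, true), (1, false)] : Wd) := by
    obtain ⟨⟨a, ha⟩, b⟩ := x
    rcases (show a = 0 ∨ a = 1 by simp at hx; omega) with rfl | rfl <;> cases b <;> simp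
  refine Subtype.ext (Equiv.ext fun p => ?_)
  show ((evalW perm8 _ : alternatingGroup (Fin 8)) : Equiv.Perm (Fin 8)) p = _
  rw [Model.evalW_apply, h.2 x hmem p (List.mem_finRange p), Subgroup.coe_mul,
    Equiv.Perm.mul_apply, eP, Model.evalW_apply]
  obtain ⟨a, b⟩ := x
  cases b <;> rfl

theorem eP_mul (i j : I) : eP (mul i j) = eP i * eP j := by
  have h := all1_spec Model.els_check.1 j
  simp only [Bool.and_eq_true, List.all_eq_true, decide_eq_true_eq] at h
  have key : ∀ w : Wd, (∀ x ∈ w, x.1.val < 2) → ∀ i,
      eP (w.foldl (fun r x => mul r (Model.letV8 x)) i) = eP i * evalW perm8 w := by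
    intro w
    induction w with
    | nil => intro _ i; simp [evalW_eq_prod]
    | cons x w ih =>
      intro hw i
      rw [List.foldl_cons, ih (fun y hy => hw y (List.mem_cons_of_mem _ hy)),
        eP_letter i x (hw x (List.mem_cons_self ..)), evalW_eq_prod, evalW_eq_prod,
        List.map_cons, List.prod_cons, mul_assoc]
  have h2 := all1_spec (all1_spec Model.fold_check i) j
  rw [beq_iff_eq, ← Fin.ext_iff] at h2
  rw [← h2, key _ h.1.2]
  rfl

theorem eP_eq_one {i : I} (h : eP i = 1) : i = 0 := by
  have hc := all1_spec Model.els_check.1 i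
  simp only [Bool.and_eq_true, Bool.or_eq_true, Bool.not_eq_true', beq_iff_eq] at hc
  rcases hc.1.1 with e | e
  · exact Fin.ext e
  · rw [(Model.isOne_iff _).2 h] at e
    exact Bool.noConfusion e

theorem eP_injective : Function.Injective eP := by
  intro i j e
  have h := all1_spec one_inv_check.2 j
  simp only [Bool.and_eq_true, beq_iff_eq] at h
  have h2 : mul i (inv j) = 0 := eP_eq_one (by
    rw [eP_mul, e, ← eP_mul, show mul j (inv j) = 0 from Fin.ext h.1, eP_zero])
  have h3 := all1_spec (all1_spec Model.unique_check j) i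
  simp only [h2, Fin.val_zero, beq_self_eq_true, Bool.not_true, Bool.false_or, beq_iff_eq] at h3
  exact Fin.ext h3

theorem evalW_mem_closure (w : Wd) : evalW perm8 w ∈ Subgroup.closure (Set.range perm8) := by
  rw [evalW_eq_prod]
  refine list_prod_mem fun g hg => ?_
  obtain ⟨⟨a, b⟩, -, rfl⟩ := List.mem_map.1 hg
  cases b
  · exact Subgroup.inv_mem _ (Subgroup.subset_closure ⟨a, rfl⟩)
  · exact Subgroup.subset_closure ⟨a, rfl⟩

/-- The model generators generate the alternating group. -/
theorem range_top : Subgroup.closure (Set.range perm8) = ⊤ := by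
  classical
  set H := Subgroup.closure (Set.range perm8) with hH
  -- the order is divisible by 192, 5 and 7
  let E : Subgroup (alternatingGroup (Fin 8)) :=
    { carrier := Set.range eP
      one_mem' := ⟨0, eP_zero⟩
      mul_mem' := by rintro _ _ ⟨i, rfl⟩ ⟨j, rfl⟩; exact ⟨mul i j, eP_mul i j⟩
      inv_mem' := by
        rintro _ ⟨i, rfl⟩
        have h := all1_spec one_inv_check.2 i
        simp only [Bool.and_eq_true, beq_iff_eq] at h
        refine ⟨inv i, (inv_eq_of_mul_eq_one_right ?_).symm⟩
        rw [← eP_mul, show mul i (inv i) = 0 from Fin.ext h.1, eP_zero] }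
  have hEH : E ≤ H := by rintro _ ⟨i, rfl⟩; exact evalW_mem_closure _
  have h192 : 192 ∣ Nat.card H := by
    have hE : Nat.card E = 192 := by
      rw [← Nat.card_eq_of_bijective (fun i : I => (⟨eP i, i, rfl⟩ : E))
        ⟨fun i j e => eP_injective (congrArg Subtype.val e),
          fun ⟨_, i, e⟩ => ⟨i, Subtype.ext e⟩⟩, Nat.card_fin]
    exact hE ▸ Subgroup.card_dvd_of_le hEH
  obtain ⟨c7, d7, c5, d5⟩ := Model.order_check
  have h7 : 7 ∣ Nat.card H := Model.orderOf_of_check (by norm_num) c7 d7 ▸
    H.orderOf_dvd_natCard (evalW_mem_closure _)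
  have h5 : 5 ∣ Nat.card H := Model.orderOf_of_check (by norm_num) c5 d5 ▸
    H.orderOf_dvd_natCard (evalW_mem_closure _)
  have h6720 : 6720 ∣ Nat.card H := by
    have := Nat.Coprime.mul_dvd_of_dvd_of_dvd (by norm_num : Nat.Coprime (192 * 5) 7)
      (Nat.Coprime.mul_dvd_of_dvd_of_dvd (by norm_num : Nat.Coprime 192 5) h192 h5) h7
    exact this
  set K := H.map (alternatingGroup (Fin 8)).subtype with hK
  have hKc : Nat.card K = Nat.card H := Subgroup.card_map_of_injective Subtype.val_injective
  have h40320 : Nat.card (Equiv.Perm (Fin 8)) = 40320 := by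
    rw [Nat.card_perm, Nat.card_eq_fintype_card, Fintype.card_fin]; rfl
  have hKA : K ≤ alternatingGroup (Fin 8) := Subgroup.map_subtype_le H
  have hKA' : K = alternatingGroup (Fin 8) := by
    by_contra hne
    have htop : K ≠ ⊤ := by
      intro e
      have h1 : Equiv.swap (0 : Fin 8) 1 ∈ alternatingGroup (Fin 8) := hKA (e ▸ Subgroup.mem_top _)
      rw [Equiv.Perm.mem_alternatingGroup, Equiv.Perm.sign_swap (by decide)] at h1
      exact absurd h1 (by decide)
    have hi := CfsgLib.Derangements.card_le_index (by simp) K htop hne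
    have hm := K.card_mul_index
    rw [Fintype.card_fin] at hi
    rw [h40320, hKc] at hm
    obtain ⟨c, hc⟩ := h6720
    rw [hc] at hm
    rcases Nat.eq_zero_or_pos c with rfl | hcp
    · simp at hm
    · nlinarith
  rw [Subgroup.eq_top_iff']
  intro g
  have : (g : Equiv.Perm (Fin 8)) ∈ K := by rw [hKA']; exact g.2
  obtain ⟨h, hh, e⟩ := this
  exact Subtype.ext e ▸ hh

end CfsgLib.InvChar.AEight
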