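import Cfsg.Agent.Lib.InvChar.AEight.Setting

/-!
A group of order `20160` or `181440` with a subgroup isomorphic to the alternating group of degree
eight containing the centraliser is one of the two alternating groups.
-/

set_option autoImplicit false
set_option linter.unusedSectionVars false

namespace CfsgLib.InvChar.AEight

universe u

theorem center_inS_check : (all1 fun i => !inS i || i.val == 0 || i.val == kz.val ||
    any1 fun j => inS j && !com i j) = true := by
  decide +kernel

theorem closed_S {i j : I} (hi : inS i = true) (hj : inS j = true) : inS (mul i j) = true := by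
  have h := all1_spec (all1_spec closed_check i) j
  simp only [hi, hj, Bool.and_eq_true, Bool.and_self, Bool.not_true, Bool.false_or] at h
  exact h.1.1.1.2

variable {G : Type u} [Group G] [Finite G]

/-- The alternating groups of degree eight and nine. -/
theorem eight_or_nine_of {z : G} (X : Ctr z)
    (hM : ∃ M : Subgroup G, Nonempty (M ≃* alternatingGroup (Fin 8)) ∧
      Subgroup.centralizer ({z} : Set G) ≤ M)
    (hG : Nat.card G = 20160 ∨ Nat.card G = 181440) :
    Nonempty (G ≃* alternatingGroup (Fin 8)) ∨ Nonempty (G ≃* alternatingGroup (Fin 9)) := by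
  obtain ⟨M, ⟨eM⟩, hCM⟩ := hM
  have hMcard : Nat.card M = 20160 := by
    rw [Nat.card_congr eM.toEquiv, nat_card_alternatingGroup, Nat.card_eq_fintype_card,
      Fintype.card_fin]
    rfl
  rcases hG with hG | hG
  · have hT : M = ⊤ := Subgroup.eq_top_of_card_eq M (hMcard.trans hG.symm)
    exact Or.inl ⟨(Subgroup.topEquiv.symm.trans (MulEquiv.subgroupCongr hT.symm)).trans eM⟩
  refine Or.inr ?_
  have hidx : M.index = 9 := by
    have h := M.card_mul_index
    rw [hMcard, hG] at h
    omega
  -- `M` is not normal
  have hnn : ¬ M.Normal := by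
    intro hN
    set S := X.sub inS sub_check.2.2.2.2.2.2.1 fun _ _ => closed_S with hS
    have hSM : S ≤ M := by
      rintro _ ⟨i, -, rfl⟩
      exact hCM ((X.mem_C _).2 ⟨i, rfl⟩)
    have hScard : Nat.card (S.subgroupOf M) = 64 := by
      rw [Nat.card_congr (Subgroup.subgroupOfEquivOfLe hSM).toEquiv,
        X.card_image inS S fun g => Iff.rfl, sub_check.2.1]
    haveI : Fact (Nat.Prime 2) := ⟨Nat.prime_two⟩
    let P : Sylow 2 M := Sylow.ofCard (S.subgroupOf M) (by
      rw [hScard, hMcard, show (20160 : ℕ) = 2 ^ 6 * 315 by norm_num,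
        Nat.factorization_mul (by norm_num) (by norm_num), Finsupp.add_apply,
        Nat.factorization_pow, Finsupp.smul_apply, Nat.prime_two.factorization_self,
        Nat.factorization_eq_zero_of_not_dvd (show ¬ 2 ∣ 315 by norm_num)]
      norm_num)
    have htop := Sylow.normalizer_sup_eq_top P
    have hz1 : z ≠ 1 := fun e => by
      have := X.orderOf_z
      rw [e, orderOf_one] at this
      omega
    have hzS : z ∈ S := ⟨kz, by decide +kernel, X.z_eq⟩
    have hle : Subgroup.normalizer ((Subgroup.map M.subtype (P : Subgroup M) : Subgroup G) : Set G) ≤ M := by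
      intro n hn
      refine hCM (Subgroup.mem_centralizer_singleton_iff.2 ?_)
      have hmap : Subgroup.map M.subtype (P : Subgroup M) = S :=
        Subgroup.map_subgroupOf_eq_of_le hSM
      rw [hmap] at hn
      have hn' := Subgroup.mem_normalizer_iff.1 hn
      obtain ⟨i, hi, hie⟩ := (hn' z).1 hzS
      have hc := all1_spec center_inS_check i
      simp only [Bool.or_eq_true, Bool.not_eq_true', beq_iff_eq, hi, reduceCtorEq, false_or] at hc
      rcases hc with (hc | hc) | hc
      · refine absurd ?_ hz1
        rw [show i = 0 from Fin.ext hc, X.map_one] at hie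
        exact conj_eq_one_iff.1 hie.symm
      · rw [show i = kz from Fin.ext hc, X.z_eq] at hie
        calc n * z = n * z * n⁻¹ * n := by group
          _ = z * n := by rw [← hie]
      · exfalso
        obtain ⟨j, hj⟩ := any1_spec hc
        simp only [Bool.and_eq_true, Bool.not_eq_true'] at hj
        have hjS : X.φ j ∈ S := ⟨j, hj.1, rfl⟩
        obtain ⟨k, hk, hke⟩ : n⁻¹ * X.φ j * n ∈ S := by
          refine (hn' _).2 ?_
          rwa [show n * (n⁻¹ * X.φ j * n) * n⁻¹ = X.φ j by group]
        have h2 := comm_conj n (X.comm_z k)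
        rw [hke, show n * (n⁻¹ * X.φ j * n) * n⁻¹ = X.φ j by group, ← hie] at h2
        rw [(X.com_iff i j).2 h2.symm] at hj
        exact Bool.noConfusion hj.2
    rw [sup_eq_right.2 hle] at htop
    rw [htop, Subgroup.index_top] at hidx
    omega
  -- the action on the cosets
  let f : G →* Equiv.Perm (G ⧸ M) := MulAction.toPermHom G (G ⧸ M)
  have hker : f.ker = ⊥ := by
    have hk : f.ker = M.normalCore := (Subgroup.normalCore_eq_ker M).symm
    haveI : IsSimpleGroup (alternatingGroup (Fin 8)) :=
      alternatingGroup.isSimpleGroup (by rw [Nat.card_eq_fintype_card, Fintype.card_fin]; norm_num)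
    haveI : Nontrivial M := Finite.one_lt_card_iff_nontrivial.1 (by rw [hMcard]; norm_num)
    haveI : IsSimpleGroup M := IsSimpleGroup.isSimpleGroup_of_surjective eM.symm.toMonoidHom eM.symm.surjective
    have hle : M.normalCore ≤ M := M.normalCore_le
    rcases ((M.normalCore_normal).subgroupOf M).eq_bot_or_eq_top with h | h
    · rw [hk]
      rw [Subgroup.subgroupOf_eq_bot, disjoint_iff, inf_eq_left.2 hle] at h
      exact h
    · exfalso
      refine hnn ?_
      rw [← le_antisymm hle (Subgroup.subgroupOf_eq_top.1 h)]
      exact M.normalCore_normal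
  haveI : Fintype (G ⧸ M) := Fintype.ofFinite _
  have e9 : G ⧸ M ≃ Fin 9 := (Finite.equivFinOfCardEq (by rw [← Subgroup.index_eq_card, hidx]))
  let ψ : G →* Equiv.Perm (Fin 9) := (e9.permCongrHom.toMonoidHom).comp f
  have hψ : Function.Injective ψ := e9.permCongrHom.injective.comp ((f.ker_eq_bot_iff).1 hker)
  have hr : ψ.range = alternatingGroup (Fin 9) := by
    refine Equiv.Perm.eq_alternatingGroup_of_index_eq_two ?_
    have h := ψ.range.card_mul_index
    rw [← Nat.card_congr (MonoidHom.ofInjective hψ).toEquiv, hG, Nat.card_perm,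
      Nat.card_eq_fintype_card, Fintype.card_fin,
      show Nat.factorial 9 = 181440 * 2 by rfl] at h
    omega
  exact ⟨(MonoidHom.ofInjective hψ).trans (MulEquiv.subgroupCongr hr)⟩

end CfsgLib.InvChar.AEight
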