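import Cfsg.Agent.Lib.InvChar.AEight.CentWChecks

/-!
Finite counts for the order formula.
-/

set_option autoImplicit false
set_option maxRecDepth 100000

namespace CfsgLib.InvChar.AEight

/-- The index of a power. -/
def powI (w : I) : ℕ → I
  | 0 => 0
  | n + 1 => mul (powI w n) w

/-- Whether `x` is a power of `w`. -/
def hasPow (w x : I) : Bool := (List.range 24).any fun n => (powI w n).val == x.val

theorem pow_exponent : (all1 fun w => (powI w 24).val == 0) = true := by decide +kernel

/-- The number of pairs with a property. -/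
def cnt2 (P : I → I → Bool) : ℕ := ((List.range 192).map fun i => cnt (P (fin i))).sum

theorem cnt2_eq (P : I → I → Bool) : cnt2 P = Nat.card {p : I × I // P p.1 p.2 = true} := by
  classical
  rw [Nat.card_congr (Equiv.subtypeProdEquivSigmaSubtype fun i j => P i j = true), Nat.card_sigma]
  simp only [← cnt_eq]
  rw [cnt2]
  have h : ∀ i : I, cnt (P i) = (fun n : ℕ => cnt (P (fin n))) i.val := fun i => by
    show cnt (P i) = cnt (P (fin i.val))
    rw [fin_val]
  rw [Finset.sum_congr rfl fun i _ => h i]
  exact (Fin.sum_univ_eq_sum_range (fun n => cnt (P (fin n))) 192).symm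

theorem count_z : cnt2 (fun i j => zLab i && (wLab j && hasPow (mul i j) kz)) = 156 := by
  decide +kernel

theorem count_T : cnt2 (fun i j => sZ i && (sU j && hasPow (mul i j) kz)) = 2 ∧
    cnt2 (fun i j => sZ i && (sU j && hasPow (mul i j) ku)) = 0 ∧
    cnt2 (fun i j => sE i && (sC j && hasPow (mul i j) kz)) = 16 ∧
    cnt2 (fun i j => sE i && (sC j && hasPow (mul i j) ku)) = 0 ∧
    cnt2 (fun i j => sZ i && (sC j && hasPow (mul i j) kz)) = 0 ∧
    cnt2 (fun i j => sZ i && (sC j && hasPow (mul i j) ku)) = 8 := by
  decide +kernel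

theorem rep_check : sZ kz = true ∧ sU ku = true ∧ sD kd = true ∧ sE (fin 127) = true ∧
    sC kc = true ∧ sW ka2 = true ∧ com (fin 127) ka2 = true ∧ lab ku ≠ 0 ∧ lab kd ≠ 0 ∧
    lab (fin 127) ≠ 0 ∧ lab kc ≠ 0 ∧ mul kz kc = fin 66 ∧ sC (fin 66) = true ∧
    inA kz = true ∧ inB kz = true ∧ inA ku = true ∧ inB ku = true ∧ inA ka2 = true ∧ inB ka2 = true ∧
    inA kd = true ∧ inB kd = false ∧ inA (fin 127) = true ∧ inB (fin 127) = false ∧
    inA kc = false ∧ inB kc = true := by
  decide +kernel

theorem three_times_z : (all1 fun i => !(lab i == 3) || lab (mul i kz) == 3) = true := by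
  decide +kernel

/-- The centralisers of order eight are commutative. -/
theorem eight_check : (all1 fun i => !(com i kc && com i ka2) ||
    ((all1 fun j => !(com j kc && com j ka2) || com i j) && (i.val == 0 || !(lab i == 0)))) = true := by
  decide +kernel

end CfsgLib.InvChar.AEight
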