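import Cfsg.Agent.Lib.InvChar.AEight.Checks
import Cfsg.Agent.Lib.InvChar.AEight.Data

/-!
Finite checks for the two elements of order three normalising the elementary group of order 16.
-/

set_option autoImplicit false
set_option maxRecDepth 100000
set_option maxHeartbeats 1000000

namespace CfsgLib.InvChar.AEight

/-- The value of a letter of the centraliser. -/
def letV (x : Fin 4 × Bool) : I :=
  bif x.2 then (bif x.1.val == 0 then kc1 else kc2) else inv (bif x.1.val == 0 then kc1 else kc2)

/-- The value of a word of the centraliser. -/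
def evI (w : Wd) : I := w.foldr (fun x acc => mul (letV x) acc) 0

theorem cWd_check : (all1 fun i => (evI (cWd i)).val == i.val &&
    (cWd i).all fun x => decide (x.1.val < 2)) = true := by
  decide +kernel

theorem cRels_check : (cRels.all fun w => (evI w).val == 0 &&
    w.all fun x => decide (x.1.val < 2)) = true := by
  decide +kernel

/-- Whether the label belongs to the class of the central involution. -/
def zlab (i : I) : Bool := lab i == 1 || lab i == 2 || lab i == 4 || lab i == 6

/-- Whether the label belongs to the other class. -/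
def wlab (i : I) : Bool := lab i == 3 || lab i == 5

/-- Extension from the basis `kp`, `kz`, `ka3`, `ka2` of `inA`. -/
def linA (p q r s : I) (x : I) : I :=
  mul (mul (mul (bif Nat.testBit (coA x) 0 then p else 0) (bif Nat.testBit (coA x) 1 then q else 0))
    (bif Nat.testBit (coA x) 2 then r else 0)) (bif Nat.testBit (coA x) 3 then s else 0)

/-- Whether the extension respects both classes. -/
def cand (p q r s : I) : Bool :=
  all1 fun x => !inA x || (zlab x == zlab (linA p q r s x) && wlab x == wlab (linA p q r s x))

/-- The first word. -/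
def word1 (f : I → I) (v x : I) : I := f (f (cj v (f (f (f x)))))

/-- The second word. -/
def word2 (f : I → I) (v x : I) : I := f (cj v (f (f (cj v (f (f x))))))

/-- The third word. -/
def word3 (f : I → I) (v x : I) : I := f (f (cj v (f (cj v (f (f x))))))

/-- Whether a map fixes `kz` and is no conjugation of the centraliser. -/
def bad (W : I → I) : Bool :=
  (W kz).val == kz.val && all1 fun i => any1 fun x => inA x && !((cj i x).val == (W x).val)

/-- Whether a map becomes the given one after a conjugation of the centraliser. -/
def good (f m : I → I) : Bool :=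
  any1 fun i => all1 fun x => !inA x || (inA (cj i x) && (f (cj i x)).val == (m x).val)

/-- The conjugating element in the first word, for `mA1`. -/
def kv1 : I := fin 12
/-- The conjugating element in the first word, for `mA3`. -/
def kv3 : I := fin 36
/-- The conjugating element in the second word, for `mA3`. -/
def kv3' : I := fin 24

theorem basis_check : inA kp = true ∧ inA kz = true ∧ inA ka3 = true ∧ inA ka2 = true ∧
    inA kv1 = false ∧ inA kv3 = false ∧ inA kv3' = false ∧ (all1 fun x => !inA x ||
      ((linA kp kz ka3 ka2 x).val == x.val && inA (mA1 x) && inA (mA3 x) && com x kz &&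
        (mA1 (mA1 (mA1 x))).val == x.val && (mA3 (mA3 (mA3 x))).val == x.val &&
        (mA1 (mA3 x)).val == (mA3 (mA1 x)).val && inA (cj kv1 x) && inA (cj kv3 x) &&
        inA (cj kv3' x) && inA (cj kb1 x) && inA (cj kb3 x) &&
        (cj kb1 (mA3 (cj kb1 (mA3 x)))).val == x.val &&
        (cj kb3 (mA1 (cj kb3 (mA1 x)))).val == x.val &&
        (!((mA1 x).val == x.val) || x.val == 0) && (!((mA3 x).val == x.val) || x.val == 0))) =
      true := by
  decide +kernel

theorem closedA_check : (all1 fun x => !inA x || all1 fun y => !inA y || inA (mul x y)) = true ∧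
    (all1 fun i => (any1 fun x => inA x && !com i x) || inA i) = true := by
  decide +kernel

theorem cand1_check : (all1 fun p => !(inA p && zlab p == zlab kp && wlab p == wlab kp) ||
    all1 fun r => !(inA r && zlab r == zlab ka3 && wlab r == wlab ka3) ||
    all1 fun s => !(inA s && zlab s == zlab ka2 && wlab s == wlab ka2) ||
    !cand p (mA1 kz) r s || good (linA p (mA1 kz) r s) mA1 ||
    bad (word1 (linA p (mA1 kz) r s) kv1) || bad (word2 (linA p (mA1 kz) r s) kv1)) = true := by
  decide +kernel

theorem cand3_check : (all1 fun p => !(inA p && zlab p == zlab kp && wlab p == wlab kp) ||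
    all1 fun r => !(inA r && zlab r == zlab ka3 && wlab r == wlab ka3) ||
    all1 fun s => !(inA s && zlab s == zlab ka2 && wlab s == wlab ka2) ||
    !cand p (mA3 kz) r s || good (linA p (mA3 kz) r s) mA3 ||
    bad (word1 (linA p (mA3 kz) r s) kv3) || bad (word3 (linA p (mA3 kz) r s) kv3')) = true := by
  decide +kernel

theorem comm_adjust : (all1 fun c => !inA c || any1 fun a => inA a &&
    (mul (mul a c) (mA1 a)).val == 0) = true := by
  decide +kernel

theorem fix1_check : inA kb1 = false ∧ inE kb1 = true ∧ zlab kb1 = true ∧
    mA1 (mA1 (mA1 kz)) = kz ∧ com kb1 (mA1 (mA1 kz)) = true ∧ com kb1 kz = true ∧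
    zlab (mA1 kz) = true ∧
    (all1 fun x => inA x || !zlab x || !com x (mA1 kz) || inE x) = true := by
  decide +kernel

theorem fix3_check : inA kb3 = false ∧ inF kb3 = true ∧ zlab kb3 = true ∧
    mA3 (mA3 (mA3 kz)) = kz ∧ com kb3 (mA3 (mA3 kz)) = true ∧ com kb3 kz = true ∧
    zlab (mA3 kz) = true ∧
    (all1 fun x => inA x || !zlab x || !com x (mA3 kz) || inF x) = true := by
  decide +kernel

/-- Whether `kb3` times `w` is fixed, the image of `kb3` being `u`. -/
def fixF (u w : I) : Bool := inA w && (mul u (mA3 w)).val == (mul kb3 w).val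

theorem move1_check : (all1 fun u => inA u || !inE u || any1 fun w => inA w &&
    (mul u (mA1 w)).val == (mul kb1 w).val && any1 fun a => inA a &&
      (cj a (mul kb1 w)).val == kb1.val) = true := by
  decide +kernel

theorem move3_check : (all1 fun u => inA u || !inF u || any1 fun w => fixF u w &&
    (inA (mul kb3 (cj kb1 (mul kb3 w))) && (!fixF u (mul kb3 (cj kb1 (mul kb3 w))) ||
      any1 fun a => inA a && com a kb1 && (cj a (mul kb3 w)).val == kb3.val &&
        com kb1 (mul kb3 w)))) = true ∧ mul kb3 kb3 = 0 ∧ mul kb1 kb1 = 0 := by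
  decide +kernel

theorem actE_check : (all1 fun c => !inE c || (com kz c &&
    ((inA c && (mE1 c).val == (mA1 c).val) ||
    (inA (mul kb1 c) && (mE1 c).val == (mul kb1 (mA1 (mul kb1 c))).val)))) = true ∧
    (all1 fun c => !inF c || (com kz c &&
    ((inA c && (mF3 c).val == (mA3 c).val) ||
    (inA (mul kb3 c) && (mF3 c).val == (mul kb3 (mA3 (mul kb3 c))).val)))) = true := by
  decide +kernel

/-- The action of a letter. -/
def actL (m : I → I) (l : Fin 4 × Bool) (c : I) : I :=
  bif decide (l.1.val < 2) then cj (letV l) c else bif l.2 then m c else m (m c)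

/-- The action of a word. -/
def actW (m : I → I) : Wd → I → I
  | [], c => c
  | l :: w, c => actL m l (actW m w c)

/-- The word conjugating the product of order four. -/
def hW1 : Wd := wx1 ++ (cWd kx1 ++ [(2, true)]) ++ wInv wx1
/-- The word conjugating the product of order four. -/
def hW3 : Wd := wx3 ++ (cWd kx3 ++ [(3, true)]) ++ wInv wx3

theorem four1_check : (all1 fun c => !inE c ||
      ((actW mE1 hW1 c).val == (cj ky1 c).val && inE (mE1 c) &&
        inE (cj kc1 c) && inE (cj kc2 c) && inE (cj (inv kc1) c) && inE (cj (inv kc2) c) &&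
        (mE1 (mE1 (mE1 c))).val == c.val)) = true ∧
    inE kz = true ∧ (hW1.all fun x => decide (x.1.val < 2) || x.1 == 2) = true ∧
    (all1 fun j => (any1 fun c => inE c && !com j c) ||
      (mul (mul (mul ky1 j) (mul ky1 j)) (mul (mul ky1 j) (mul ky1 j))).val == 0) = true := by
  decide +kernel

theorem four3_check : (all1 fun c => !inF c ||
      ((actW mF3 hW3 c).val == (cj ky3 c).val && inF (mF3 c) &&
        inF (cj kc1 c) && inF (cj kc2 c) && inF (cj (inv kc1) c) && inF (cj (inv kc2) c) &&
        (mF3 (mF3 (mF3 c))).val == c.val)) = true ∧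
    inF kz = true ∧ (hW3.all fun x => decide (x.1.val < 2) || x.1 == 3) = true ∧
    (all1 fun j => (any1 fun c => inF c && !com j c) ||
      (mul (mul (mul ky3 j) (mul ky3 j)) (mul (mul ky3 j) (mul ky3 j))).val == 0) = true := by
  decide +kernel

end CfsgLib.InvChar.AEight
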